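import Mathlib

/-!
# q-Baer groups (S4125): shared definitions

`BaerAct p H V`: a finite group `H` acts faithfully and coprimely on a finite abelian group `V`
with all orbits of `p`-power length.  `BaerMin` adds the two facts available in a minimal
counterexample to "such an `H` is solvable".  `SemiCtx` is the pure linear-algebra context of the
case `p = 2` with a non-cyclic Sylow 2-subgroup.
-/

set_option autoImplicit false

namespace Cfsg.Agent.Lib.Helper80

/-- `H` acts faithfully on the abelian group `V`, `|H|` is prime to `|V|`, and every point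
stabilizer has `p`-power index (every orbit has `p`-power length). -/
structure BaerAct (p : ℕ) (H : Type*) (V : Type*) [Group H] [AddCommGroup V]
    [DistribMulAction H V] : Prop where
  faithful : ∀ h : H, (∀ v : V, h • v = v) → h = 1
  coprime : (Nat.card H).Coprime (Nat.card V)
  orbit : ∀ v : V, ∃ k : ℕ, (MulAction.stabilizer H v).index = p ^ k

/-- A `BaerAct` in which every proper normal subgroup of `H` is solvable and `V` has no proper
nonzero `H`-invariant subgroup (the situation of a minimal counterexample). -/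
structure BaerMin (p : ℕ) (H : Type*) (V : Type*) [Group H] [AddCommGroup V]
    [DistribMulAction H V] : Prop extends BaerAct p H V where
  R1 : ∀ N : Subgroup H, N.Normal → N ≠ ⊤ → Group.IsSolvable N
  R2 : ∀ W : AddSubgroup V, (∀ (h : H) (w : V), w ∈ W → h • w ∈ W) → W = ⊥ ∨ W = ⊤

/-- Linear-algebra context for the case `p = 2`, Sylow 2-subgroup `⟨c, j⟩` non-cyclic with cyclic
maximal subgroup `⟨c⟩` of order `2 ^ s`, written in the ring `AddMonoid.End V`: `V` is a
nontrivial elementary abelian `q`-group (`q` odd), `c ^ (2 ^ (s - 1)) = -1`, `j` inverts `c`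
up to the sign `-1`, `j ^ 2 = ± 1`, `V` is irreducible under `⟨c, j⟩`, and every involution `e`
of `V` commuting with `c` and commuting with `j` up to sign is `± 1`. -/
structure SemiCtx (q : ℕ) (V : Type*) [AddCommGroup V] (c j : AddMonoid.End V) (s : ℕ) :
    Prop where
  hs : 2 ≤ s
  hq : q.Prime
  hodd : q ≠ 2
  hqV : ∀ v : V, q • v = 0
  hnt : Nontrivial V
  hc : c ^ (2 ^ (s - 1)) = -1
  hj : c * j * c = j ∨ (3 ≤ s ∧ c * j * c = -j)
  hj2 : j * j = 1 ∨ j * j = -1
  irr : ∀ W : AddSubgroup V, (∀ w ∈ W, c w ∈ W) → (∀ w ∈ W, j w ∈ W) → W = ⊥ ∨ W = ⊤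
  il : ∀ e : AddMonoid.End V, e * e = 1 → e * c = c * e → (j * e = e * j ∨ j * e = -(e * j)) →
    (e = 1 ∨ e = -1)

end Cfsg.Agent.Lib.Helper80
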