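import Mathlib
import Cfsg.Agent.Lib.Helper48.QADefs

/-!
# Project QA (helper48, S2787): piece QA-BTRACE

An element `d = a + b c` of `SL₂` with the same trace as `c`, where `tr c ^ 2 ≠ 4`, is `c` or `c⁻¹`.
-/

set_option autoImplicit false

universe u

namespace Cfsg.Agent.Lib.Helper48.QA

open Matrix Polynomial

local notation "SL2" F => Matrix.SpecialLinearGroup (Fin 2) F
local notation "PSL2" F => Matrix.ProjectiveSpecialLinearGroup (Fin 2) F
local notation "M2" F => Matrix (Fin 2) (Fin 2) F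

/-- QA-BTRACE -/
theorem eq_or_inv {F : Type*} [Field F] (h2 : (2 : F) ≠ 0) (c d : SL2 F) (a b : F)
    (hd : (d : M2 F) = a • (1 : M2 F) + b • (c : M2 F))
    (ht : Matrix.trace (d : M2 F) = Matrix.trace (c : M2 F))
    (hτ : Matrix.trace (c : M2 F) ^ 2 ≠ 4) : d = c ∨ d = c⁻¹ := by
  have hc : (c : M2 F).det = 1 := c.2
  have hdd : (d : M2 F).det = 1 := d.2
  rw [Matrix.det_fin_two] at hc hdd
  rw [Matrix.trace_fin_two] at hτ
  rw [Matrix.trace_fin_two, Matrix.trace_fin_two] at ht
  have e00 : (d : M2 F) 0 0 = a + b * (c : M2 F) 0 0 := by rw [hd]; simp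
  have e01 : (d : M2 F) 0 1 = b * (c : M2 F) 0 1 := by rw [hd]; simp
  have e10 : (d : M2 F) 1 0 = b * (c : M2 F) 1 0 := by rw [hd]; simp
  have e11 : (d : M2 F) 1 1 = a + b * (c : M2 F) 1 1 := by rw [hd]; simp
  rw [e00, e01, e10, e11] at hdd
  rw [e00, e11] at ht
  have key : (1 - b ^ 2) * (((c : M2 F) 0 0 + (c : M2 F) 1 1) ^ 2 - 4) = 0 := by
    linear_combination 4 * hdd - 4 * b ^ 2 * hc
      - (2 * a + b * ((c : M2 F) 0 0 + (c : M2 F) 1 1) + ((c : M2 F) 0 0 + (c : M2 F) 1 1)) * ht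
  have hτ' : ((c : M2 F) 0 0 + (c : M2 F) 1 1) ^ 2 - 4 ≠ 0 := fun h => hτ (by linear_combination h)
  have hb2 : (1 - b) * (1 + b) = 0 := by
    have := (mul_eq_zero.mp key).resolve_right hτ'
    linear_combination this
  rcases mul_eq_zero.mp hb2 with hb | hb
  · -- `b = 1`, `a = 0`
    have hb1 : b = 1 := by linear_combination -hb
    have ha : a = 0 := by
      have h2a : 2 * a = 0 := by rw [hb1] at ht; linear_combination ht
      exact (mul_eq_zero.mp h2a).resolve_left h2
    left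
    apply Subtype.ext
    rw [hd, ha, hb1]
    simp
  · -- `b = -1`, `a = tr c`
    have hb1 : b = -1 := by linear_combination hb
    have ha : a = (c : M2 F) 0 0 + (c : M2 F) 1 1 := by
      have h2a : 2 * (a - ((c : M2 F) 0 0 + (c : M2 F) 1 1)) = 0 := by
        rw [hb1] at ht; linear_combination ht
      have := (mul_eq_zero.mp h2a).resolve_left h2
      linear_combination this
    right
    apply Subtype.ext
    have hinv : ((c⁻¹ : SL2 F) : M2 F) = Matrix.adjugate (c : M2 F) :=
      Matrix.SpecialLinearGroup.coe_inv c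
    rw [hinv, Matrix.adjugate_fin_two]
    ext i j
    fin_cases i <;> fin_cases j
    · show (d : M2 F) 0 0 = (c : M2 F) 1 1
      rw [e00, ha, hb1]; ring
    · show (d : M2 F) 0 1 = -(c : M2 F) 0 1
      rw [e01, hb1]; ring
    · show (d : M2 F) 1 0 = -(c : M2 F) 1 0
      rw [e10, hb1]; ring
    · show (d : M2 F) 1 1 = (c : M2 F) 0 0
      rw [e11, ha, hb1]; ring

end Cfsg.Agent.Lib.Helper48.QA

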