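import Mathlib

/-!
# Project QB (helper48, S2359): piece QB-KEYBP
-/

set_option autoImplicit false

namespace Cfsg.Agent.Lib.Helper48.QB

-- QB-KEYBP
theorem keyB_prime {G : Type*} [Group G] [Finite G] (J : G) (q : ℕ) (hq8 : q % 8 = 3)
    (hG : Nat.card G = q ^ 3 * (q - 1) * (q ^ 3 + 1))
    (hCJ : Nat.card (Subgroup.centralizer {J}) = q * (q - 1) * (q + 1))
    (hJ1 : J ≠ 1) (hJ2 : J * J = 1)
    (hinter : ∀ (y v : G), (orderOf y).Prime → y ^ ((q + 1) / 4) = 1 → v ≠ 1 → v * v = 1 →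
      v * y = y * v →
      Nat.card (Subgroup.centralizer ({y, v} : Set G)) = q + 1 ∧
      ∀ a ∈ Subgroup.centralizer ({y, v} : Set G), ∀ b ∈ Subgroup.centralizer ({y, v} : Set G),
        a * b = b * a)
    (hord3 : ∀ y u : G, orderOf u = 3 → u * y = y * u → orderOf y ∣ q ^ 3 * (q - 1))
    (hnt : ∀ r : ℕ, r.Prime → r ∣ (q + 1) / 4 →
      (q * (q - 1) * (q + 1)).factorization r = (q ^ 3 * (q - 1) * (q ^ 3 + 1)).factorization r ∧
      r ≠ 2 ∧ r ≠ 3 ∧ ¬ r ∣ q ^ 3 * (q - 1) ∧ r ∣ q + 1)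
    (hsyl : ∀ (M : Subgroup G) (r : ℕ), r.Prime →
      (Nat.card M).factorization r = (Nat.card G).factorization r →
      ∀ y : G, orderOf y = r → ∃ g : G, g * y * g⁻¹ ∈ M)
    (hconj : ∀ g y : G, Nonempty (Subgroup.centralizer {y} ≃* Subgroup.centralizer {g * y * g⁻¹}))
    (hcf : ∀ (y : G), (∃ v : G, v ≠ 1 ∧ v * v = 1 ∧ v * y = y * v) →
      (∀ v : G, v ≠ 1 → v * v = 1 → v * y = y * v →
        Nat.card (Subgroup.centralizer ({y, v} : Set G)) = q + 1 ∧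
        ∀ a ∈ Subgroup.centralizer ({y, v} : Set G),
          ∀ b ∈ Subgroup.centralizer ({y, v} : Set G), a * b = b * a) →
      (∀ u : G, orderOf u = 3 → u * y ≠ y * u) →
      Nat.card (Subgroup.centralizer {y}) = q + 1 ∧
        ∀ a ∈ Subgroup.centralizer {y}, ∀ b ∈ Subgroup.centralizer {y}, a * b = b * a)
    (y : G) (hy : (orderOf y).Prime) (hyn : y ^ ((q + 1) / 4) = 1) :
    Nat.card (Subgroup.centralizer {y}) = q + 1 ∧
      ∀ a ∈ Subgroup.centralizer {y}, ∀ b ∈ Subgroup.centralizer {y}, a * b = b * a := by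
  have hdvd : orderOf y ∣ (q + 1) / 4 := orderOf_dvd_of_pow_eq_one hyn
  obtain ⟨hfac, -, -, hnd, -⟩ := hnt (orderOf y) hy hdvd
  obtain ⟨g, hg⟩ := hsyl (Subgroup.centralizer {J}) (orderOf y) hy (by rw [hCJ, hG]; exact hfac)
    y rfl
  have hJy : J * (g * y * g⁻¹) = (g * y * g⁻¹) * J :=
    (Subgroup.mem_centralizer_iff.mp hg) J (Set.mem_singleton J)
  have hord : orderOf (g * y * g⁻¹) = orderOf y := by
    have h1 : g * y * g⁻¹ = MulAut.conj g y := by rw [MulAut.conj_apply]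
    rw [h1]
    exact MulEquiv.orderOf_eq (MulAut.conj g) y
  have hy1 : (orderOf (g * y * g⁻¹)).Prime := by rw [hord]; exact hy
  have hyn1 : (g * y * g⁻¹) ^ ((q + 1) / 4) = 1 := by
    apply orderOf_dvd_iff_pow_eq_one.mp
    rw [hord]; exact hdvd
  have hmain := hcf (g * y * g⁻¹) ⟨J, hJ1, hJ2, hJy⟩
    (fun v hv1 hv2 hvy => hinter (g * y * g⁻¹) v hy1 hyn1 hv1 hv2 hvy)
    (fun u hu hcomm => hnd (by
      have h2 := hord3 (g * y * g⁻¹) u hu hcomm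
      rw [hord] at h2
      exact h2))
  obtain ⟨e⟩ := hconj g y
  refine ⟨?_, ?_⟩
  · rw [Nat.card_congr e.toEquiv]
    exact hmain.1
  · intro a ha b hb
    have h3 := hmain.2 (e ⟨a, ha⟩).1 (e ⟨a, ha⟩).2 (e ⟨b, hb⟩).1 (e ⟨b, hb⟩).2
    have h4 : e ⟨a, ha⟩ * e ⟨b, hb⟩ = e ⟨b, hb⟩ * e ⟨a, ha⟩ := Subtype.ext h3
    rw [← map_mul, ← map_mul] at h4
    have h5 := e.injective h4
    exact congrArg Subtype.val h5

end Cfsg.Agent.Lib.Helper48.QB
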