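import Mathlib
import Cfsg.Agent.Lib.Helper49.Sp4Base

set_option autoImplicit false

/-!
Piece A of S2460 (job 1303): if `h = g + g⁻¹` satisfies a quadratic and has no eigenvector,
then `g` is tame with `ε = 1`.
-/

namespace Cfsg.Agent.Lib.Helper80.Sp4T

open Cfsg.Agent.Lib.Helper49.Sp4T

section

variable {F : Type*} [Field F] {V : Type*} [AddCommGroup V] [Module F V]
  (ω : LinearMap.BilinForm F V) (g : V ≃ₗ[F] V)

/-- if `y ≠ 0` lies in `⟨v, h v⟩` then `v` lies in `⟨y, h y⟩` -/
theorem tameA_key (c1 c0 : F) (hq : ∀ v, hh g (hh g v) = c1 • hh g v - c0 • v)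
    (hA : ∀ (μ : F) (v : V), hh g v = μ • v → v = 0)
    (v y : V) (α β : F) (hy : y = α • v + β • hh g v) (hy0 : y ≠ 0) :
    ∃ α' β' : F, v = α' • y + β' • hh g y := by
  have hhy : hh g y = (-(β * c0)) • v + (α + β * c1) • hh g v := by
    rw [hy, hh_add, hh_smul, hh_smul, hq]
    module
  have hδ : α * α + α * β * c1 + β * β * c0 ≠ 0 := by
    intro h0
    by_cases hb : β = 0
    · subst hb
      have hα : α = 0 := by simpa using h0
      subst hα
      apply hy0
      rw [hy]
      simp
    · apply hy0
      apply hA ((α + β * c1) / β) y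
      rw [hhy, hy]
      match_scalars
      · field_simp
        linear_combination -h0
      · field_simp
  obtain ⟨δ, hδdef⟩ : ∃ δ : F, δ = α * α + α * β * c1 + β * β * c0 := ⟨_, rfl⟩
  rw [← hδdef] at hδ
  have hδ1 : δ⁻¹ * δ = 1 := inv_mul_cancel₀ hδ
  refine ⟨δ⁻¹ * (α + β * c1), -(δ⁻¹ * β), ?_⟩
  rw [hhy, hy]
  match_scalars
  · linear_combination -hδ1 + δ⁻¹ * hδdef
  · ring

/-- PIECE A -/
theorem tame_A (hω : Symp ω) (hg : Isom ω g)
    (hq : ∃ c1 c0 : F, ∀ v, hh g (hh g v) = c1 • hh g v - c0 • v)
    (hA : ∀ (μ : F) (v : V), hh g v = μ • v → v = 0) : TameE ω g 1 := by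
  obtain ⟨c1, c0, hq⟩ := hq
  have hind : ∀ v : V, v ≠ 0 → ∀ a b : F, a • v + b • hh g v = 0 → a = 0 ∧ b = 0 := by
    intro v hv a b hab
    have hb : b = 0 := by
      by_contra hb
      apply hv
      apply hA (-(a / b)) v
      have h1 : b • hh g v = -(a • v) := eq_neg_of_add_eq_zero_right hab
      have h2 : hh g v = b⁻¹ • (b • hh g v) := by
        rw [smul_smul, inv_mul_cancel₀ hb, one_smul]
      rw [h2, h1]
      match_scalars
      field_simp
    subst hb
    rw [zero_smul, add_zero] at hab
    rcases smul_eq_zero.mp hab with h | h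
    · exact ⟨h, rfl⟩
    · exact absurd h hv
  by_cases hex : ∃ v : V, v ≠ 0 ∧ ¬ ∃ a b : F, g v = a • v + b • hh g v
  · obtain ⟨v, hv0, hv⟩ := hex
    refine ⟨v, hh g v, ?_, ?_, ?_, ?_⟩
    · rw [LinearIndependent.pair_iff]
      intro a b hab
      exact hind v hv0 a b hab
    · rw [hω.swap, hg.hh_alt hω, neg_zero]
    · rw [← hg.hh_left]
      exact hω.alt _
    · intro a b hmem
      rw [Submodule.mem_span_pair] at hmem
      obtain ⟨c, d, hcd⟩ := hmem
      have hx0 : a • v + b • hh g v = 0 := by
        by_contra hx0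
        obtain ⟨α', β', hv'⟩ := tameA_key g c1 c0 hq hA v _ a b rfl hx0
        apply hv
        have h1 : g v = α' • g (a • v + b • hh g v) + β' • hh g (g (a • v + b • hh g v)) := by
          rw [hh_comm, ← map_smul, ← map_smul, ← map_add, ← hv']
        rw [← hcd, hh_add, hh_smul, hh_smul, hq] at h1
        refine ⟨α' * c - β' * d * c0, α' * d + β' * c + β' * d * c1, ?_⟩
        rw [h1]
        module
      rw [hx0]
      simp
  · exfalso
    push Not at hex
    have hfin : 0 < Module.finrank F V := by rw [hω.dim]; norm_num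
    have hfinV : Module.Finite F V := Module.finite_of_finrank_pos hfin
    obtain ⟨v, hv0⟩ : ∃ v : V, v ≠ 0 := Module.finrank_pos_iff_exists_ne_zero.mp hfin
    obtain ⟨a, b, hab⟩ := hex v hv0
    have hgen : ∀ w : V, g w = a • w + b • hh g w := by
      intro w
      by_cases hw : ∃ α β : F, w = α • v + β • hh g v
      · obtain ⟨α, β, rfl⟩ := hw
        rw [map_add, map_smul, map_smul, ← hh_comm, hab, hh_add, hh_smul, hh_smul, hh_add,
          hh_smul, hh_smul]
        module
      · have hw0 : w ≠ 0 := by
          rintro rfl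
          exact hw ⟨0, 0, by simp⟩
        obtain ⟨a', b', hab'⟩ := hex w hw0
        have hvw0 : v + w ≠ 0 := by
          intro h0
          apply hw
          refine ⟨-1, 0, ?_⟩
          rw [eq_neg_of_add_eq_zero_right h0]
          simp
        obtain ⟨a'', b'', hab''⟩ := hex (v + w) hvw0
        have heq : (a - a'') • v + (b - b'') • hh g v
            = (a'' - a') • w + (b'' - b') • hh g w := by
          have h1 := hab''
          rw [map_add, hab, hab', hh_add] at h1
          have h2 : (a - a'') • v + (b - b'') • hh g v - ((a'' - a') • w + (b'' - b') • hh g w)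
              = (a • v + b • hh g v + (a' • w + b' • hh g w))
                - (a'' • (v + w) + b'' • (hh g v + hh g w)) := by
            module
          rw [h1, sub_self] at h2
          exact sub_eq_zero.mp h2
        have hy0 : (a'' - a') • w + (b'' - b') • hh g w = 0 := by
          by_contra hy0
          obtain ⟨α', β', hw'⟩ := tameA_key g c1 c0 hq hA w _ (a'' - a') (b'' - b') rfl hy0
          apply hw
          rw [← heq] at hw'
          rw [hh_add, hh_smul, hh_smul, hq] at hw'
          refine ⟨α' * (a - a'') - β' * (b - b'') * c0,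
            α' * (b - b'') + β' * (a - a'') + β' * (b - b'') * c1, ?_⟩
          rw [hw']
          module
        obtain ⟨h1, h2⟩ := hind w hw0 _ _ hy0
        rw [hy0] at heq
        obtain ⟨h3, h4⟩ := hind v hv0 _ _ heq
        have ea : a' = a := by linear_combination -h1 - h3
        have eb : b' = b := by linear_combination -h2 - h4
        rw [hab', ea, eb]
    have hsa : ∀ x y, ω (g x) y = ω x (g y) := by
      intro x y
      rw [hgen x, hgen y]
      simp only [map_add, map_smul, LinearMap.add_apply, LinearMap.smul_apply, smul_eq_mul]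
      rw [hg.hh_adj]
    have hinv : ∀ y, g y = g.symm y := by
      intro y
      have h1 : ∀ x, ω (g y - g.symm y) x = 0 := by
        intro x
        rw [map_sub, LinearMap.sub_apply, hg.symm_left, hsa]
        ring
      exact sub_eq_zero.mp (hω.nondeg _ h1)
    have hgg : ∀ x, g (g x) = x := by
      intro x
      have h1 := hinv (g x)
      rw [LinearEquiv.symm_apply_apply] at h1
      exact h1
    have hy : g v + v = 0 := by
      apply hA 2 (g v + v)
      unfold hh
      rw [← hinv, map_add, hgg]
      module
    apply hv0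
    apply hA (-2) v
    unfold hh
    rw [← hinv, eq_neg_of_add_eq_zero_left hy]
    module

end

end Cfsg.Agent.Lib.Helper80.Sp4T
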