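import Mathlib
import Cfsg.Agent.Lib.Helper49.Sp4Base

set_option autoImplicit false

/-!
Piece C of S2460 (job 1305): if `N = h - μ` (with `h = g + g⁻¹`) is a nonzero operator of square
zero, then `g` is tame with `ε = 1`.
-/

namespace Cfsg.Agent.Lib.Helper80.Sp4T

open Cfsg.Agent.Lib.Helper49.Sp4T

section

variable {F : Type*} [Field F] {V : Type*} [AddCommGroup V] [Module F V]
  (ω : LinearMap.BilinForm F V) (g : V ≃ₗ[F] V)

/-- PIECE C -/
theorem tame_C (hω : Symp ω) (hg : Isom ω g) (μ : F)
    (hC : ∀ v, hh g (hh g v) = (μ + μ) • hh g v - (μ * μ) • v)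
    (hns : ∃ v, hh g v ≠ μ • v) : TameE ω g 1 := by
  obtain ⟨N, hN⟩ : ∃ N : V →ₗ[F] V, ∀ v, N v = hh g v - μ • v :=
    ⟨(g : V →ₗ[F] V) + (g.symm : V →ₗ[F] V) - μ • LinearMap.id, fun v => rfl⟩
  have hNN : ∀ v, N (N v) = 0 := by
    intro v
    rw [hN (N v), hN v]
    have h1 : hh g (hh g v - μ • v) = hh g (hh g v) - μ • hh g v := by
      have : hh g v - μ • v = hh g v + (-μ) • v := by module
      rw [this, hh_add, hh_smul]
      module
    rw [h1, hC]
    module
  have hNg : ∀ v, N (g v) = g (N v) := by
    intro v
    rw [hN, hN, hh_comm, map_sub, map_smul]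
  have hNadj : ∀ x y, ω (N x) y = ω x (N y) := by
    intro x y
    rw [hN, hN]
    simp only [map_sub, map_smul, LinearMap.sub_apply, LinearMap.smul_apply, smul_eq_mul]
    rw [hg.hh_adj]
  have hNalt : ∀ x, ω (N x) x = 0 := by
    intro x
    rw [hN]
    simp only [map_sub, map_smul, LinearMap.sub_apply, LinearMap.smul_apply, smul_eq_mul]
    rw [hg.hh_alt hω, hω.alt]
    ring
  by_cases hex : ∃ v : V, N v ≠ 0 ∧ ¬ ∃ c : F, g (N v) = c • N v
  · obtain ⟨v, hv0, hv⟩ := hex
    have hvN : ω v (N v) = 0 := by rw [hω.swap, hNalt, neg_zero]
    refine ⟨v, N v, ?_, hvN, ?_, ?_⟩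
    · rw [LinearIndependent.pair_iff]
      intro a b hab
      have h1 := congrArg N hab
      rw [map_add, map_smul, map_smul, hNN, smul_zero, add_zero, map_zero] at h1
      have ha : a = 0 := by
        rcases smul_eq_zero.mp h1 with h | h
        · exact h
        · exact absurd h hv0
      subst ha
      rw [zero_smul, zero_add] at hab
      rcases smul_eq_zero.mp hab with h | h
      · exact ⟨rfl, h⟩
      · exact absurd h hv0
    · rw [← hg.hh_left]
      have h1 : hh g v = N v + μ • v := by rw [hN]; module
      rw [h1]
      simp only [map_add, map_smul, LinearMap.add_apply, LinearMap.smul_apply, smul_eq_mul]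
      rw [hω.alt, hvN]
      ring
    · intro a b hmem
      rw [Submodule.mem_span_pair] at hmem
      obtain ⟨c, d, hcd⟩ := hmem
      have h1 := congrArg N hcd
      rw [map_add, map_smul, map_smul, hNN, smul_zero, add_zero, hNg, map_add, map_smul,
        map_smul, hNN, smul_zero, add_zero, map_smul] at h1
      have ha : a = 0 := by
        by_contra ha
        apply hv
        refine ⟨a⁻¹ * c, ?_⟩
        rw [mul_smul, h1, smul_smul, inv_mul_cancel₀ ha, one_smul]
      subst ha
      rw [zero_smul] at h1
      have hc : c = 0 := by
        rcases smul_eq_zero.mp h1 with h | h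
        · exact h
        · exact absurd h hv0
      subst hc
      simp only [zero_smul, zero_add, map_smul] at hcd
      have hb : b = 0 := by
        by_contra hb
        apply hv
        refine ⟨b⁻¹ * d, ?_⟩
        rw [mul_smul, hcd, smul_smul, inv_mul_cancel₀ hb, one_smul]
      subst hb
      simp
  · exfalso
    push Not at hex
    obtain ⟨x0, hx0'⟩ := hns
    have hx0 : N x0 ≠ 0 := by
      rw [hN]
      exact sub_ne_zero.mpr hx0'
    obtain ⟨lam, hlam0⟩ := hex x0 hx0
    have hlam : ∀ v, g (N v) = lam • N v := by
      intro v
      by_cases hv : N v = 0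
      · rw [hv]; simp
      obtain ⟨c, hc⟩ := hex v hv
      by_cases hdep : ∃ k : F, N v = k • N x0
      · obtain ⟨k, hk⟩ := hdep
        rw [hk, map_smul, hlam0, smul_comm]
      · have hvx : N (v + x0) ≠ 0 := by
          intro h0
          apply hdep
          refine ⟨-1, ?_⟩
          rw [map_add] at h0
          rw [eq_neg_of_add_eq_zero_left h0]
          simp
        obtain ⟨c', hc'⟩ := hex (v + x0) hvx
        rw [map_add, map_add, hc, hlam0] at hc'
        have h1 : (c - c') • N v = (c' - lam) • N x0 := by
          have h2 : (c - c') • N v - (c' - lam) • N x0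
              = (c • N v + lam • N x0) - c' • (N v + N x0) := by module
          rw [hc', sub_self] at h2
          exact sub_eq_zero.mp h2
        have hcc : c = c' := by
          by_contra hcc
          apply hdep
          refine ⟨(c - c')⁻¹ * (c' - lam), ?_⟩
          rw [mul_smul, ← h1, smul_smul, inv_mul_cancel₀ (sub_ne_zero.mpr hcc), one_smul]
        rw [hcc, sub_self, zero_smul] at h1
        have hcl : c' = lam := by
          rcases smul_eq_zero.mp h1.symm with h | h
          · exact sub_eq_zero.mp h
          · exact absurd h hx0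
        rw [hc, hcc, hcl]
    -- a vector pairing nontrivially with `N x0`
    obtain ⟨y, hy⟩ : ∃ y, ω (N x0) y ≠ 0 := by
      by_contra hno
      push Not at hno
      exact hx0 (hω.nondeg _ hno)
    have hlam2 : lam * lam = 1 := by
      have h1 : ω (N x0) y = lam * lam * ω (N x0) y := by
        calc ω (N x0) y = ω (g (N x0)) (g y) := (hg _ _).symm
          _ = lam * ω (N x0) (g y) := by
              rw [hlam]
              simp only [map_smul, LinearMap.smul_apply, smul_eq_mul]
          _ = lam * ω x0 (N (g y)) := by rw [hNadj]
          _ = lam * ω x0 (lam • N y) := by rw [hNg, hlam]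
          _ = lam * lam * ω x0 (N y) := by
              simp only [map_smul, smul_eq_mul]
              ring
          _ = lam * lam * ω (N x0) y := by rw [hNadj]
      have h2 : (lam * lam - 1) * ω (N x0) y = 0 := by linear_combination -h1
      rcases mul_eq_zero.mp h2 with h | h
      · exact sub_eq_zero.mp h
      · exact absurd h hy
    -- the range of `N` has dimension at least two
    have hfin : 0 < Module.finrank F V := by rw [hω.dim]; norm_num
    have hfinV : Module.Finite F V := Module.finite_of_finrank_pos hfin
    have hyx : ω (N y) x0 ≠ 0 := by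
      rw [hNadj, hω.swap]
      exact neg_ne_zero.mpr hy
    have hli : LinearIndependent F ![N x0, N y] := by
      rw [LinearIndependent.pair_iff]
      intro a b hab
      have h1 : ω (a • N x0 + b • N y) x0 = 0 := by rw [hab]; simp
      simp only [map_add, map_smul, LinearMap.add_apply, LinearMap.smul_apply, smul_eq_mul] at h1
      rw [hNalt, mul_zero, zero_add] at h1
      have hb : b = 0 := by
        rcases mul_eq_zero.mp h1 with h | h
        · exact h
        · exact absurd h hyx
      subst hb
      rw [zero_smul, add_zero] at hab
      rcases smul_eq_zero.mp hab with h | h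
      · exact ⟨h, rfl⟩
      · exact absurd h hx0
    have hspan : Submodule.span F (Set.range ![N x0, N y]) ≤ LinearMap.range N := by
      rw [Submodule.span_le]
      rintro _ ⟨i, rfl⟩
      fin_cases i
      · exact ⟨x0, rfl⟩
      · exact ⟨y, rfl⟩
    have h2le : 2 ≤ Module.finrank F (LinearMap.range N) := by
      have h1 := finrank_span_eq_card hli
      have h2 := Submodule.finrank_mono hspan
      rw [h1] at h2
      simpa using h2
    have hRK : LinearMap.range N ≤ LinearMap.ker N := by
      rintro _ ⟨z, rfl⟩
      exact LinearMap.mem_ker.mpr (hNN z)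
    have hrn := LinearMap.finrank_range_add_finrank_ker N
    rw [hω.dim] at hrn
    have hRKle := Submodule.finrank_mono hRK
    have hRKeq : LinearMap.range N = LinearMap.ker N :=
      Submodule.eq_of_le_of_finrank_le hRK (by omega)
    -- `g - lam` maps into the kernel, which is the range, where `g = lam`
    have hquad : ∀ x, g (g x - lam • x) = lam • (g x - lam • x) := by
      intro x
      have h1 : g x - lam • x ∈ LinearMap.ker N := by
        rw [LinearMap.mem_ker, map_sub, map_smul, hNg, hlam, sub_self]
      rw [← hRKeq] at h1
      obtain ⟨z, hz⟩ := h1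
      rw [← hz, hlam]
    have hh2 : ∀ x, hh g x = (lam + lam) • x := by
      intro x
      have h1 := hquad x
      rw [map_sub, map_smul] at h1
      have h2 : g (g x) = (lam + lam) • g x - x := by
        have h3 : g (g x) = (g (g x) - lam • g x) + lam • g x := by module
        rw [h3, h1]
        have h4 : lam • (g x - lam • x) + lam • g x = (lam + lam) • g x - (lam * lam) • x := by
          module
        rw [h4, hlam2, one_smul]
      have h5 := congrArg g.symm h2
      rw [LinearEquiv.symm_apply_apply, map_sub, map_smul, LinearEquiv.symm_apply_apply] at h5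
      unfold hh
      rw [h5]
      module
    have hsc : ∀ x, N x = (lam + lam - μ) • x := by
      intro x
      rw [hN, hh2]
      module
    have h0 := hNN x0
    rw [hsc (N x0)] at h0
    rcases smul_eq_zero.mp h0 with h | h
    · apply hx0
      rw [hsc, h, zero_smul]
    · exact hx0 h

end

end Cfsg.Agent.Lib.Helper80.Sp4T
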