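import Cfsg.Agent.Lib.Helper80.BaerDefs

/-!
# q-Baer groups (S4125): basic consequences of `BaerAct` / `BaerMin`
-/

set_option autoImplicit false

namespace Cfsg.Agent.Lib.Helper80

variable {p : ℕ} [Fact p.Prime] {H V : Type*} [Group H] [Finite H] [AddCommGroup V] [Finite V]
  [DistribMulAction H V]

omit [Fact p.Prime] [Finite H] [Finite V] in
/-- The stabilizer in a subgroup `K` of a point is the stabilizer in `H` intersected with `K`. -/
theorem stabilizer_subgroup_eq (K : Subgroup H) (v : V) :
    MulAction.stabilizer K v = (MulAction.stabilizer H v).subgroupOf K := by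
  ext x
  simp [Subgroup.mem_subgroupOf, MulAction.mem_stabilizer_iff, Subgroup.smul_def]

omit [Fact p.Prime] in
/-- `|A| * |B : A| = |B|` for `A ≤ B`. -/
theorem card_mul_relIndex_of_le {A B : Subgroup H} (hAB : A ≤ B) :
    Nat.card A * A.relIndex B = Nat.card B := by
  have h1 := Subgroup.card_mul_index (A.subgroupOf B)
  rw [Nat.card_congr (Subgroup.subgroupOfEquivOfLe hAB).toEquiv] at h1
  exact h1

/-- `H`-orbits are `P`-orbits for a Sylow `p`-subgroup `P`. -/
theorem BaerAct.sylow_orbit (hB : BaerAct p H V) (P : Sylow p H) (h : H) (v : V) :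
    ∃ x ∈ P, x • v = h • v := by
  obtain ⟨k, hk⟩ := hB.orbit v
  set S := MulAction.stabilizer H v with hS
  have hp : p.Prime := Fact.out
  have hcop : Nat.Coprime S.index (P : Subgroup H).index := by
    rw [hk]
    exact Nat.Coprime.pow_left k ((Nat.Prime.coprime_iff_not_dvd hp).mpr P.not_dvd_index)
  have h1 : S.index * (P : Subgroup H).index ∣ ((P : Subgroup H) ⊓ S).index :=
    hcop.mul_dvd_of_dvd_of_dvd (Subgroup.index_dvd_of_le inf_le_right)
      (Subgroup.index_dvd_of_le inf_le_left)
  have h2 : ((P : Subgroup H) ⊓ S).index ≤ (P : Subgroup H).index * S.index :=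
    Subgroup.index_inf_le
  have hne : ((P : Subgroup H) ⊓ S).index ≠ 0 := Subgroup.index_ne_zero_of_finite
  have h3 : ((P : Subgroup H) ⊓ S).index = S.index * (P : Subgroup H).index :=
    le_antisymm (by rw [mul_comm]; exact h2) (Nat.le_of_dvd (Nat.pos_of_ne_zero hne) h1)
  have h4 : S.relIndex (P : Subgroup H) = S.index := by
    have h5 := Subgroup.relIndex_mul_index (inf_le_left : (P : Subgroup H) ⊓ S ≤ P)
    rw [Subgroup.inf_relIndex_left, h3] at h5
    exact Nat.eq_of_mul_eq_mul_right (Nat.pos_of_ne_zero Subgroup.index_ne_zero_of_finite) h5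
  have h6 : (MulAction.orbit (P : Subgroup H) v).ncard = (MulAction.orbit H v).ncard := by
    rw [← MulAction.index_stabilizer, ← MulAction.index_stabilizer, stabilizer_subgroup_eq]
    exact h4
  have hsub : MulAction.orbit (P : Subgroup H) v ⊆ MulAction.orbit H v := by
    rintro _ ⟨x, rfl⟩
    exact ⟨(x : H), rfl⟩
  have heq : MulAction.orbit (P : Subgroup H) v = MulAction.orbit H v :=
    Set.eq_of_subset_of_ncard_le hsub h6.ge (Set.toFinite _)
  have hmem : h • v ∈ MulAction.orbit (P : Subgroup H) v := by
    rw [heq]; exact ⟨h, rfl⟩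
  obtain ⟨x, hx⟩ := hmem
  exact ⟨x, x.2, hx⟩

/-- A normal subgroup of order prime to `p` is trivial. -/
theorem BaerAct.normal_coprime_eq_bot (hB : BaerAct p H V) (N : Subgroup H) [N.Normal]
    (hN : (Nat.card N).Coprime p) : N = ⊥ := by
  rw [eq_bot_iff]
  intro n hn
  rw [Subgroup.mem_bot]
  apply hB.faithful
  intro v
  obtain ⟨k, hk⟩ := hB.orbit v
  set S := MulAction.stabilizer H v with hS
  set K := S ⊔ N with hK
  have h1 : S.relIndex K ∣ p ^ k := by
    rw [← hk]
    exact Subgroup.relIndex_dvd_index_of_le le_sup_left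
  have e1 : Nat.card S * S.relIndex K = Nat.card K := card_mul_relIndex_of_le le_sup_left
  have e2 : Nat.card N * N.relIndex K = Nat.card K := card_mul_relIndex_of_le le_sup_right
  have e3 : N.relIndex K = N.relIndex S := Subgroup.relIndex_sup_right S N
  have e4 : Nat.card (N ⊓ S : Subgroup H) * N.relIndex S = Nat.card S := by
    have := card_mul_relIndex_of_le (inf_le_right : N ⊓ S ≤ S)
    rwa [Subgroup.inf_relIndex_right] at this
  have hne : N.relIndex S ≠ 0 := by
    intro h0
    rw [h0, mul_zero] at e4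
    exact Nat.card_pos.ne e4
  have h2 : S.relIndex K ∣ Nat.card N := by
    refine ⟨Nat.card (N ⊓ S : Subgroup H), ?_⟩
    apply Nat.eq_of_mul_eq_mul_right (Nat.pos_of_ne_zero hne)
    rw [e3] at e2
    rw [e2, ← e1, ← e4]
    ring
  have h3 : S.relIndex K = 1 := by
    have hc : (Nat.card N).Coprime (p ^ k) := Nat.Coprime.pow_right k hN
    exact Nat.eq_one_of_dvd_coprimes hc h2 h1
  have h4' : K ≤ S := Subgroup.relIndex_eq_one.mp h3
  have h4 : N ≤ S := le_sup_right.trans h4'
  exact MulAction.mem_stabilizer_iff.mp (h4 hn)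

/-- If `p` does not divide `|H|` then `H` is trivial, in particular solvable. -/
theorem BaerAct.solvable_of_not_dvd (hB : BaerAct p H V) (h : ¬ p ∣ Nat.card H) :
    Group.IsSolvable H := by
  have hp : p.Prime := Fact.out
  have h1 : (⊤ : Subgroup H) = ⊥ := by
    apply hB.normal_coprime_eq_bot
    rw [Subgroup.card_top]
    exact (Nat.coprime_comm.mp ((Nat.Prime.coprime_iff_not_dvd hp).mpr h))
  have : Subsingleton H := by
    rw [← Subgroup.subsingleton_iff, ]
    exact ⟨fun a b => by
      have ha : a = ⊥ := le_antisymm (le_top.trans h1.le) bot_le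
      have hb : b = ⊥ := le_antisymm (le_top.trans h1.le) bot_le
      rw [ha, hb]⟩
  infer_instance

/-- `V` is irreducible under a Sylow `p`-subgroup. -/
theorem BaerMin.sylow_irred (hm : BaerMin p H V) (P : Sylow p H) (W : AddSubgroup V)
    (hW : ∀ x ∈ P, ∀ w ∈ W, x • w ∈ W) : W = ⊥ ∨ W = ⊤ := by
  apply hm.R2
  intro h w hw
  obtain ⟨x, hx, hxw⟩ := hm.toBaerAct.sylow_orbit P h w
  rw [← hxw]
  exact hW x hx w hw

/-- A nontrivial element of the centre of a Sylow `p`-subgroup has no nonzero fixed point. -/
theorem BaerMin.fixed_eq_zero (hm : BaerMin p H V) (P : Sylow p H) (z : H) (_hz : z ∈ P)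
    (hzc : ∀ x ∈ P, x * z = z * x) (hz1 : z ≠ 1) (v : V) (hv : z • v = v) : v = 0 := by
  let W : AddSubgroup V :=
    { carrier := {w | z • w = w}
      add_mem' := by
        intro a b ha hb
        simp only [Set.mem_ofPred_eq] at ha hb ⊢
        rw [smul_add, ha, hb]
      zero_mem' := by simp
      neg_mem' := by
        intro a ha
        simp only [Set.mem_ofPred_eq] at ha ⊢
        rw [smul_neg, ha] }
  have hW : ∀ x ∈ P, ∀ w ∈ W, x • w ∈ W := by
    intro x hx w hw
    change z • x • w = x • w
    have hw' : z • w = w := hw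
    rw [← mul_smul, ← hzc x hx, mul_smul, hw']
  rcases hm.sylow_irred P W hW with h | h
  · have : v ∈ W := hv
    rw [h] at this
    exact (AddSubgroup.mem_bot).mp this
  · exfalso
    apply hz1
    apply hm.faithful
    intro w
    have : w ∈ W := by rw [h]; trivial
    exact this

/-- In the minimal situation `V` is elementary abelian. -/
theorem BaerMin.exists_prime (hm : BaerMin p H V) [Nontrivial V] :
    ∃ q : ℕ, q.Prime ∧ ∀ v : V, q • v = 0 := by
  have hcard : Nat.card V ≠ 1 := by
    intro h
    have := (Nat.card_eq_one_iff_unique.mp h).1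
    exact not_subsingleton V this
  obtain ⟨q, hq, hqd⟩ := Nat.exists_prime_and_dvd hcard
  refine ⟨q, hq, ?_⟩
  let W : AddSubgroup V :=
    { carrier := {w | q • w = 0}
      add_mem' := by
        intro a b ha hb
        simp only [Set.mem_ofPred_eq] at ha hb ⊢
        rw [nsmul_add, ha, hb, add_zero]
      zero_mem' := by simp
      neg_mem' := by
        intro a ha
        simp only [Set.mem_ofPred_eq] at ha ⊢
        rw [neg_nsmul, ha, neg_zero] }
  have hW : ∀ (h : H) (w : V), w ∈ W → h • w ∈ W := by
    intro h w hw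
    change q • h • w = 0
    have hw' : q • w = 0 := hw
    rw [← smul_comm h q w, hw', smul_zero]
  have := Fact.mk hq
  obtain ⟨x, hx⟩ := exists_prime_addOrderOf_dvd_card' (G := V) q hqd
  rcases hm.R2 W hW with h | h
  · exfalso
    have hxW : x ∈ W := by
      change q • x = 0
      rw [← hx]; exact addOrderOf_nsmul_eq_zero x
    rw [h, AddSubgroup.mem_bot] at hxW
    rw [hxW, addOrderOf_zero] at hx
    exact hq.one_lt.ne hx
  · intro v
    have : v ∈ W := by rw [h]; trivial
    exact this

end Cfsg.Agent.Lib.Helper80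

namespace Cfsg.Agent.Lib.Helper80

variable {H V : Type*} [Group H] [Finite H] [AddCommGroup V] [Finite V] [DistribMulAction H V]

/-- The case `p = 2` with a cyclic Sylow 2-subgroup: Burnside's transfer gives a normal
2-complement. -/
theorem cyclic_two (hm : BaerMin 2 H V) (P : Sylow 2 H) (hP : IsCyclic P) :
    Group.IsSolvable H := by
  have : Fact (Nat.Prime 2) := ⟨Nat.prime_two⟩
  by_cases hdvd : 2 ∣ Nat.card H
  swap
  · exact hm.toBaerAct.solvable_of_not_dvd hdvd
  have hmin : (Nat.card H).minFac = 2 := (Nat.minFac_eq_two_iff _).mpr hdvd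
  have hcomp := IsCyclic.isComplement' hmin hP
  set f := MonoidHom.transferSylow P (hP.normalizer_le_centralizer hmin) with hf
  have hne : f.ker ≠ ⊤ := by
    intro h
    rw [h] at hcomp
    have hPbot : (P : Subgroup H) = ⊥ := Subgroup.isComplement'_top_left.mp hcomp
    have h1 : Nat.card (P : Subgroup H) = 1 := by rw [hPbot]; exact Subgroup.card_bot
    have h2 : 2 ∣ Nat.card (P : Subgroup H) := by
      rw [Sylow.card_eq_multiplicity]
      have hcardne : Nat.card H ≠ 0 := (Nat.card_pos (α := H)).ne'
      have hpos : 0 < (Nat.card H).factorization 2 :=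
        Nat.Prime.factorization_pos_of_dvd Nat.prime_two hcardne hdvd
      exact dvd_pow_self 2 hpos.ne'
    rw [h1] at h2
    exact absurd h2 (by decide)
  have hs : Group.IsSolvable f.ker := hm.R1 f.ker inferInstance hne
  have hP' : Group.IsSolvable (P : Subgroup H) := by
    have : Group.IsNilpotent (P : Subgroup H) := P.isPGroup'.isNilpotent
    infer_instance
  exact solvable_of_ker_le_range (f.ker.subtype) f (by simp)

end Cfsg.Agent.Lib.Helper80
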