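import Cfsg.Agent.Lib.Helper80.BaerBasic

/-!
# q-Baer groups (S4125): reduction of Lemma X to the minimal situation
-/

set_option autoImplicit false

namespace Cfsg.Agent.Lib.Helper80

universe u w

/-- `|N : N ∩ S| = |SN : S|` for `N` normal. -/
theorem relIndex_eq_relIndex_sup {H : Type*} [Group H] [Finite H] (S N : Subgroup H)
    [N.Normal] : S.relIndex N = S.relIndex (S ⊔ N) := by
  set K := S ⊔ N with hK
  have e1 : Nat.card S * S.relIndex K = Nat.card K := card_mul_relIndex_of_le le_sup_left
  have e2 : Nat.card N * N.relIndex K = Nat.card K := card_mul_relIndex_of_le le_sup_right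
  have e3 : N.relIndex K = N.relIndex S := Subgroup.relIndex_sup_right S N
  have e4 : Nat.card (N ⊓ S : Subgroup H) * N.relIndex S = Nat.card S := by
    have := card_mul_relIndex_of_le (inf_le_right : N ⊓ S ≤ S)
    rwa [Subgroup.inf_relIndex_right] at this
  have e5 : Nat.card (N ⊓ S : Subgroup H) * S.relIndex N = Nat.card N := by
    have := card_mul_relIndex_of_le (inf_le_left : N ⊓ S ≤ N)
    rwa [Subgroup.inf_relIndex_left] at this
  have hne : N.relIndex S ≠ 0 := by
    intro h0
    rw [h0, mul_zero] at e4
    exact Nat.card_pos.ne e4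
  have hne2 : Nat.card (N ⊓ S : Subgroup H) ≠ 0 := Nat.card_pos.ne'
  rw [e3] at e2
  have key : Nat.card (N ⊓ S : Subgroup H) * N.relIndex S * S.relIndex N =
      Nat.card (N ⊓ S : Subgroup H) * N.relIndex S * S.relIndex K := by
    calc Nat.card (N ⊓ S : Subgroup H) * N.relIndex S * S.relIndex N
        = (Nat.card (N ⊓ S : Subgroup H) * S.relIndex N) * N.relIndex S := by ring
      _ = Nat.card K := by rw [e5, e2]
      _ = Nat.card (N ⊓ S : Subgroup H) * N.relIndex S * S.relIndex K := by rw [e4, e1]
  exact Nat.eq_of_mul_eq_mul_left (Nat.pos_of_ne_zero (mul_ne_zero hne2 hne)) key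

/-- A `BaerAct` restricts to normal subgroups. -/
theorem BaerAct.restrict_normal {p : ℕ} {H V : Type*} [Group H] [Finite H] [AddCommGroup V]
    [Finite V] [DistribMulAction H V] (hp : p.Prime) (hB : BaerAct p H V) (N : Subgroup H)
    [N.Normal] : BaerAct p N V where
  faithful := by
    intro n hn
    have : (n : H) = 1 := hB.faithful n (fun v => hn v)
    exact Subtype.ext this
  coprime := Nat.Coprime.coprime_dvd_left (Subgroup.card_subgroup_dvd_card N) hB.coprime
  orbit := by
    intro v
    obtain ⟨k, hk⟩ := hB.orbit v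
    rw [stabilizer_subgroup_eq]
    have h1 : (MulAction.stabilizer H v).relIndex N ∣ p ^ k := by
      rw [relIndex_eq_relIndex_sup, ← hk]
      exact Subgroup.relIndex_dvd_index_of_le le_sup_left
    obtain ⟨j, -, hj⟩ := (Nat.dvd_prime_pow hp).mp h1
    exact ⟨j, hj⟩

/-- The image of `H` in the units of `AddMonoid.End A` is a faithful `BaerAct`. -/
theorem exists_faithful_image {p : ℕ} {H : Type w} {A : Type u} [Group H] [Finite H]
    [AddCommGroup A] [Finite A] [DistribMulAction H A]
    (hc : (Nat.card H).Coprime (Nat.card A))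
    (ho : ∀ a : A, ∃ k : ℕ, (MulAction.stabilizer H a).index = p ^ k) :
    ∃ (H' : Type u) (_ : Group H') (_ : Finite H') (_ : DistribMulAction H' A),
      BaerAct p H' A ∧ Nat.card H' ≤ Nat.card H ∧
      ∃ f : H →* H', Function.Surjective f ∧ ∀ h, f h = 1 ↔ ∀ a : A, h • a = a := by
  let ρ : H →* (AddMonoid.End A)ˣ := (DistribMulAction.toAddMonoidEnd H A).toHomUnits
  have hρ : ∀ (h : H) (a : A), ρ h • a = h • a := fun h a => rfl
  let f : H →* ρ.range := ρ.rangeRestrict
  have hf : Function.Surjective f := ρ.rangeRestrict_surjective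
  have hfa : ∀ (h : H) (a : A), f h • a = h • a := fun h a => rfl
  have hker : ∀ h, f h = 1 ↔ ∀ a : A, h • a = a := by
    intro h
    constructor
    · intro h1 a
      rw [← hfa, h1, one_smul]
    · intro h1
      apply Subtype.ext
      apply Units.ext
      apply AddMonoidHom.ext
      intro a
      exact h1 a
  have hfin : Finite ρ.range := Finite.of_surjective f hf
  refine ⟨ρ.range, inferInstance, hfin, inferInstance, ⟨?_, ?_, ?_⟩, ?_, f, hf, hker⟩
  · intro h' hh'
    obtain ⟨h, rfl⟩ := hf h'
    exact (hker h).mpr (fun a => by rw [← hfa]; exact hh' a)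
  · exact Nat.Coprime.coprime_dvd_left (Subgroup.card_range_dvd ρ) hc
  · intro a
    obtain ⟨k, hk⟩ := ho a
    refine ⟨k, ?_⟩
    have hst : MulAction.stabilizer ρ.range a = (MulAction.stabilizer H a).map f := by
      ext x
      obtain ⟨h, rfl⟩ := hf x
      rw [MulAction.mem_stabilizer_iff, hfa, Subgroup.mem_map]
      constructor
      · intro hx
        exact ⟨h, MulAction.mem_stabilizer_iff.mpr hx, rfl⟩
      · rintro ⟨h2, hh2, heq⟩
        have h3 : h2 • a = a := MulAction.mem_stabilizer_iff.mp hh2
        rw [← hfa h a, ← heq, hfa, h3]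
    rw [hst, Subgroup.index_map_eq _ hf, hk]
    intro h hh
    rw [MonoidHom.mem_ker] at hh
    exact MulAction.mem_stabilizer_iff.mpr ((hker h).mp hh a)
  · exact Nat.card_le_card_of_surjective f hf

/-- If `h` fixes `W` pointwise and `V ⧸ W` pointwise and has order prime to `|V|`, then `h`
fixes `V` pointwise. -/
theorem smul_eq_self_of_fix {H V : Type*} [Group H] [Finite H] [AddCommGroup V] [Finite V]
    [DistribMulAction H V] (hc : (Nat.card H).Coprime (Nat.card V)) (W : AddSubgroup V) (h : H)
    (h1 : ∀ w ∈ W, h • w = w) (h2 : ∀ v : V, h • v - v ∈ W) (v : V) : h • v = v := by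
  set d := h • v - v with hd
  have hdW : d ∈ W := h2 v
  have hfix : h • d = d := h1 d hdW
  have hpow : ∀ m : ℕ, h ^ m • v = v + m • d := by
    intro m
    induction m with
    | zero => simp
    | succ m ih =>
      rw [pow_succ', mul_smul, ih, smul_add, ← smul_comm m h d, hfix, succ_nsmul]
      have : h • v = v + d := by rw [hd]; abel
      rw [this]; abel
  have hm := hpow (orderOf h)
  rw [pow_orderOf_eq_one, one_smul] at hm
  have hmd : orderOf h • d = 0 := by
    have := hm
    exact (add_eq_left.mp this.symm)
  have h3 : addOrderOf d ∣ orderOf h := addOrderOf_dvd_of_nsmul_eq_zero hmd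
  have h4 : addOrderOf d ∣ Nat.card V := addOrderOf_dvd_natCard d
  have h5 : addOrderOf d = 1 :=
    Nat.eq_one_of_dvd_coprimes hc (h3.trans (orderOf_dvd_natCard h)) h4
  have h6 : d = 0 := AddMonoid.addOrderOf_eq_one_iff.mp h5
  rw [hd, sub_eq_zero] at h6
  exact h6

/-- Lemma X for `H`, `V` in the same universe, by induction on `|H| + |V|`. -/
theorem lemmaX_same {p : ℕ} [Fact p.Prime]
    (hmin : ∀ (H V : Type u) [Group H] [Finite H] [AddCommGroup V] [Finite V]
      [DistribMulAction H V], BaerMin p H V → Group.IsSolvable H) :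
    ∀ (n : ℕ) (H V : Type u) [Group H] [Finite H] [AddCommGroup V] [Finite V]
      [DistribMulAction H V], BaerAct p H V → Nat.card H + Nat.card V ≤ n →
      Group.IsSolvable H := by
  have hp : p.Prime := Fact.out
  intro n
  induction n using Nat.strong_induction_on with
  | _ n ih =>
  intro H V _ _ _ _ _ hB hn
  by_cases hs : Group.IsSolvable H
  · exact hs
  apply hmin H V
  refine { toBaerAct := hB, R1 := ?_, R2 := ?_ }
  · intro N hN hNtop
    have hlt : Nat.card N < Nat.card H := by
      refine lt_of_le_of_ne (Subgroup.card_le_card_group N) ?_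
      intro h
      exact hNtop ((Subgroup.card_eq_iff_eq_top N).mp h)
    exact ih (Nat.card N + Nat.card V) (by omega) N V (hB.restrict_normal hp N) le_rfl
  · intro W hW
    by_contra hcon
    push Not at hcon
    obtain ⟨hbot, htop⟩ := hcon
    apply hs
    -- the action on `W`
    let instW : DistribMulAction H W :=
      { smul := fun h w => ⟨h • (w : V), hW h w w.2⟩
        one_smul := fun w => Subtype.ext (one_smul H (w : V))
        mul_smul := fun g h w => Subtype.ext (mul_smul g h (w : V))
        smul_zero := fun h => Subtype.ext (smul_zero h)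
        smul_add := fun h x y => Subtype.ext (smul_add h (x : V) (y : V)) }
    have hWsmul : ∀ (h : H) (w : W), ((h • w : W) : V) = h • (w : V) := fun h w => rfl
    -- the action on `V ⧸ W`
    let act2 : H → (V ⧸ W) →+ (V ⧸ W) := fun h =>
      QuotientAddGroup.map W W (DistribSMul.toAddMonoidHom V h) (fun w hw => hW h w hw)
    have act2_mk : ∀ (h : H) (v : V), act2 h (QuotientAddGroup.mk v) =
        QuotientAddGroup.mk (h • v) := fun h v => rfl
    let instQ : DistribMulAction H (V ⧸ W) :=
      { smul := fun h x => act2 h x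
        one_smul := by
          intro x
          induction x using QuotientAddGroup.induction_on with
          | _ v =>
            change act2 1 (QuotientAddGroup.mk v) = _
            rw [act2_mk, one_smul]
        mul_smul := by
          intro g h x
          induction x using QuotientAddGroup.induction_on with
          | _ v =>
            change act2 (g * h) (QuotientAddGroup.mk v) = act2 g (act2 h (QuotientAddGroup.mk v))
            rw [act2_mk, act2_mk, act2_mk, mul_smul]
        smul_zero := fun h => map_zero (act2 h)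
        smul_add := fun h x y => map_add (act2 h) x y }
    have hQsmul : ∀ (h : H) (v : V), (h • (QuotientAddGroup.mk v : V ⧸ W)) =
        QuotientAddGroup.mk (h • v) := fun h v => rfl
    -- hypotheses for `W`
    have hcW : (Nat.card H).Coprime (Nat.card W) :=
      Nat.Coprime.coprime_dvd_right (AddSubgroup.card_addSubgroup_dvd_card W) hB.coprime
    have hoW : ∀ w : W, ∃ k : ℕ, (MulAction.stabilizer H w).index = p ^ k := by
      intro w
      obtain ⟨k, hk⟩ := hB.orbit (w : V)
      refine ⟨k, ?_⟩
      have : MulAction.stabilizer H w = MulAction.stabilizer H (w : V) := by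
        ext h
        rw [MulAction.mem_stabilizer_iff, MulAction.mem_stabilizer_iff, Subtype.ext_iff, hWsmul]
      rw [this, hk]
    -- hypotheses for `V ⧸ W`
    have hcQ : (Nat.card H).Coprime (Nat.card (V ⧸ W)) :=
      Nat.Coprime.coprime_dvd_right (AddSubgroup.card_quotient_dvd_card W) hB.coprime
    have hoQ : ∀ x : V ⧸ W, ∃ k : ℕ, (MulAction.stabilizer H x).index = p ^ k := by
      intro x
      induction x using QuotientAddGroup.induction_on with
      | _ v =>
        obtain ⟨k, hk⟩ := hB.orbit v
        have hle : MulAction.stabilizer H v ≤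
            MulAction.stabilizer H (QuotientAddGroup.mk v : V ⧸ W) := by
          intro h hh
          rw [MulAction.mem_stabilizer_iff] at hh ⊢
          rw [hQsmul, hh]
        have hdvd := Subgroup.index_dvd_of_le hle
        rw [hk] at hdvd
        obtain ⟨j, -, hj⟩ := (Nat.dvd_prime_pow hp).mp hdvd
        exact ⟨j, hj⟩
    obtain ⟨H₁, i1, i2, i3, hB₁, hle₁, f₁, hf₁, hker₁⟩ :=
      exists_faithful_image (p := p) hcW hoW
    obtain ⟨H₂, j1, j2, j3, hB₂, hle₂, f₂, hf₂, hker₂⟩ :=
      exists_faithful_image (p := p) hcQ hoQ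
    have hcardW : Nat.card W < Nat.card V := by
      refine lt_of_le_of_ne (AddSubgroup.card_le_card_addGroup W) ?_
      intro h
      exact htop ((AddSubgroup.card_eq_iff_eq_top W).mp h)
    have hcardQ : Nat.card (V ⧸ W) < Nat.card V := by
      have h1 : Nat.card V = Nat.card (V ⧸ W) * Nat.card W :=
        AddSubgroup.card_eq_card_quotient_mul_card_addSubgroup W
      have h2 : 1 < Nat.card W := by
        rw [Finite.one_lt_card_iff_nontrivial]
        exact (AddSubgroup.nontrivial_iff_ne_bot W).mpr hbot
      have h3 : 0 < Nat.card (V ⧸ W) := Nat.card_pos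
      rw [h1]
      nlinarith
    have hs₁ : Group.IsSolvable H₁ :=
      ih (Nat.card H₁ + Nat.card W) (by omega) H₁ W hB₁ le_rfl
    have hs₂ : Group.IsSolvable H₂ :=
      ih (Nat.card H₂ + Nat.card (V ⧸ W)) (by omega) H₂ (V ⧸ W) hB₂ le_rfl
    have hinj : Function.Injective (f₁.prod f₂) := by
      rw [injective_iff_map_eq_one]
      intro h hh
      rw [MonoidHom.prod_apply, Prod.mk_eq_one] at hh
      apply hB.faithful
      have k1 := (hker₁ h).mp hh.1
      have k2 := (hker₂ h).mp hh.2
      apply smul_eq_self_of_fix hB.coprime W h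
      · intro w hw
        have := k1 ⟨w, hw⟩
        exact congrArg Subtype.val this
      · intro v
        have := k2 (QuotientAddGroup.mk v)
        rw [hQsmul, QuotientAddGroup.eq] at this
        have h7 : h • v - v = -(-(h • v) + v) := by abel
        rw [h7]
        exact W.neg_mem this
    have hprod : Group.IsSolvable (H₁ × H₂) :=
      Group.isSolvable_of_ker_le_range (MonoidHom.inl H₁ H₂) (MonoidHom.snd H₁ H₂)
        (fun x hx => ⟨x.1, Prod.ext rfl (MonoidHom.mem_ker.mp hx).symm⟩)
    exact Group.isSolvable_of_isSolvable_injective hinj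

/-- **Reduction of Lemma X to the minimal situation.** -/
theorem lemmaX_of_min {p : ℕ} [Fact p.Prime]
    (hmin : ∀ (H V : Type u) [Group H] [Finite H] [AddCommGroup V] [Finite V]
      [DistribMulAction H V], BaerMin p H V → Group.IsSolvable H) :
    ∀ (H : Type w) (V : Type u) [Group H] [Finite H] [AddCommGroup V] [Finite V]
      [DistribMulAction H V], BaerAct p H V → Group.IsSolvable H := by
  intro H V _ _ _ _ _ hB
  obtain ⟨H', i1, i2, i3, hB', -, f, hf, hker⟩ :=
    exists_faithful_image (p := p) hB.coprime hB.orbit
  have hs : Group.IsSolvable H' := lemmaX_same hmin _ H' V hB' le_rfl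
  have hinj : Function.Injective f := by
    rw [injective_iff_map_eq_one]
    intro h hh
    exact hB.faithful h ((hker h).mp hh)
  exact Group.isSolvable_of_isSolvable_injective hinj

end Cfsg.Agent.Lib.Helper80
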