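import Mathlib
import Cfsg.Agent.Lib.Helper80.CTDefs

set_option autoImplicit false

/-!
S5748, piece CENTA: in the situation of `Data G A N q`, if the involution `u ∉ N` inverts
`H = Dsub N u` (of order `q - 1`, meeting `A` trivially) and `1 ≠ h ∈ H`, then `u` inverts the whole
centralizer of `h`, and `y * u ∉ N` for every `y` centralizing `h`.
-/

namespace Cfsg.Agent.Lib.Helper80.CT

section

variable {G : Type*} [Group G]

theorem invol_iff {x : G} : orderOf x = 2 ↔ x * x = 1 ∧ x ≠ 1 := by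
  have : Fact (Nat.Prime 2) := ⟨Nat.prime_two⟩
  rw [orderOf_eq_prime_iff, pow_two]

theorem invol_inv {x : G} (hx : orderOf x = 2) : x⁻¹ = x :=
  inv_eq_of_mul_eq_one_left (invol_iff.mp hx).1

theorem invol_conj {x : G} (hx : orderOf x = 2) (g : G) : orderOf (g * x * g⁻¹) = 2 := by
  rw [invol_iff] at hx ⊢
  refine ⟨?_, ?_⟩
  · calc g * x * g⁻¹ * (g * x * g⁻¹) = g * (x * x) * g⁻¹ := by group
      _ = 1 := by rw [hx.1]; group
  · intro h
    apply hx.2
    have h2 : x = g⁻¹ * (g * x * g⁻¹) * g := by group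
    rw [h2, h]
    group

variable [Finite G] {A N : Subgroup G} {q : ℕ}

theorem cent_inverted (hD : Data G A N q) {u : G} (hu : orderOf u = 2) (huN : u ∉ N)
    (hHA : Dsub N u ⊓ A = ⊥) (hcard : Nat.card (Dsub N u) = q - 1)
    (hinv : ∀ d ∈ Dsub N u, u * d * u⁻¹ = d⁻¹) {h : G} (hh : h ∈ Dsub N u) (hh1 : h ≠ 1) :
    ∀ y : G, Commute y h → u * y * u⁻¹ = y⁻¹ ∧ y * u ∉ N := by
  have hu2 : u * u = 1 := (invol_iff.mp hu).1
  have hu1 : u ≠ 1 := (invol_iff.mp hu).2
  have huinv : u⁻¹ = u := invol_inv hu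
  have hhN : h ∈ N := ((mem_Dsub N u h).mp hh).1
  have hhA : h ∉ A := by
    intro hA
    have : h ∈ Dsub N u ⊓ A := ⟨hh, hA⟩
    rw [hHA, Subgroup.mem_bot] at this
    exact hh1 this
  have huh : u * h * u⁻¹ = h⁻¹ := hinv h hh
  -- (ii) h is not an involution
  have hhh : h * h ≠ 1 := by
    intro h2
    obtain ⟨k, hk⟩ := hD.even
    have h4 := hD.four_le
    have hpow : (⟨h, hh⟩ : Dsub N u) ^ Nat.card (Dsub N u) = 1 := pow_card_eq_one'
    have hpow' : h ^ (q - 1) = 1 := by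
      rw [hcard] at hpow
      have := congrArg (fun x : Dsub N u => (x : G)) hpow
      simpa using this
    have hq1 : q - 1 = 2 * (k - 1) + 1 := by omega
    rw [hq1, pow_succ, pow_mul, pow_two, h2, one_pow, one_mul] at hpow'
    exact hh1 hpow'
  -- (iii) no involution commutes with h
  have hnoinv : ∀ s : G, Commute s h → orderOf s ≠ 2 := by
    intro s hsh hs
    obtain ⟨g, hg⟩ := hD.invol s hs
    have hs'1 : g * s * g⁻¹ ≠ 1 := (invol_iff.mp (invol_conj hs g)).2
    have hcomm' : Commute (g * h * g⁻¹) (g * s * g⁻¹) := by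
      show (g * h * g⁻¹) * (g * s * g⁻¹) = (g * s * g⁻¹) * (g * h * g⁻¹)
      have e : h * s = s * h := hsh.symm.eq
      calc (g * h * g⁻¹) * (g * s * g⁻¹) = g * (h * s) * g⁻¹ := by group
        _ = g * (s * h) * g⁻¹ := by rw [e]
        _ = (g * s * g⁻¹) * (g * h * g⁻¹) := by group
    have hh'A : g * h * g⁻¹ ∈ A := hD.cent _ hg hs'1 _ hcomm'
    have hh'1 : g * h * g⁻¹ ≠ 1 := by
      intro e
      apply hh1
      have h2 : h = g⁻¹ * (g * h * g⁻¹) * g := by group
      rw [h2, e]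
      group
    have hu' : orderOf (g * u * g⁻¹) = 2 := invol_conj hu g
    have hconj : (g * u * g⁻¹) * (g * h * g⁻¹) * (g * u * g⁻¹)⁻¹ = (g * h * g⁻¹)⁻¹ := by
      calc (g * u * g⁻¹) * (g * h * g⁻¹) * (g * u * g⁻¹)⁻¹ = g * (u * h * u⁻¹) * g⁻¹ := by group
        _ = g * h⁻¹ * g⁻¹ := by rw [huh]
        _ = (g * h * g⁻¹)⁻¹ := by group
    have hu'N : g * u * g⁻¹ ∈ N := by
      by_contra hn
      apply hh'1
      apply hD.ti hn hh'A
      rw [hconj]
      exact inv_mem hh'A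
    have hu'A : g * u * g⁻¹ ∈ A := hD.invol_mem hu' hu'N
    have hc : Commute (g * u * g⁻¹) (g * h * g⁻¹) := hD.comm _ hu'A _ hh'A
    have e1 : (g * u * g⁻¹) * (g * h * g⁻¹) * (g * u * g⁻¹)⁻¹ = g * h * g⁻¹ := by
      rw [hc.eq]
      group
    rw [e1] at hconj
    -- g h g⁻¹ = (g h g⁻¹)⁻¹
    apply hhh
    have e2 : (g * h * g⁻¹) * (g * h * g⁻¹) = 1 := by
      nth_rewrite 1 [hconj]
      group
    have e3 : h * h = g⁻¹ * ((g * h * g⁻¹) * (g * h * g⁻¹)) * g := by group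
    rw [e3, e2]
    group
  intro y hyh
  by_cases hy1 : y = 1
  · subst hy1
    refine ⟨by group, ?_⟩
    simpa using huN
  -- (iv)
  have hy'h : Commute (u * y * u⁻¹) h := by
    have h1 : Commute (u * y * u⁻¹) (u * h * u⁻¹) := by
      show (u * y * u⁻¹) * (u * h * u⁻¹) = (u * h * u⁻¹) * (u * y * u⁻¹)
      have e : y * h = h * y := hyh.eq
      calc (u * y * u⁻¹) * (u * h * u⁻¹) = u * (y * h) * u⁻¹ := by group
        _ = u * (h * y) * u⁻¹ := by rw [e]
        _ = (u * h * u⁻¹) * (u * y * u⁻¹) := by group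
    rw [huh] at h1
    exact (Commute.inv_right_iff).mp h1
  have hy'1 : u * y * u⁻¹ ≠ 1 := by
    intro e
    apply hy1
    have h2 : y = u⁻¹ * (u * y * u⁻¹) * u := by group
    rw [h2, e]
    group
  have hyy' : Commute y (u * y * u⁻¹) := hD.ct y h _ hy1 hh1 hy'1 hyh hy'h.symm
  have hinvy : u * y * u⁻¹ = y⁻¹ := by
    by_contra hne
    have hc1 : y * (u * y * u⁻¹) ≠ 1 := by
      intro e
      apply hne
      exact (eq_inv_of_mul_eq_one_right e)
    have hcu : Commute u (y * (u * y * u⁻¹)) := by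
      show u * (y * (u * y * u⁻¹)) = (y * (u * y * u⁻¹)) * u
      have e1 : u * (y * (u * y * u⁻¹)) = (u * y * u⁻¹) * (u * u) * y * u⁻¹ := by group
      rw [e1, hu2, mul_one, huinv]
      have e2 : (u * y * u) * y = y * (u * y * u) := by
        have := hyy'.eq
        rw [huinv] at this
        exact this.symm
      calc u * y * u * y * u = ((u * y * u) * y) * u := by group
        _ = (y * (u * y * u)) * u := by rw [e2]
    have hch : Commute (y * (u * y * u⁻¹)) h := hyh.mul_left hy'h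
    have huh' : Commute u h := hD.ct u _ h hu1 hc1 hh1 hcu hch
    exact hnoinv u huh' hu
  refine ⟨hinvy, ?_⟩
  -- (v)
  intro hsN
  have hs2 : (y * u) * (y * u) = 1 := by
    have e1 : (y * u) * (y * u) = y * (u * y * u⁻¹) * (u * u) := by group
    rw [e1, hinvy, hu2]
    group
  have hs1 : y * u ≠ 1 := by
    intro e
    have e2 : u = y⁻¹ := eq_inv_of_mul_eq_one_right e
    apply hnoinv u _ hu
    rw [e2]
    exact hyh.inv_left
  have hs : orderOf (y * u) = 2 := invol_iff.mpr ⟨hs2, hs1⟩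
  have hsA : y * u ∈ A := hD.invol_mem hs hsN
  have hsinv : (y * u)⁻¹ = y * u := invol_inv hs
  have hsh : (y * u) * h * (y * u)⁻¹ = h⁻¹ := by
    calc (y * u) * h * (y * u)⁻¹ = y * (u * h * u⁻¹) * y⁻¹ := by group
      _ = y * h⁻¹ * y⁻¹ := by rw [huh]
      _ = h⁻¹ * y * y⁻¹ := by rw [hyh.inv_right.eq]
      _ = h⁻¹ := by group
  have hsh2 : ((y * u) * h) * ((y * u) * h) = 1 := by
    have e1 : ((y * u) * h) * ((y * u) * h) = ((y * u) * h * (y * u)⁻¹) * ((y * u) * (y * u)) * h := by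
      group
    rw [e1, hsh, hs2]
    group
  have hsh1 : (y * u) * h ≠ 1 := by
    intro e
    apply hhA
    have e2 : h = (y * u)⁻¹ := eq_inv_of_mul_eq_one_right e
    rw [e2]
    exact inv_mem hsA
  have hshA : (y * u) * h ∈ A :=
    hD.invol_mem (invol_iff.mpr ⟨hsh2, hsh1⟩) (mul_mem hsN hhN)
  apply hhA
  have e3 : h = (y * u)⁻¹ * ((y * u) * h) := by group
  rw [e3]
  exact mul_mem (inv_mem hsA) hshA

end

end Cfsg.Agent.Lib.Helper80.CT
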