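import Mathlib
import Cfsg.Agent.Lib.Helper80.CTDefs

set_option autoImplicit false

/-!
S5748, piece SHARP: in the situation of `Data G A N q` with `N` of index `q + 1`, double transitivity
on `G ⧸ N` and the absence of non-identity elements fixing three points give triple transitivity:
the two-point stabilizer `Dsub N u` (of order `q - 1`) is regular on the remaining `q - 1` points.
-/

namespace Cfsg.Agent.Lib.Helper80.CT

section

variable {G : Type*} [Group G] [Finite G] {A N : Subgroup G} {q : ℕ}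

theorem sharp_three (hD : Data G A N q) (hidx : N.index = q + 1)
    (h2 : MulAction.IsMultiplyPretransitive G (G ⧸ N) 2)
    (hall : ∀ v : G, orderOf v = 2 → v ∉ N →
      Dsub N v ⊓ A = ⊥ ∧ Nat.card (Dsub N v) = q - 1 ∧ ∀ d ∈ Dsub N v, v * d * v⁻¹ = d⁻¹)
    (hcoset : ∀ g : G, g ∉ N → ∃ v : G, orderOf v = 2 ∧ v * g⁻¹ ∈ N)
    (h3 : ∀ g : G, ∀ a b c : G ⧸ N, a ≠ b → b ≠ c → a ≠ c → g • a = a → g • b = b →
      g • c = c → g = 1) :
    MulAction.IsMultiplyPretransitive G (G ⧸ N) 3 := by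
  classical
  have hq := hD.four_le
  -- an involution outside `N`
  obtain ⟨g0, hg0⟩ := hD.ne_top
  obtain ⟨u, hu, hug⟩ := hcoset g0 hg0
  have huN : u ∉ N := by
    intro h
    apply hg0
    have h1 : g0⁻¹ = u⁻¹ * (u * g0⁻¹) := by group
    have h2 : g0⁻¹ ∈ N := by
      rw [h1]
      exact mul_mem (inv_mem h) hug
    simpa using inv_mem h2
  obtain ⟨-, hcard, -⟩ := hall u hu huN
  have hαβ : ((1 : G) : G ⧸ N) ≠ ((u : G) : G ⧸ N) := by
    intro e
    rw [QuotientGroup.eq] at e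
    apply huN
    simpa using e
  -- elements of `Dsub N u` fix both points
  have hfixα : ∀ k ∈ Dsub N u, k • ((1 : G) : G ⧸ N) = ((1 : G) : G ⧸ N) := by
    intro k hk
    show ((k * 1 : G) : G ⧸ N) = ((1 : G) : G ⧸ N)
    rw [QuotientGroup.eq]
    simpa using ((mem_Dsub N u k).mp hk).1
  have hfixβ : ∀ k ∈ Dsub N u, k • ((u : G) : G ⧸ N) = ((u : G) : G ⧸ N) := by
    intro k hk
    show ((k * u : G) : G ⧸ N) = ((u : G) : G ⧸ N)
    rw [QuotientGroup.eq]
    have h1 : (k * u)⁻¹ * u = (u⁻¹ * k * u)⁻¹ := by group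
    rw [h1]
    exact inv_mem ((mem_Dsub N u k).mp hk).2
  -- transitivity of `Dsub N u` on the remaining points
  have htr : ∀ γ γ' : G ⧸ N, γ ≠ ((1 : G) : G ⧸ N) → γ ≠ ((u : G) : G ⧸ N) →
      γ' ≠ ((1 : G) : G ⧸ N) → γ' ≠ ((u : G) : G ⧸ N) → ∃ k ∈ Dsub N u, k • γ = γ' := by
    intro γ γ' hγα hγβ hγ'α hγ'β
    have hinj : Function.Injective (fun k : Dsub N u => (k : G) • γ) := by
      intro k k' hkk'
      have hkk : (k : G) • γ = (k' : G) • γ := hkk'
      have h1 : ((k : G)⁻¹ * (k' : G)) • γ = γ := by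
        rw [mul_smul, ← hkk, inv_smul_smul]
      have hmem : (k : G)⁻¹ * (k' : G) ∈ Dsub N u := mul_mem (inv_mem k.2) k'.2
      have h2 := h3 ((k : G)⁻¹ * (k' : G)) _ _ γ hαβ (Ne.symm hγβ) (Ne.symm hγα)
        (hfixα _ hmem) (hfixβ _ hmem) h1
      apply Subtype.ext
      have h4 : (k' : G) = (k : G) * ((k : G)⁻¹ * (k' : G)) := by group
      rw [h4, h2, mul_one]
    have hsub : Set.range (fun k : Dsub N u => (k : G) • γ) ⊆
        ({((1 : G) : G ⧸ N), ((u : G) : G ⧸ N)} : Set (G ⧸ N))ᶜ := by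
      rintro _ ⟨k, rfl⟩
      simp only [Set.mem_compl_iff, Set.mem_insert_iff, Set.mem_singleton_iff, not_or]
      constructor
      · intro e
        apply hγα
        have h1 : (k : G) • γ = (k : G) • ((1 : G) : G ⧸ N) := by
          rw [hfixα _ k.2]
          exact e
        exact smul_left_cancel _ h1
      · intro e
        apply hγβ
        have h1 : (k : G) • γ = (k : G) • ((u : G) : G ⧸ N) := by
          rw [hfixβ _ k.2]
          exact e
        exact smul_left_cancel _ h1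
    have hcardΩ : Nat.card (G ⧸ N) = q + 1 := by
      rw [← hidx]
      rfl
    have hc1 : (Set.range (fun k : Dsub N u => (k : G) • γ)).ncard = q - 1 := by
      rw [Set.ncard_range_of_injective hinj, hcard]
    have hc2 : (({((1 : G) : G ⧸ N), ((u : G) : G ⧸ N)} : Set (G ⧸ N))ᶜ).ncard = q - 1 := by
      rw [Set.ncard_compl, Set.ncard_pair hαβ, hcardΩ]
      omega
    have heq := Set.eq_of_subset_of_ncard_le hsub (by rw [hc1, hc2])
    have hmem : γ' ∈ ({((1 : G) : G ⧸ N), ((u : G) : G ⧸ N)} : Set (G ⧸ N))ᶜ := by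
      simp only [Set.mem_compl_iff, Set.mem_insert_iff, Set.mem_singleton_iff, not_or]
      exact ⟨hγ'α, hγ'β⟩
    rw [← heq] at hmem
    obtain ⟨k, hk⟩ := hmem
    exact ⟨k, k.2, hk⟩
  rw [MulAction.is_two_pretransitive_iff] at h2
  refine ⟨fun x y => ?_⟩
  have hx01 : x 0 ≠ x 1 := x.injective.ne (by decide)
  have hx02 : x 0 ≠ x 2 := x.injective.ne (by decide)
  have hx12 : x 1 ≠ x 2 := x.injective.ne (by decide)
  have hy01 : y 0 ≠ y 1 := y.injective.ne (by decide)
  have hy02 : y 0 ≠ y 2 := y.injective.ne (by decide)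
  have hy12 : y 1 ≠ y 2 := y.injective.ne (by decide)
  obtain ⟨g1, hg10, hg11⟩ := h2 hx01 hαβ
  obtain ⟨g2, hg20, hg21⟩ := h2 hy01 hαβ
  have hγα : g1 • x 2 ≠ ((1 : G) : G ⧸ N) := by
    intro e
    rw [← hg10] at e
    exact hx02 (smul_left_cancel _ e).symm
  have hγβ : g1 • x 2 ≠ ((u : G) : G ⧸ N) := by
    intro e
    rw [← hg11] at e
    exact hx12 (smul_left_cancel _ e).symm
  have hγ'α : g2 • y 2 ≠ ((1 : G) : G ⧸ N) := by
    intro e
    rw [← hg20] at e
    exact hy02 (smul_left_cancel _ e).symm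
  have hγ'β : g2 • y 2 ≠ ((u : G) : G ⧸ N) := by
    intro e
    rw [← hg21] at e
    exact hy12 (smul_left_cancel _ e).symm
  obtain ⟨k, hk, hkγ⟩ := htr _ _ hγα hγβ hγ'α hγ'β
  refine ⟨g2⁻¹ * k * g1, ?_⟩
  ext i
  rw [Function.Embedding.smul_apply]
  fin_cases i
  · show (g2⁻¹ * k * g1) • x 0 = y 0
    rw [mul_smul, mul_smul, hg10, hfixα k hk, ← hg20, inv_smul_smul]
  · show (g2⁻¹ * k * g1) • x 1 = y 1
    rw [mul_smul, mul_smul, hg11, hfixβ k hk, ← hg21, inv_smul_smul]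
  · show (g2⁻¹ * k * g1) • x 2 = y 2
    rw [mul_smul, mul_smul, hkγ, inv_smul_smul]

end

end Cfsg.Agent.Lib.Helper80.CT
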