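import Mathlib

/-!
# Cole-range orders (S0977: 4320, S0980: 5760), piece ARC (project of helper80)

Pure arithmetic: the principal 5-block degree equation together with the values at an
involution `y ∈ C_G(P)` (congruent to the sign mod 5 and to the degree mod 4) has no solution.
Both statements are reduced to closed statements with bounded quantifiers, which the kernel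
evaluates.
-/

set_option autoImplicit false
set_option maxRecDepth 100000
set_option synthInstance.maxSize 100000
set_option synthInstance.maxHeartbeats 0
set_option maxHeartbeats 0

namespace Cfsg.Agent.Lib.Helper80.Cole

theorem coarc_core2 : ∀ g ∈ ([4320, 5760] : List ℕ), ∀ s ∈ ([1, -1] : List ℤ),
    ∀ ε ∈ ([1, -1] : List ℤ),
    ∀ d : ℕ, d < 76 → d ∣ g → d * d < g → (d : ℤ) ≡ s [ZMOD 5] →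
    ∀ dθ : ℕ, dθ < 76 → ε * (dθ : ℤ) = 1 + s * d → dθ ∣ g → dθ * dθ < g → (dθ : ℤ) ≡ ε * 2 [ZMOD 5] →
    ∀ k : ℤ, -(d : ℤ) ≤ k → k ≤ (d : ℤ) → k ≡ s [ZMOD 5] → k ≡ (d : ℤ) [ZMOD 4] →
      k ≠ (d : ℤ) → False := by
  decide +kernel

theorem coarc_lt76 (g : ℕ) (hg : g = 4320 ∨ g = 5760) (d : ℕ) (hq : d * d < g) : d < 76 := by
  have hg5 : g ≤ 5760 := by rcases hg with rfl | rfl <;> norm_num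
  by_contra h
  have h' : 76 ≤ d := Nat.le_of_not_lt h
  nlinarith

theorem coarc_memg (g : ℕ) (hg : g = 4320 ∨ g = 5760) : g ∈ ([4320, 5760] : List ℕ) := by
  rcases hg with rfl | rfl <;> simp

theorem coarc_mems (s : ℤ) (hs : s = 1 ∨ s = -1) : s ∈ ([1, -1] : List ℤ) := by
  rcases hs with rfl | rfl <;> simp

/-- ARC2: inertial index `e = 2`. -/
theorem arc2 (g : ℕ) (hg : g = 4320 ∨ g = 5760) (d dθ : ℕ) (s ε k : ℤ)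
    (hs : s = 1 ∨ s = -1) (hε : ε = 1 ∨ ε = -1)
    (hd : d ∣ g) (hdθ : dθ ∣ g) (hq : d * d < g) (hqθ : dθ * dθ < g)
    (hm : (d : ℤ) ≡ s [ZMOD 5]) (hmθ : (dθ : ℤ) ≡ ε * 2 [ZMOD 5])
    (hdeg : ε * (dθ : ℤ) = 1 + s * d)
    (hk : k ≡ s [ZMOD 5]) (hf : k ≡ (d : ℤ) [ZMOD 4]) (ha : |k| ≤ (d : ℤ))
    (hn : k ≠ (d : ℤ)) : False := by
  obtain ⟨ha1, ha2⟩ := abs_le.mp ha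
  exact coarc_core2 g (coarc_memg g hg) s (coarc_mems s hs) ε (coarc_mems ε hε)
    d (coarc_lt76 g hg d hq) hd hq hm dθ (coarc_lt76 g hg dθ hqθ) hdeg hdθ hqθ hmθ
    k ha1 ha2 hk hf hn

theorem coarc_core4 : ∀ g ∈ ([4320, 5760] : List ℕ),
    ∀ s₁ ∈ ([1, -1] : List ℤ), ∀ d₁ : ℕ, d₁ < 76 → d₁ ∣ g → d₁ * d₁ < g → (d₁ : ℤ) ≡ s₁ [ZMOD 5] →
    ∀ s₂ ∈ ([1, -1] : List ℤ), ∀ d₂ : ℕ, d₂ < 76 → d₂ ∣ g → d₂ * d₂ < g → (d₂ : ℤ) ≡ s₂ [ZMOD 5] →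
    ∀ s₃ ∈ ([1, -1] : List ℤ), ∀ d₃ : ℕ, d₃ < 76 → d₃ ∣ g → d₃ * d₃ < g → (d₃ : ℤ) ≡ s₃ [ZMOD 5] →
    ∀ ε ∈ ([1, -1] : List ℤ), ∀ dθ : ℕ, dθ < 76 →
      ε * (dθ : ℤ) = 1 + s₁ * d₁ + s₂ * d₂ + s₃ * d₃ →
      dθ ∣ g → dθ * dθ < g → (dθ : ℤ) ≡ ε * 4 [ZMOD 5] →
    ∀ k₁ : ℤ, -(d₁ : ℤ) ≤ k₁ → k₁ ≤ (d₁ : ℤ) → k₁ ≡ (d₁ : ℤ) [ZMOD 4] → k₁ ≡ s₁ [ZMOD 5] →
      k₁ ≠ (d₁ : ℤ) →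
    ∀ k₂ : ℤ, -(d₂ : ℤ) ≤ k₂ → k₂ ≤ (d₂ : ℤ) → k₂ ≡ (d₂ : ℤ) [ZMOD 4] → k₂ ≡ s₂ [ZMOD 5] →
      k₂ ≠ (d₂ : ℤ) →
    ∀ k₃ : ℤ, -(d₃ : ℤ) ≤ k₃ → k₃ ≤ (d₃ : ℤ) → k₃ ≡ (d₃ : ℤ) [ZMOD 4] → k₃ ≡ s₃ [ZMOD 5] →
      k₃ ≠ (d₃ : ℤ) →
      ε * (1 + s₁ * k₁ + s₂ * k₂ + s₃ * k₃) ≡ (dθ : ℤ) [ZMOD 4] →
      -(dθ : ℤ) ≤ ε * (1 + s₁ * k₁ + s₂ * k₂ + s₃ * k₃) →
      ε * (1 + s₁ * k₁ + s₂ * k₂ + s₃ * k₃) ≤ (dθ : ℤ) →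
      ε * (1 + s₁ * k₁ + s₂ * k₂ + s₃ * k₃) ≠ (dθ : ℤ) → False := by
  decide +kernel

/-- ARC4: inertial index `e = 4`. -/
theorem arc4 (g : ℕ) (hg : g = 4320 ∨ g = 5760) (d₁ d₂ d₃ dθ : ℕ)
    (s₁ s₂ s₃ ε k₁ k₂ k₃ kθ : ℤ)
    (hs₁ : s₁ = 1 ∨ s₁ = -1) (hs₂ : s₂ = 1 ∨ s₂ = -1) (hs₃ : s₃ = 1 ∨ s₃ = -1)
    (hε : ε = 1 ∨ ε = -1)
    (hd₁ : d₁ ∣ g) (hd₂ : d₂ ∣ g) (hd₃ : d₃ ∣ g) (hdθ : dθ ∣ g)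
    (hq₁ : d₁ * d₁ < g) (hq₂ : d₂ * d₂ < g) (hq₃ : d₃ * d₃ < g) (hqθ : dθ * dθ < g)
    (hm₁ : (d₁ : ℤ) ≡ s₁ [ZMOD 5]) (hm₂ : (d₂ : ℤ) ≡ s₂ [ZMOD 5])
    (hm₃ : (d₃ : ℤ) ≡ s₃ [ZMOD 5]) (hmθ : (dθ : ℤ) ≡ ε * 4 [ZMOD 5])
    (hdeg : ε * (dθ : ℤ) = 1 + s₁ * d₁ + s₂ * d₂ + s₃ * d₃)
    (hval : ε * kθ = 1 + s₁ * k₁ + s₂ * k₂ + s₃ * k₃)
    (hk₁ : k₁ ≡ s₁ [ZMOD 5]) (hk₂ : k₂ ≡ s₂ [ZMOD 5]) (hk₃ : k₃ ≡ s₃ [ZMOD 5])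
    (hf₁ : k₁ ≡ (d₁ : ℤ) [ZMOD 4]) (hf₂ : k₂ ≡ (d₂ : ℤ) [ZMOD 4])
    (hf₃ : k₃ ≡ (d₃ : ℤ) [ZMOD 4]) (hfθ : kθ ≡ (dθ : ℤ) [ZMOD 4])
    (ha₁ : |k₁| ≤ (d₁ : ℤ)) (ha₂ : |k₂| ≤ (d₂ : ℤ)) (ha₃ : |k₃| ≤ (d₃ : ℤ))
    (haθ : |kθ| ≤ (dθ : ℤ))
    (hn₁ : k₁ ≠ (d₁ : ℤ)) (hn₂ : k₂ ≠ (d₂ : ℤ)) (hn₃ : k₃ ≠ (d₃ : ℤ))
    (hnθ : kθ ≠ (dθ : ℤ)) : False := by
  have hkθ : kθ = ε * (1 + s₁ * k₁ + s₂ * k₂ + s₃ * k₃) := by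
    rcases hε with rfl | rfl <;> linarith
  subst hkθ
  obtain ⟨a1, b1⟩ := abs_le.mp ha₁
  obtain ⟨a2, b2⟩ := abs_le.mp ha₂
  obtain ⟨a3, b3⟩ := abs_le.mp ha₃
  obtain ⟨aθ, bθ⟩ := abs_le.mp haθ
  exact coarc_core4 g (coarc_memg g hg)
    s₁ (coarc_mems s₁ hs₁) d₁ (coarc_lt76 g hg d₁ hq₁) hd₁ hq₁ hm₁
    s₂ (coarc_mems s₂ hs₂) d₂ (coarc_lt76 g hg d₂ hq₂) hd₂ hq₂ hm₂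
    s₃ (coarc_mems s₃ hs₃) d₃ (coarc_lt76 g hg d₃ hq₃) hd₃ hq₃ hm₃
    ε (coarc_mems ε hε) dθ (coarc_lt76 g hg dθ hqθ) hdeg hdθ hqθ hmθ
    k₁ a1 b1 hf₁ hk₁ hn₁ k₂ a2 b2 hf₂ hk₂ hn₂ k₃ a3 b3 hf₃ hk₃ hn₃
    hfθ aθ bθ hnθ

end Cfsg.Agent.Lib.Helper80.Cole
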