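import Mathlib

/-!
# Cole-range orders (S0978: 5040), piece ARC5 (placeholder; project of helper80)

Pure arithmetic for the order 5040 (principal 5-block and principal 7-block, values at an
involution of `C_G(P)`, integrality of central characters, column bound).
-/

set_option autoImplicit false

namespace Cfsg.Agent.Lib.Helper80.Cole

theorem coarc5_dvd_cases (n : ℕ) (h : n ∣ 5040) (hq : n * n < 5040) :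
    n = 1 ∨ n = 2 ∨ n = 3 ∨ n = 4 ∨ n = 5 ∨ n = 6 ∨ n = 7 ∨ n = 8 ∨ n = 9 ∨ n = 10 ∨ n = 12 ∨
    n = 14 ∨ n = 15 ∨ n = 16 ∨ n = 18 ∨ n = 20 ∨ n = 21 ∨ n = 24 ∨ n = 28 ∨ n = 30 ∨ n = 35 ∨
    n = 36 ∨ n = 40 ∨ n = 42 ∨ n = 45 ∨ n = 48 ∨ n = 56 ∨ n = 60 ∨ n = 63 ∨ n = 70 := by
  have hn : n < 71 := Nat.mul_self_lt_mul_self_iff.mp (by omega)
  interval_cases n <;> omega

set_option maxHeartbeats 1000000 in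
theorem coarc5_degk (d : ℕ) (s k : ℤ) (hs : s = 1 ∨ s = -1) (hd : d ∣ 5040)
    (hq : d * d < 5040) (hm : (d : ℤ) ≡ s [ZMOD 5]) (hk : k ≡ s [ZMOD 5])
    (hf : k ≡ (d : ℤ) [ZMOD 4]) (ha : |k| ≤ (d : ℤ)) (hn : k ≠ (d : ℤ)) :
    (d = 14 ∧ s = -1 ∧ k = -6) ∨ (d = 16 ∧ s = 1 ∧ k = -4) ∨
    (d = 21 ∧ s = 1 ∧ (k = -19 ∨ k = 1)) ∨ (d = 24 ∧ s = -1 ∧ (k = -16 ∨ k = 4)) ∨
    (d = 36 ∧ s = 1) ∨ (d = 56 ∧ s = 1) := by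
  have hdis := coarc5_dvd_cases d hd hq
  have hm' : (d : ℤ) % 5 = s % 5 := hm
  have hk' : k % 5 = s % 5 := hk
  have hf' : k % 4 = (d : ℤ) % 4 := hf
  rw [abs_le] at ha
  clear hm hk hf hq hd
  rcases hs with rfl | rfl <;>
  rcases hdis with rfl | rfl | rfl | rfl | rfl | rfl | rfl | rfl | rfl | rfl | rfl | rfl | rfl |
    rfl | rfl | rfl | rfl | rfl | rfl | rfl | rfl | rfl | rfl | rfl | rfl | rfl | rfl | rfl |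
    rfl | rfl <;> omega

theorem coarc5_deg (d I : ℕ) (s k : ℤ) (hs : s = 1 ∨ s = -1) (hd : d ∣ 5040)
    (hq : d * d < 5040) (hm : (d : ℤ) ≡ s [ZMOD 5]) (hk : k ≡ s [ZMOD 5])
    (hf : k ≡ (d : ℤ) [ZMOD 4]) (ha : |k| ≤ (d : ℤ)) (hn : k ≠ (d : ℤ))
    (hi : (d : ℤ) ∣ (I : ℤ) * k) :
    (d = 14 ∧ s = -1 ∧ k = -6 ∧ 7 ∣ I) ∨ (d = 16 ∧ s = 1 ∧ k = -4 ∧ 4 ∣ I) ∨
    (d = 21 ∧ s = 1 ∧ 1 ≤ k ^ 2 ∧ 21 ∣ I) ∨ (d = 24 ∧ s = -1 ∧ 16 ≤ k ^ 2 ∧ 3 ∣ I) ∨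
    (d = 36 ∧ s = 1) ∨ (d = 56 ∧ s = 1) := by
  rcases coarc5_degk d s k hs hd hq hm hk hf ha hn with ⟨rfl, rfl, rfl⟩ | ⟨rfl, rfl, rfl⟩ |
    ⟨rfl, rfl, rfl | rfl⟩ | ⟨rfl, rfl, rfl | rfl⟩ | ⟨rfl, rfl⟩ | ⟨rfl, rfl⟩
  · left; refine ⟨rfl, rfl, rfl, ?_⟩; clear hm hk hf ha hn hs hd hq; omega
  · right; left; refine ⟨rfl, rfl, rfl, ?_⟩; clear hm hk hf ha hn hs hd hq; omega
  · right; right; left; refine ⟨rfl, rfl, by norm_num, ?_⟩; clear hm hk hf ha hn hs hd hq; omega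
  · right; right; left; refine ⟨rfl, rfl, by norm_num, ?_⟩; clear hm hk hf ha hn hs hd hq; omega
  · right; right; right; left; refine ⟨rfl, rfl, by norm_num, ?_⟩; clear hm hk hf ha hn hs hd hq; omega
  · right; right; right; left; refine ⟨rfl, rfl, by norm_num, ?_⟩; clear hm hk hf ha hn hs hd hq; omega
  · right; right; right; right; left; exact ⟨rfl, rfl⟩
  · right; right; right; right; right; exact ⟨rfl, rfl⟩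

set_option maxHeartbeats 1000000 in
theorem coarc5_degk7 (d : ℕ) (s k : ℤ) (hs : s = 1 ∨ s = -1) (hd : d ∣ 5040)
    (hq : d * d < 5040) (hm : (d : ℤ) ≡ s [ZMOD 7]) (hk : k ≡ s [ZMOD 7])
    (hf : k ≡ (d : ℤ) [ZMOD 4]) (ha : |k| ≤ (d : ℤ)) (hn : k ≠ (d : ℤ)) :
    (d = 15 ∧ s = 1 ∧ k = -13) ∨ (d = 20 ∧ s = -1) ∨ (d = 36 ∧ s = 1) ∨ (d = 48 ∧ s = -1) := by
  have hdis := coarc5_dvd_cases d hd hq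
  have hm' : (d : ℤ) % 7 = s % 7 := hm
  have hk' : k % 7 = s % 7 := hk
  have hf' : k % 4 = (d : ℤ) % 4 := hf
  rw [abs_le] at ha
  clear hm hk hf hq hd
  rcases hs with rfl | rfl <;>
  rcases hdis with rfl | rfl | rfl | rfl | rfl | rfl | rfl | rfl | rfl | rfl | rfl | rfl | rfl |
    rfl | rfl | rfl | rfl | rfl | rfl | rfl | rfl | rfl | rfl | rfl | rfl | rfl | rfl | rfl |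
    rfl | rfl <;> omega

/-- ARC5a: `p = 5`, inertial index `e = 2`. -/
theorem arc2_5040 (d dθ : ℕ) (s ε k : ℤ)
    (hs : s = 1 ∨ s = -1) (hε : ε = 1 ∨ ε = -1)
    (hd : d ∣ 5040) (hdθ : dθ ∣ 5040) (hq : d * d < 5040) (hqθ : dθ * dθ < 5040)
    (hm : (d : ℤ) ≡ s [ZMOD 5]) (hmθ : (dθ : ℤ) ≡ ε * 2 [ZMOD 5])
    (hdeg : ε * (dθ : ℤ) = 1 + s * d)
    (hk : k ≡ s [ZMOD 5]) (hf : k ≡ (d : ℤ) [ZMOD 4]) (ha : |k| ≤ (d : ℤ))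
    (hn : k ≠ (d : ℤ)) : False := by
  have hdis := coarc5_dvd_cases dθ hdθ hqθ
  have h1 := coarc5_degk d s k hs hd hq hm hk hf ha hn
  clear hm hk hf ha hn hs hd hq hmθ hdθ hqθ
  rcases h1 with ⟨rfl, rfl, -⟩ | ⟨rfl, rfl, -⟩ | ⟨rfl, rfl, -⟩ | ⟨rfl, rfl, -⟩ | ⟨rfl, rfl⟩ |
    ⟨rfl, rfl⟩ <;> rcases hε with rfl | rfl <;> omega

/-- ARC5b: `p = 5`, inertial index `e = 4`; `c = |C_G(y)|`, `I = |G : C_G(y)|`. -/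
theorem arc4_5040 (d₁ d₂ d₃ dθ c I : ℕ) (s₁ s₂ s₃ ε k₁ k₂ k₃ kθ : ℤ)
    (hs₁ : s₁ = 1 ∨ s₁ = -1) (hs₂ : s₂ = 1 ∨ s₂ = -1) (hs₃ : s₃ = 1 ∨ s₃ = -1)
    (hε : ε = 1 ∨ ε = -1)
    (hd₁ : d₁ ∣ 5040) (hd₂ : d₂ ∣ 5040) (hd₃ : d₃ ∣ 5040) (hdθ : dθ ∣ 5040)
    (hq₁ : d₁ * d₁ < 5040) (hq₂ : d₂ * d₂ < 5040) (hq₃ : d₃ * d₃ < 5040)
    (hqθ : dθ * dθ < 5040)
    (hm₁ : (d₁ : ℤ) ≡ s₁ [ZMOD 5]) (hm₂ : (d₂ : ℤ) ≡ s₂ [ZMOD 5])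
    (hm₃ : (d₃ : ℤ) ≡ s₃ [ZMOD 5]) (hmθ : (dθ : ℤ) ≡ ε * 4 [ZMOD 5])
    (hdeg : ε * (dθ : ℤ) = 1 + s₁ * d₁ + s₂ * d₂ + s₃ * d₃)
    (hval : ε * kθ = 1 + s₁ * k₁ + s₂ * k₂ + s₃ * k₃)
    (hk₁ : k₁ ≡ s₁ [ZMOD 5]) (hk₂ : k₂ ≡ s₂ [ZMOD 5]) (hk₃ : k₃ ≡ s₃ [ZMOD 5])
    (hf₁ : k₁ ≡ (d₁ : ℤ) [ZMOD 4]) (hf₂ : k₂ ≡ (d₂ : ℤ) [ZMOD 4])
    (hf₃ : k₃ ≡ (d₃ : ℤ) [ZMOD 4]) (hfθ : kθ ≡ (dθ : ℤ) [ZMOD 4])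
    (ha₁ : |k₁| ≤ (d₁ : ℤ)) (ha₂ : |k₂| ≤ (d₂ : ℤ)) (ha₃ : |k₃| ≤ (d₃ : ℤ))
    (haθ : |kθ| ≤ (dθ : ℤ))
    (hn₁ : k₁ ≠ (d₁ : ℤ)) (hn₂ : k₂ ≠ (d₂ : ℤ)) (hn₃ : k₃ ≠ (d₃ : ℤ))
    (hnθ : kθ ≠ (dθ : ℤ))
    (hcI : c * I = 5040)
    (hi₁ : (d₁ : ℤ) ∣ (I : ℤ) * k₁) (hi₂ : (d₂ : ℤ) ∣ (I : ℤ) * k₂)
    (hi₃ : (d₃ : ℤ) ∣ (I : ℤ) * k₃) (hiθ : (dθ : ℤ) ∣ (I : ℤ) * kθ)
    (hcol : 1 + k₁ ^ 2 + k₂ ^ 2 + k₃ ^ 2 + kθ ^ 2 ≤ (c : ℤ)) : False := by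
  obtain ⟨s₄, rfl⟩ : ∃ s₄ : ℤ, ε = -s₄ := ⟨-ε, by ring⟩
  have hs₄ : s₄ = 1 ∨ s₄ = -1 := by omega
  have hm₄ : (dθ : ℤ) ≡ s₄ [ZMOD 5] := by
    have h : (dθ : ℤ) % 5 = (-s₄ * 4) % 5 := hmθ
    show (dθ : ℤ) % 5 = s₄ % 5
    rcases hs₄ with rfl | rfl <;> omega
  have hk₄ : kθ ≡ s₄ [ZMOD 5] := by
    have h1 : k₁ % 5 = s₁ % 5 := hk₁
    have h2 : k₂ % 5 = s₂ % 5 := hk₂
    have h3 : k₃ % 5 = s₃ % 5 := hk₃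
    show kθ % 5 = s₄ % 5
    clear hi₁ hi₂ hi₃ hiθ hcol hdeg hm₁ hm₂ hm₃ hmθ hm₄ hk₁ hk₂ hk₃ hf₁ hf₂ hf₃ hfθ
    rcases hs₁ with rfl | rfl <;> rcases hs₂ with rfl | rfl <;> rcases hs₃ with rfl | rfl <;>
      rcases hs₄ with rfl | rfl <;> omega
  have hc60 : ¬ (84 ∣ I) ∨ c ≤ 60 := by
    by_cases h84 : 84 ∣ I
    · right
      obtain ⟨j, rfl⟩ := h84
      have h1 : 84 * (c * j) = 5040 := by rw [← hcI]; ring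
      have h2 : c * j = 60 := by omega
      exact Nat.le_of_dvd (by norm_num) ⟨j, h2.symm⟩
    · left; exact h84
  have h1 := coarc5_deg d₁ I s₁ k₁ hs₁ hd₁ hq₁ hm₁ hk₁ hf₁ ha₁ hn₁ hi₁
  have h2 := coarc5_deg d₂ I s₂ k₂ hs₂ hd₂ hq₂ hm₂ hk₂ hf₂ ha₂ hn₂ hi₂
  have h3 := coarc5_deg d₃ I s₃ k₃ hs₃ hd₃ hq₃ hm₃ hk₃ hf₃ ha₃ hn₃ hi₃
  have h4 := coarc5_deg dθ I s₄ kθ hs₄ hdθ hqθ hm₄ hk₄ hfθ haθ hnθ hiθ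
  clear hs₁ hs₂ hs₃ hs₄ hε hd₁ hd₂ hd₃ hdθ hq₁ hq₂ hq₃ hqθ hm₁ hm₂ hm₃ hmθ hm₄ hk₁ hk₂ hk₃ hk₄
    hf₁ hf₂ hf₃ hfθ ha₁ ha₂ ha₃ haθ hn₁ hn₂ hn₃ hnθ hcI hi₁ hi₂ hi₃ hiθ hval
  rcases h1 with ⟨rfl, rfl, rfl, h1⟩ | ⟨rfl, rfl, rfl, h1⟩ | ⟨rfl, rfl, h1⟩ | ⟨rfl, rfl, h1⟩ |
    ⟨rfl, rfl⟩ | ⟨rfl, rfl⟩ <;>
  rcases h2 with ⟨rfl, rfl, rfl, h2⟩ | ⟨rfl, rfl, rfl, h2⟩ | ⟨rfl, rfl, h2⟩ | ⟨rfl, rfl, h2⟩ |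
    ⟨rfl, rfl⟩ | ⟨rfl, rfl⟩ <;>
  rcases h3 with ⟨rfl, rfl, rfl, h3⟩ | ⟨rfl, rfl, rfl, h3⟩ | ⟨rfl, rfl, h3⟩ | ⟨rfl, rfl, h3⟩ |
    ⟨rfl, rfl⟩ | ⟨rfl, rfl⟩ <;>
  rcases h4 with ⟨rfl, rfl, rfl, h4⟩ | ⟨rfl, rfl, rfl, h4⟩ | ⟨rfl, rfl, h4⟩ | ⟨rfl, rfl, h4⟩ |
    ⟨rfl, rfl⟩ | ⟨rfl, rfl⟩ <;> omega

/-- ARC5c: `p = 7`, inertial index `e = 2`; `c = |C_G(y)|`, `I = |G : C_G(y)|`. -/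
theorem arc2_7 (d dθ c I : ℕ) (s ε k kθ : ℤ)
    (hs : s = 1 ∨ s = -1) (hε : ε = 1 ∨ ε = -1)
    (hd : d ∣ 5040) (hdθ : dθ ∣ 5040) (hq : d * d < 5040) (hqθ : dθ * dθ < 5040)
    (hm : (d : ℤ) ≡ s [ZMOD 7]) (hmθ : (dθ : ℤ) ≡ ε * 2 [ZMOD 7])
    (hdeg : ε * (dθ : ℤ) = 1 + s * d) (hval : ε * kθ = 1 + s * k)
    (hk : k ≡ s [ZMOD 7]) (hf : k ≡ (d : ℤ) [ZMOD 4]) (ha : |k| ≤ (d : ℤ))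
    (hn : k ≠ (d : ℤ))
    (hcI : c * I = 5040)
    (hi : (d : ℤ) ∣ (I : ℤ) * k) (hiθ : (dθ : ℤ) ∣ (I : ℤ) * kθ)
    (hcol : 1 + k ^ 2 + kθ ^ 2 ≤ (c : ℤ)) : False := by
  have hdis := coarc5_dvd_cases dθ hdθ hqθ
  have h1 := coarc5_degk7 d s k hs hd hq hm hk hf ha hn
  have hc84 : ¬ (60 ∣ I) ∨ c ≤ 84 := by
    by_cases h60 : 60 ∣ I
    · right
      obtain ⟨j, rfl⟩ := h60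
      have h1 : 60 * (c * j) = 5040 := by rw [← hcI]; ring
      have h2 : c * j = 84 := by omega
      exact Nat.le_of_dvd (by norm_num) ⟨j, h2.symm⟩
    · left; exact h60
  clear hm hk hf ha hn hs hd hq hmθ hdθ hqθ hcI
  rcases h1 with ⟨rfl, rfl, rfl⟩ | ⟨rfl, rfl⟩ | ⟨rfl, rfl⟩ | ⟨rfl, rfl⟩ <;>
    rcases hε with rfl | rfl
  all_goals first
    | omega
    | (obtain rfl : dθ = 16 := by omega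
       obtain rfl : kθ = -12 := by omega
       omega)

end Cfsg.Agent.Lib.Helper80.Cole
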