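import Mathlib

/-!
# Cole-range orders (S0977: 4320), piece ARN (project of helper80)

Pure arithmetic: order 4320, `C_G(P) = P`, `|N_G(P)| = 20`: the degree equation of the five
characters of the principal 5-block, their values at an involution `t` inverting `P`
(congruent to the degrees mod 4), the class-constant formula and the column bound have no
common solution.  The statement is reduced to a closed statement with bounded quantifiers,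
which the kernel evaluates: for every admissible choice of degrees and values either the
column bound contradicts the class-constant formula, or the formula would make `c ^ 2` lie
strictly between two consecutive squares.
-/

set_option autoImplicit false
set_option maxRecDepth 100000
set_option synthInstance.maxSize 100000
set_option synthInstance.maxHeartbeats 0
set_option maxHeartbeats 0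

namespace Cfsg.Agent.Lib.Helper80.Cole

theorem coarn_core :
    ∀ s₁ ∈ ([1, -1] : List ℤ), ∀ d₁ : ℕ, d₁ < 66 → d₁ ∣ 4320 → d₁ * d₁ < 4320 →
      (d₁ : ℤ) ≡ s₁ [ZMOD 5] →
    ∀ s₂ ∈ ([1, -1] : List ℤ), ∀ d₂ : ℕ, d₂ < 66 → d₂ ∣ 4320 → d₂ * d₂ < 4320 →
      (d₂ : ℤ) ≡ s₂ [ZMOD 5] →
    ∀ s₃ ∈ ([1, -1] : List ℤ), ∀ d₃ : ℕ, d₃ < 66 → d₃ ∣ 4320 → d₃ * d₃ < 4320 →
      (d₃ : ℤ) ≡ s₃ [ZMOD 5] →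
    ∀ ε ∈ ([1, -1] : List ℤ), ∀ dθ : ℕ, dθ < 66 →
      ε * (dθ : ℤ) = 1 + s₁ * d₁ + s₂ * d₂ + s₃ * d₃ →
      dθ ∣ 4320 → dθ * dθ < 4320 → (dθ : ℤ) ≡ ε * 4 [ZMOD 5] →
    ∀ k₁ : ℤ, -(d₁ : ℤ) ≤ k₁ → k₁ ≤ (d₁ : ℤ) → k₁ ≡ (d₁ : ℤ) [ZMOD 4] → k₁ ≠ (d₁ : ℤ) →
    ∀ k₂ : ℤ, -(d₂ : ℤ) ≤ k₂ → k₂ ≤ (d₂ : ℤ) → k₂ ≡ (d₂ : ℤ) [ZMOD 4] → k₂ ≠ (d₂ : ℤ) →
    ∀ k₃ : ℤ, -(d₃ : ℤ) ≤ k₃ → k₃ ≤ (d₃ : ℤ) → k₃ ≡ (d₃ : ℤ) [ZMOD 4] → k₃ ≠ (d₃ : ℤ) →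
      ε * (1 + s₁ * k₁ + s₂ * k₂ + s₃ * k₃) ≡ (dθ : ℤ) [ZMOD 4] →
      -(dθ : ℤ) ≤ ε * (1 + s₁ * k₁ + s₂ * k₂ + s₃ * k₃) →
      ε * (1 + s₁ * k₁ + s₂ * k₂ + s₃ * k₃) ≤ (dθ : ℤ) →
      ε * (1 + s₁ * k₁ + s₂ * k₂ + s₃ * k₃) ≠ (dθ : ℤ) →
      (4320 * ((d₁ : ℤ) * d₂ * d₃ * dθ + s₁ * k₁ ^ 2 * ((d₂ : ℤ) * d₃ * dθ)
          + s₂ * k₂ ^ 2 * ((d₁ : ℤ) * d₃ * dθ) + s₃ * k₃ ^ 2 * ((d₁ : ℤ) * d₂ * dθ)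
          - ε * (ε * (1 + s₁ * k₁ + s₂ * k₂ + s₃ * k₃)) ^ 2 * ((d₁ : ℤ) * d₂ * d₃)) <
        (1 + k₁ ^ 2 + k₂ ^ 2 + k₃ ^ 2 + (ε * (1 + s₁ * k₁ + s₂ * k₂ + s₃ * k₃)) ^ 2) ^ 2 *
          (5 * ((d₁ : ℤ) * d₂ * d₃ * dθ))) ∨
      ∃ m : ℕ, m < 77 ∧ (m : ℤ) * m * (5 * ((d₁ : ℤ) * d₂ * d₃ * dθ)) <
          4320 * ((d₁ : ℤ) * d₂ * d₃ * dθ + s₁ * k₁ ^ 2 * ((d₂ : ℤ) * d₃ * dθ)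
          + s₂ * k₂ ^ 2 * ((d₁ : ℤ) * d₃ * dθ) + s₃ * k₃ ^ 2 * ((d₁ : ℤ) * d₂ * dθ)
          - ε * (ε * (1 + s₁ * k₁ + s₂ * k₂ + s₃ * k₃)) ^ 2 * ((d₁ : ℤ) * d₂ * d₃)) ∧
        4320 * ((d₁ : ℤ) * d₂ * d₃ * dθ + s₁ * k₁ ^ 2 * ((d₂ : ℤ) * d₃ * dθ)
          + s₂ * k₂ ^ 2 * ((d₁ : ℤ) * d₃ * dθ) + s₃ * k₃ ^ 2 * ((d₁ : ℤ) * d₂ * dθ)
          - ε * (ε * (1 + s₁ * k₁ + s₂ * k₂ + s₃ * k₃)) ^ 2 * ((d₁ : ℤ) * d₂ * d₃)) <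
          ((m : ℤ) + 1) * ((m : ℤ) + 1) * (5 * ((d₁ : ℤ) * d₂ * d₃ * dθ)) := by
  decide +kernel

theorem coarn_lt66 (d : ℕ) (hq : d * d < 4320) : d < 66 := by
  by_contra h
  have h' : 66 ≤ d := Nat.le_of_not_lt h
  nlinarith

theorem coarn_mems (s : ℤ) (hs : s = 1 ∨ s = -1) : s ∈ ([1, -1] : List ℤ) := by
  rcases hs with rfl | rfl <;> simp

/-- ARN. -/
theorem arn (d₁ d₂ d₃ dθ c : ℕ) (s₁ s₂ s₃ ε k₁ k₂ k₃ kθ : ℤ)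
    (hs₁ : s₁ = 1 ∨ s₁ = -1) (hs₂ : s₂ = 1 ∨ s₂ = -1) (hs₃ : s₃ = 1 ∨ s₃ = -1)
    (hε : ε = 1 ∨ ε = -1)
    (hd₁ : d₁ ∣ 4320) (hd₂ : d₂ ∣ 4320) (hd₃ : d₃ ∣ 4320) (hdθ : dθ ∣ 4320)
    (hq₁ : d₁ * d₁ < 4320) (hq₂ : d₂ * d₂ < 4320) (hq₃ : d₃ * d₃ < 4320)
    (hqθ : dθ * dθ < 4320)
    (hm₁ : (d₁ : ℤ) ≡ s₁ [ZMOD 5]) (hm₂ : (d₂ : ℤ) ≡ s₂ [ZMOD 5])
    (hm₃ : (d₃ : ℤ) ≡ s₃ [ZMOD 5]) (hmθ : (dθ : ℤ) ≡ ε * 4 [ZMOD 5])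
    (hdeg : ε * (dθ : ℤ) = 1 + s₁ * d₁ + s₂ * d₂ + s₃ * d₃)
    (hval : ε * kθ = 1 + s₁ * k₁ + s₂ * k₂ + s₃ * k₃)
    (hf₁ : k₁ ≡ (d₁ : ℤ) [ZMOD 4]) (hf₂ : k₂ ≡ (d₂ : ℤ) [ZMOD 4])
    (hf₃ : k₃ ≡ (d₃ : ℤ) [ZMOD 4]) (hfθ : kθ ≡ (dθ : ℤ) [ZMOD 4])
    (ha₁ : |k₁| ≤ (d₁ : ℤ)) (ha₂ : |k₂| ≤ (d₂ : ℤ)) (ha₃ : |k₃| ≤ (d₃ : ℤ))
    (haθ : |kθ| ≤ (dθ : ℤ))
    (hn₁ : k₁ ≠ (d₁ : ℤ)) (hn₂ : k₂ ≠ (d₂ : ℤ)) (hn₃ : k₃ ≠ (d₃ : ℤ))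
    (hnθ : kθ ≠ (dθ : ℤ))
    (hform : 5 * (c : ℤ) ^ 2 * ((d₁ : ℤ) * d₂ * d₃ * dθ) =
      4320 * ((d₁ : ℤ) * d₂ * d₃ * dθ + s₁ * k₁ ^ 2 * ((d₂ : ℤ) * d₃ * dθ)
        + s₂ * k₂ ^ 2 * ((d₁ : ℤ) * d₃ * dθ) + s₃ * k₃ ^ 2 * ((d₁ : ℤ) * d₂ * dθ)
        - ε * kθ ^ 2 * ((d₁ : ℤ) * d₂ * d₃)))
    (hcol : 1 + k₁ ^ 2 + k₂ ^ 2 + k₃ ^ 2 + kθ ^ 2 ≤ (c : ℤ)) : False := by
  have hkθ : kθ = ε * (1 + s₁ * k₁ + s₂ * k₂ + s₃ * k₃) := by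
    rcases hε with rfl | rfl <;> linarith
  subst hkθ
  obtain ⟨a1, b1⟩ := abs_le.mp ha₁
  obtain ⟨a2, b2⟩ := abs_le.mp ha₂
  obtain ⟨a3, b3⟩ := abs_le.mp ha₃
  obtain ⟨aθ, bθ⟩ := abs_le.mp haθ
  have p1 : 0 < d₁ := Nat.pos_of_dvd_of_pos hd₁ (by norm_num)
  have p2 : 0 < d₂ := Nat.pos_of_dvd_of_pos hd₂ (by norm_num)
  have p3 : 0 < d₃ := Nat.pos_of_dvd_of_pos hd₃ (by norm_num)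
  have pθ : 0 < dθ := Nat.pos_of_dvd_of_pos hdθ (by norm_num)
  have hD : (0 : ℤ) < 5 * ((d₁ : ℤ) * d₂ * d₃ * dθ) := by positivity
  have h := coarn_core
    s₁ (coarn_mems s₁ hs₁) d₁ (coarn_lt66 d₁ hq₁) hd₁ hq₁ hm₁
    s₂ (coarn_mems s₂ hs₂) d₂ (coarn_lt66 d₂ hq₂) hd₂ hq₂ hm₂
    s₃ (coarn_mems s₃ hs₃) d₃ (coarn_lt66 d₃ hq₃) hd₃ hq₃ hm₃
    ε (coarn_mems ε hε) dθ (coarn_lt66 dθ hqθ) hdeg hdθ hqθ hmθ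
    k₁ a1 b1 hf₁ hn₁ k₂ a2 b2 hf₂ hn₂ k₃ a3 b3 hf₃ hn₃
    hfθ aθ bθ hnθ
  rcases h with h | ⟨m, -, h1, h2⟩
  · have hK : (0 : ℤ) ≤ 1 + k₁ ^ 2 + k₂ ^ 2 + k₃ ^ 2
        + (ε * (1 + s₁ * k₁ + s₂ * k₂ + s₃ * k₃)) ^ 2 := by positivity
    have hK2 := pow_le_pow_left₀ hK hcol 2
    have hK3 := mul_le_mul_of_nonneg_right hK2 hD.le
    linarith
  · have h3 : (m : ℤ) * m * (5 * ((d₁ : ℤ) * d₂ * d₃ * dθ)) <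
        (c : ℤ) * c * (5 * ((d₁ : ℤ) * d₂ * d₃ * dθ)) := by linarith
    have h4 : (c : ℤ) * c * (5 * ((d₁ : ℤ) * d₂ * d₃ * dθ)) <
        ((m : ℤ) + 1) * ((m : ℤ) + 1) * (5 * ((d₁ : ℤ) * d₂ * d₃ * dθ)) := by linarith
    have h5 : (m : ℤ) * m < (c : ℤ) * c := lt_of_mul_lt_mul_right h3 hD.le
    have h6 : (c : ℤ) * c < ((m : ℤ) + 1) * ((m : ℤ) + 1) := lt_of_mul_lt_mul_right h4 hD.le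
    have h7 : m * m < c * c := by exact_mod_cast h5
    have h8 : c * c < (m + 1) * (m + 1) := by exact_mod_cast h6
    have h9 : m < c := Nat.mul_self_lt_mul_self_iff.mp h7
    have h10 : c < m + 1 := Nat.mul_self_lt_mul_self_iff.mp h8
    omega

end Cfsg.Agent.Lib.Helper80.Cole
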