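import Mathlib
import Cfsg.Agent.Lib.Helper10.BR0
import Cfsg.Agent.Lib.Helper82.CharCore

/-!
# Cole-range orders (S0977: 4320, S0980: 5760), piece BLK (project of helper80)
-/

set_option autoImplicit false

namespace Cfsg.Agent.Lib.Helper80.Cole

open Cfsg
open Cfsg.Agent.Lib.Helper83 (trivIrr)
open Cfsg.Agent.Lib.Helper10.BR (DOut)

universe u

/-- BLK (general): explicit form of the principal block data when the trivial character lies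
in `X`. -/
theorem blkS {G : Type u} [Group G] [Finite G] (p : ℕ) (M : Ideal AlgInt) (P : Subgroup G)
    (e : ℕ) (he : 1 ≤ e) (hpe : e ≤ p - 1)
    (X Y : Set (IrrCharacter G)) (εX : IrrCharacter G → ℤ) (ε : ℤ)
    (hD : DOut G p M P e X Y εX ε) (htriv : trivIrr G ∈ X) (hεt : εX (trivIrr G) = 1) :
    ∃ (S : Finset (IrrCharacter G)) (θ : IrrCharacter G), S.card = e - 1 ∧
      (∀ χ, χ ∈ S ↔ χ ∈ X ∧ χ ≠ trivIrr G) ∧ θ ∈ Y ∧ θ ∉ S ∧ θ ≠ trivIrr G ∧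
      ∀ g : G, ¬ p ∣ orderOf g →
        (ε : ℂ) * (θ : G → ℂ) g = 1 + ∑ χ ∈ S, (εX χ : ℂ) * (χ : G → ℂ) g := by
  classical
  have hXcard : Nat.card X = e := hD.cardX
  have hXfinite : Finite X := by
    apply Nat.finite_of_card_ne_zero
    rw [hXcard]
    omega
  have hXfin : X.Finite := Set.finite_coe_iff.mp hXfinite
  have hTcard : hXfin.toFinset.card = e := by
    rw [← hXcard, Nat.card_coe_set_eq, Set.ncard_eq_toFinset_card X hXfin]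
  have hYcard : Nat.card Y = (p - 1) / e := hD.cardY
  have hYpos : 0 < Nat.card Y := by
    rw [hYcard]
    exact Nat.div_pos hpe he
  have hYne : Nonempty Y := (Nat.card_pos_iff.mp hYpos).1
  obtain ⟨⟨θ, hθ⟩⟩ := hYne
  have hθX : θ ∉ X := fun h => Set.disjoint_left.mp hD.disj h hθ
  have hmemT : trivIrr G ∈ hXfin.toFinset := (Set.Finite.mem_toFinset hXfin).mpr htriv
  refine ⟨hXfin.toFinset.erase (trivIrr G), θ, ?_, ?_, hθ, ?_, ?_, ?_⟩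
  · rw [Finset.card_erase_of_mem hmemT, hTcard]
  · intro χ
    rw [Finset.mem_erase, Set.Finite.mem_toFinset]
    exact ⟨fun h => ⟨h.2, h.1⟩, fun h => ⟨h.2, h.1⟩⟩
  · intro h
    exact hθX ((Set.Finite.mem_toFinset hXfin).mp (Finset.mem_of_mem_erase h))
  · intro h
    exact hθX (h ▸ htriv)
  · intro g hg
    rw [hD.t1 θ hθ g hg, finsum_mem_eq_finite_toFinset_sum _ hXfin,
      ← Finset.add_sum_erase _ _ hmemT, hεt]
    simp [Cfsg.Agent.Lib.Helper83.trivIrr_apply]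

/-- BLK, `e = 2`. -/
theorem blk2 {G : Type u} [Group G] [Finite G] (p : ℕ) (hp3 : 3 ≤ p) (M : Ideal AlgInt)
    (P : Subgroup G) (X Y : Set (IrrCharacter G)) (εX : IrrCharacter G → ℤ) (ε : ℤ)
    (hD : DOut G p M P 2 X Y εX ε) (htriv : trivIrr G ∈ X) (hεt : εX (trivIrr G) = 1) :
    ∃ χ θ : IrrCharacter G, χ ∈ X ∧ θ ∈ Y ∧ χ ≠ trivIrr G ∧ θ ≠ trivIrr G ∧ θ ≠ χ ∧
      ∀ g : G, ¬ p ∣ orderOf g →
        (ε : ℂ) * (θ : G → ℂ) g = 1 + (εX χ : ℂ) * (χ : G → ℂ) g := by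
  obtain ⟨S, θ, hS, hmem, hθY, hθS, hθt, hrel⟩ :=
    blkS p M P 2 (by norm_num) (by omega) X Y εX ε hD htriv hεt
  have hS1 : S.card = 1 := by rw [hS]
  obtain ⟨χ, rfl⟩ := Finset.card_eq_one.mp hS1
  have hχ := (hmem χ).mp (Finset.mem_singleton_self χ)
  refine ⟨χ, θ, hχ.1, hθY, hχ.2, hθt, ?_, ?_⟩
  · intro h
    exact hθS (h ▸ Finset.mem_singleton_self χ)
  · intro g hg
    rw [hrel g hg, Finset.sum_singleton]

/-- BLK, `e = 4`. -/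
theorem blk4 {G : Type u} [Group G] [Finite G] (p : ℕ) (hp5 : 5 ≤ p) (M : Ideal AlgInt)
    (P : Subgroup G) (X Y : Set (IrrCharacter G)) (εX : IrrCharacter G → ℤ) (ε : ℤ)
    (hD : DOut G p M P 4 X Y εX ε) (htriv : trivIrr G ∈ X) (hεt : εX (trivIrr G) = 1) :
    ∃ χ₁ χ₂ χ₃ θ : IrrCharacter G, χ₁ ∈ X ∧ χ₂ ∈ X ∧ χ₃ ∈ X ∧ θ ∈ Y ∧
      χ₁ ≠ trivIrr G ∧ χ₂ ≠ trivIrr G ∧ χ₃ ≠ trivIrr G ∧ θ ≠ trivIrr G ∧
      χ₁ ≠ χ₂ ∧ χ₁ ≠ χ₃ ∧ χ₂ ≠ χ₃ ∧ θ ≠ χ₁ ∧ θ ≠ χ₂ ∧ θ ≠ χ₃ ∧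
      ∀ g : G, ¬ p ∣ orderOf g → (ε : ℂ) * (θ : G → ℂ) g =
        1 + (εX χ₁ : ℂ) * (χ₁ : G → ℂ) g + (εX χ₂ : ℂ) * (χ₂ : G → ℂ) g
          + (εX χ₃ : ℂ) * (χ₃ : G → ℂ) g := by
  classical
  obtain ⟨S, θ, hS, hmem, hθY, hθS, hθt, hrel⟩ :=
    blkS p M P 4 (by norm_num) (by omega) X Y εX ε hD htriv hεt
  have hS3 : S.card = 3 := by rw [hS]
  obtain ⟨χ₁, χ₂, χ₃, h12, h13, h23, rfl⟩ := Finset.card_eq_three.mp hS3
  have hχ₁ := (hmem χ₁).mp (by simp)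
  have hχ₂ := (hmem χ₂).mp (by simp)
  have hχ₃ := (hmem χ₃).mp (by simp)
  refine ⟨χ₁, χ₂, χ₃, θ, hχ₁.1, hχ₂.1, hχ₃.1, hθY, hχ₁.2, hχ₂.2, hχ₃.2, hθt, h12, h13, h23,
    ?_, ?_, ?_, ?_⟩
  · intro h
    exact hθS (by simp [h])
  · intro h
    exact hθS (by simp [h])
  · intro h
    exact hθS (by simp [h])
  · intro g hg
    rw [hrel g hg, Finset.sum_insert (by simp [h12, h13]), Finset.sum_insert (by simp [h23]),
      Finset.sum_singleton]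
    ring

end Cfsg.Agent.Lib.Helper80.Cole
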