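import Mathlib
import Cfsg.Agent.Lib.Helper10.BR0

/-!
# Cole-range orders (S0977: 4320, S0980: 5760): shared definitions (project of helper80)
-/

set_option autoImplicit false

namespace Cfsg.Agent.Lib.Helper80.Cole

/-- The number of ordered pairs `(g, h)` of conjugates of `z` with `g * h * y = 1`. -/
noncomputable def pairCount {G : Type*} [Group G] (z y : G) : ℕ :=
  Nat.card {q : G × G // IsConj z q.1 ∧ IsConj z q.2 ∧ q.1 * q.2 * y = 1}

end Cfsg.Agent.Lib.Helper80.Cole
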