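import Mathlib
import Cfsg.Agent.Lib.Helper10.BR0
import Cfsg.Agent.Lib.Helper82.CharCore
import Cfsg.Agent.Lib.Helper83.Ortho
import Cfsg.Agent.Lib.Helper80.CoDefs

/-!
# Cole-range orders (S0977: 4320, S0980: 5760), piece CLASSF (project of helper80; proof by helper37)
-/

set_option autoImplicit false

namespace Cfsg.Agent.Lib.Helper80.Cole

open Cfsg
open Cfsg.Agent.Lib.Helper83 (trivIrr)
open Cfsg.Agent.Lib.Helper10.BR (DOut)
open scoped ComplexConjugate

universe u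

theorem coclassf_ite3 (p q r : Prop) [Decidable p] [Decidable q] [Decidable r]
    [Decidable (p ∧ q ∧ r)] :
    (if p then (1 : ℂ) else 0) * (if q then (1 : ℂ) else 0) * (if r then (1 : ℂ) else 0) =
      if p ∧ q ∧ r then (1 : ℂ) else 0 := by
  by_cases hp : p <;> by_cases hq : q <;> by_cases hr : r <;> simp [hp, hq, hr]

/-- CLASSF: the class-constant formula.  `S` is a set of elements, `z` an element such that
every `y ∈ S` is, in exactly `m` ways, the inverse of a product of two conjugates of `z`;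
`∑ φ ∈ B, c φ • φ` is an integral combination of irreducible characters vanishing off the
conjugates of `S`. -/
theorem class_formula {G : Type u} [Group G] [Finite G] (S : Set G) (z : G) (m : ℕ)
    (hcount : ∀ y ∈ S, pairCount z y = m)
    (B : Finset (IrrCharacter G)) (c : IrrCharacter G → ℤ) (htB : trivIrr G ∈ B)
    (hvan : ∀ g : G, (∀ y ∈ S, ¬ IsConj y g) → ∑ φ ∈ B, (c φ : ℂ) * (φ : G → ℂ) g = 0) :
    (m : ℂ) * (Nat.card (Subgroup.centralizer ({z} : Set G)) : ℂ) ^ 2 * (c (trivIrr G) : ℂ) =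
      (Nat.card G : ℂ) * ∑ φ ∈ B, (c φ : ℂ) * ((φ : G → ℂ) z) ^ 2 / (φ : G → ℂ) 1 := by
  classical
  cases nonempty_fintype G
  have : Fintype (IrrCharacter G) := Fintype.ofFinite _
  obtain ⟨N, hN⟩ : ∃ N : ℂ, N = (Nat.card G : ℂ) := ⟨_, rfl⟩
  obtain ⟨I, hI⟩ : ∃ I : ℂ, I = ((Subgroup.centralizer ({z} : Set G)).index : ℂ) := ⟨_, rfl⟩
  obtain ⟨Cz, hCz⟩ : ∃ Cz : ℂ, Cz = (Nat.card (Subgroup.centralizer ({z} : Set G)) : ℂ) :=
    ⟨_, rfl⟩
  have hCI : Cz * I = N := by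
    rw [hCz, hI, hN]
    norm_cast
    exact Subgroup.card_mul_index _
  have hN0' : (Nat.card G : ℂ) ≠ 0 := by
    have : 0 < Nat.card G := Nat.card_pos
    exact_mod_cast this.ne'
  have hN0 : N ≠ 0 := by rw [hN]; exact hN0'
  rw [← hN, ← hCz]
  obtain ⟨Ξ, hΞ⟩ : ∃ Ξ : G → ℂ, Ξ = fun s => ∑ φ ∈ B, (c φ : ℂ) * (φ : G → ℂ) s := ⟨_, rfl⟩
  obtain ⟨A, hAdef⟩ : ∃ A : G → ℂ, A = fun s => ∑ φ : IrrCharacter G,
      (I * (φ : G → ℂ) z) * (I * (φ : G → ℂ) z) * (φ : G → ℂ) s / (φ : G → ℂ) 1 := ⟨_, rfl⟩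
  have hA : ∀ s : G, N * ∑ g : G, ∑ h : G, (if IsConj z g then (1 : ℂ) else 0)
        * (if IsConj z h then (1 : ℂ) else 0) * (if g * h * s = 1 then (1 : ℂ) else 0) = A s := by
    intro s
    rw [hAdef, hN, hI]
    convert Cfsg.Agent.Lib.Helper82.class_constant z z s using 2
  have hpc : ∀ s : G, ∑ g : G, ∑ h : G, (if IsConj z g then (1 : ℂ) else 0)
        * (if IsConj z h then (1 : ℂ) else 0) * (if g * h * s = 1 then (1 : ℂ) else 0) =
      (pairCount z s : ℂ) := by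
    intro s
    unfold pairCount
    rw [Nat.card_eq_fintype_card, Fintype.card_subtype, Finset.card_filter]
    push_cast
    rw [Fintype.sum_prod_type]
    refine Finset.sum_congr rfl fun g _ => Finset.sum_congr rfl fun h _ => ?_
    exact coclassf_ite3 _ _ _
  have hAS : ∀ y ∈ S, A y = N * (m : ℂ) := by
    intro y hy
    rw [← hA y, hpc y, hcount y hy]
  have hAcl : ∀ y s : G, IsConj y s → A s = A y := by
    intro y s hys
    rw [hAdef]
    refine Finset.sum_congr rfl fun φ _ => ?_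
    rw [Cfsg.Agent.Lib.Helper83.irr_isConj φ.2 hys]
  have hw1 : ∀ s : G, conj (Ξ s) * A s = conj (Ξ s) * (N * (m : ℂ)) := by
    intro s
    by_cases hs : ∃ y ∈ S, IsConj y s
    · obtain ⟨y, hy, hys⟩ := hs
      rw [hAcl y s hys, hAS y hy]
    · push Not at hs
      have h0 : Ξ s = 0 := by rw [hΞ]; exact hvan s hs
      rw [h0, map_zero, zero_mul, zero_mul]
  have horth : ∀ φ χ' : IrrCharacter G, ∑ s : G, (φ : G → ℂ) s * conj ((χ' : G → ℂ) s) =
      if φ = χ' then N else 0 := by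
    intro φ χ'
    have h1 := Cfsg.Agent.Lib.Helper83.irr_orthonormal φ χ'
    have h2 : ∑ s : G, (φ : G → ℂ) s * conj ((χ' : G → ℂ) s) =
        (Nat.card G : ℂ) * classInner (φ : G → ℂ) (χ' : G → ℂ) := by
      unfold classInner
      rw [← mul_assoc, mul_inv_cancel₀ hN0', one_mul]
    rw [h2, h1, ← hN]
    by_cases hφ : φ = χ'
    · rw [if_pos hφ, if_pos hφ, mul_one]
    · rw [if_neg hφ, if_neg hφ, mul_zero]
  have hΞconj : ∀ s : G, conj (Ξ s) = ∑ φ ∈ B, (c φ : ℂ) * conj ((φ : G → ℂ) s) := by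
    intro s
    rw [hΞ]
    simp only [map_sum, map_mul, map_intCast]
  have hsumΞ : ∑ s : G, conj (Ξ s) = N * (c (trivIrr G) : ℂ) := by
    simp only [hΞconj]
    rw [Finset.sum_comm]
    have h1 : ∀ φ ∈ B, ∑ s : G, (c φ : ℂ) * conj ((φ : G → ℂ) s) =
        if trivIrr G = φ then (c φ : ℂ) * N else 0 := by
      intro φ _
      have h2 := horth (trivIrr G) φ
      have h3 : ∑ s : G, (c φ : ℂ) * conj ((φ : G → ℂ) s) =
          (c φ : ℂ) * ∑ s : G, (trivIrr G : G → ℂ) s * conj ((φ : G → ℂ) s) := by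
        rw [Finset.mul_sum]
        refine Finset.sum_congr rfl fun s _ => ?_
        rw [Cfsg.Agent.Lib.Helper83.trivIrr_apply, one_mul]
      rw [h3, h2]
      split_ifs
      · rfl
      · rw [mul_zero]
    rw [Finset.sum_congr rfl h1, Finset.sum_ite_eq B (trivIrr G), if_pos htB, mul_comm]
  have hφΞ : ∀ φ : IrrCharacter G, ∑ s : G, (φ : G → ℂ) s * conj (Ξ s) =
      if φ ∈ B then (c φ : ℂ) * N else 0 := by
    intro φ
    simp only [hΞconj, Finset.mul_sum]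
    rw [Finset.sum_comm]
    have h1 : ∀ χ' ∈ B, ∑ s : G, (φ : G → ℂ) s * ((c χ' : ℂ) * conj ((χ' : G → ℂ) s)) =
        if φ = χ' then (c χ' : ℂ) * N else 0 := by
      intro χ' _
      have h2 : ∀ s : G, (φ : G → ℂ) s * ((c χ' : ℂ) * conj ((χ' : G → ℂ) s)) =
          (c χ' : ℂ) * ((φ : G → ℂ) s * conj ((χ' : G → ℂ) s)) := fun s => by ring
      rw [Finset.sum_congr rfl (fun s _ => h2 s), ← Finset.mul_sum, horth]
      split_ifs
      · rfl
      · rw [mul_zero]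
    rw [Finset.sum_congr rfl h1, Finset.sum_ite_eq B φ]
  have hside1 : ∑ s : G, conj (Ξ s) * A s = N * (c (trivIrr G) : ℂ) * (N * (m : ℂ)) := by
    rw [Finset.sum_congr rfl (fun s _ => hw1 s), ← Finset.sum_mul, hsumΞ]
  have hside2 : ∑ s : G, conj (Ξ s) * A s =
      N * (I * I) * ∑ φ ∈ B, (c φ : ℂ) * ((φ : G → ℂ) z) ^ 2 / (φ : G → ℂ) 1 := by
    have h1 : ∀ s : G, conj (Ξ s) * A s = ∑ φ : IrrCharacter G,
        (I * (φ : G → ℂ) z) * (I * (φ : G → ℂ) z) / (φ : G → ℂ) 1 *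
          ((φ : G → ℂ) s * conj (Ξ s)) := by
      intro s
      rw [hAdef]
      simp only
      rw [Finset.mul_sum]
      refine Finset.sum_congr rfl fun φ _ => ?_
      ring
    rw [Finset.sum_congr rfl (fun s _ => h1 s), Finset.sum_comm]
    have h2 : ∀ φ : IrrCharacter G, ∑ s : G,
        (I * (φ : G → ℂ) z) * (I * (φ : G → ℂ) z) / (φ : G → ℂ) 1 *
          ((φ : G → ℂ) s * conj (Ξ s)) =
        if φ ∈ B then N * (I * I) * ((c φ : ℂ) * ((φ : G → ℂ) z) ^ 2 / (φ : G → ℂ) 1)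
          else 0 := by
      intro φ
      rw [← Finset.mul_sum, hφΞ φ]
      split_ifs
      · ring
      · rw [mul_zero]
    rw [Finset.sum_congr rfl (fun φ _ => h2 φ), Finset.sum_ite_mem, Finset.univ_inter,
      ← Finset.mul_sum]
  have hE := hside1.symm.trans hside2
  have h3 : N * (N * ((m : ℂ) * Cz ^ 2 * (c (trivIrr G) : ℂ))) =
      N * (N * (N * ∑ φ ∈ B, (c φ : ℂ) * ((φ : G → ℂ) z) ^ 2 / (φ : G → ℂ) 1)) := by
    linear_combination Cz ^ 2 * hE +
      N * (∑ φ ∈ B, (c φ : ℂ) * ((φ : G → ℂ) z) ^ 2 / (φ : G → ℂ) 1) * (Cz * I + N) * hCI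
  exact mul_left_cancel₀ hN0 (mul_left_cancel₀ hN0 h3)

end Cfsg.Agent.Lib.Helper80.Cole
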