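import Mathlib
import Cfsg.Agent.Lib.Helper10.BR0
import Cfsg.Agent.Lib.Helper82.CharCore
import Cfsg.Agent.Lib.Helper83.Ortho

/-!
# Cole-range orders (S0977: 4320, S0980: 5760), piece COLB (project of helper80; proof by helper23)
-/

set_option autoImplicit false

namespace Cfsg.Agent.Lib.Helper80.Cole

open Cfsg
open Cfsg.Agent.Lib.Helper83 (trivIrr)
open Cfsg.Agent.Lib.Helper10.BR (DOut)

universe u

/-- COLB: column orthogonality lower bound for a centralizer. -/
theorem col_bound {G : Type u} [Group G] [Finite G] (y : G) (B : Finset (IrrCharacter G))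
    (k : IrrCharacter G → ℤ) (hk : ∀ φ ∈ B, (φ : G → ℂ) y = (k φ : ℂ)) :
    ∑ φ ∈ B, (k φ) ^ 2 ≤ (Nat.card (Subgroup.centralizer ({y} : Set G)) : ℤ) := by
  classical
  cases nonempty_fintype G
  have : Finite (IrrCharacter G) := Cfsg.Agent.Lib.Helper82.finite_irrCharacter G
  have : Fintype (IrrCharacter G) := Fintype.ofFinite _
  have hcol := Cfsg.Agent.Lib.Helper83.column_orthogonality_conj (G := G) (IsConj.refl y)
  have hterm : ∀ χ : IrrCharacter G,
      (χ : G → ℂ) y * (starRingEnd ℂ) ((χ : G → ℂ) y) =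
        ((Complex.normSq ((χ : G → ℂ) y) : ℝ) : ℂ) :=
    fun χ => Complex.mul_conj _
  have hsum : ((∑ χ : IrrCharacter G, Complex.normSq ((χ : G → ℂ) y) : ℝ) : ℂ) =
      (Nat.card (Subgroup.centralizer ({y} : Set G)) : ℂ) := by
    rw [← hcol, Complex.ofReal_sum]
    exact Finset.sum_congr rfl (fun χ _ => (hterm χ).symm)
  have hsumR : (∑ χ : IrrCharacter G, Complex.normSq ((χ : G → ℂ) y) : ℝ) =
      (Nat.card (Subgroup.centralizer ({y} : Set G)) : ℝ) := by
    exact_mod_cast hsum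
  have hsub : ∑ χ ∈ B, Complex.normSq ((χ : G → ℂ) y) ≤
      ∑ χ : IrrCharacter G, Complex.normSq ((χ : G → ℂ) y) :=
    Finset.sum_le_sum_of_subset_of_nonneg (Finset.subset_univ _)
      (fun χ _ _ => Complex.normSq_nonneg _)
  have hB : ∑ χ ∈ B, Complex.normSq ((χ : G → ℂ) y) = ∑ χ ∈ B, ((k χ : ℤ) : ℝ) ^ 2 := by
    refine Finset.sum_congr rfl (fun χ hχ => ?_)
    rw [hk χ hχ]
    have e1 : ((k χ : ℤ) : ℂ) = (((k χ : ℤ) : ℝ) : ℂ) := by push_cast; rfl
    rw [e1, Complex.normSq_ofReal]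
    ring
  have hfin : ((∑ φ ∈ B, (k φ) ^ 2 : ℤ) : ℝ) ≤
      (Nat.card (Subgroup.centralizer ({y} : Set G)) : ℝ) := by
    rw [← hsumR]
    push_cast
    rw [← hB]
    exact hsub
  exact_mod_cast hfin

end Cfsg.Agent.Lib.Helper80.Cole
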