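import Mathlib
import Cfsg.Agent.Lib.Helper20.Exc2f
import Cfsg.Agent.Lib.Helper80.CoDefs

/-!
# Cole-range orders (S0977: 4320, S0980: 5760), piece COUNT (placeholder; project of helper80)
-/

set_option autoImplicit false

namespace Cfsg.Agent.Lib.Helper80.Cole

open Cfsg
open Cfsg.Agent.Lib.Helper83 (trivIrr)
open Cfsg.Agent.Lib.Helper10.BR (DOut)

universe u

/-- COUNT: an involution `t` inverting the subgroup `P` of odd order; `y ∈ P` with
`C_G(y) ≤ P`.  Then `y⁻¹` is a product of two conjugates of `t` in exactly `|P|` ways. -/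
theorem pairCount_invert {G : Type u} [Group G] [Finite G] (P : Subgroup G)
    (hodd : Odd (Nat.card P)) (t : G) (ht2 : t * t = 1) (htP : ∀ u ∈ P, t * u * t = u⁻¹)
    (y : G) (hy : y ∈ P) (hCy : ∀ g : G, g * y = y * g → g ∈ P) :
    pairCount t y = Nat.card P := by
  classical
  cases nonempty_fintype G
  have h := Cfsg.Agent.Lib.Helper20.exc2_inv_count P hodd t ht2 htP y hy hCy
  rw [← Nat.cast_inj (R := ℂ), ← h]
  unfold pairCount
  rw [Nat.card_eq_fintype_card, Fintype.card_subtype, Finset.card_filter, Nat.cast_sum,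
    Fintype.sum_prod_type]
  refine Finset.sum_congr rfl fun g _ => Finset.sum_congr rfl fun k _ => ?_
  by_cases h1 : IsConj t g
  · by_cases h2 : IsConj t k
    · by_cases h3 : g * k * y = 1
      · rw [if_pos ⟨h1, h2, h3⟩, if_pos h1, if_pos h2, if_pos h3]
        norm_num
      · rw [if_neg (fun hh => h3 hh.2.2), if_neg h3]
        simp
    · rw [if_neg (fun hh => h2 hh.2.1), if_neg h2]
      simp
  · rw [if_neg (fun hh => h1 hh.1), if_neg h1]
    simp

/-- COUNT0: if no conjugate of the involution `z` inverts `y`, then `y⁻¹` is not a product of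
two conjugates of `z`. -/
theorem pairCount_zero {G : Type u} [Group G] (z y : G) (hz : z * z = 1)
    (hno : ∀ g : G, IsConj z g → g * y * g ≠ y⁻¹) : pairCount z y = 0 := by
  unfold pairCount
  have hsq : ∀ g : G, IsConj z g → g * g = 1 := by
    intro g hg
    obtain ⟨c, hc⟩ := isConj_iff.mp hg
    rw [← hc]
    calc c * z * c⁻¹ * (c * z * c⁻¹) = c * (z * z) * c⁻¹ := by group
      _ = 1 := by rw [hz]; group
  haveI : IsEmpty {q : G × G // IsConj z q.1 ∧ IsConj z q.2 ∧ q.1 * q.2 * y = 1} := by
    constructor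
    rintro ⟨⟨g, k⟩, hg, hk, hgk⟩
    simp only at hg hk hgk
    apply hno g hg
    have hg2 := hsq g hg
    have hk2 := hsq k hk
    have hy : y⁻¹ = g * k := (eq_inv_of_mul_eq_one_left hgk).symm
    have hy' : y = k * g := by
      have h1 : y = (g * k)⁻¹ := by rw [← hy, inv_inv]
      rw [h1, mul_inv_rev, inv_eq_of_mul_eq_one_left hg2, inv_eq_of_mul_eq_one_left hk2]
    rw [hy, hy']
    calc g * (k * g) * g = g * k * (g * g) := by group
      _ = g * k := by rw [hg2, mul_one]
  exact Nat.card_of_isEmpty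

end Cfsg.Agent.Lib.Helper80.Cole
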