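import Mathlib
import Cfsg.Agent.Lib.Helper10.BR0
import Cfsg.Agent.Lib.Helper20.BQF1

/-!
# Cole-range orders (S0977: 4320, S0980: 5760), piece ZINV (project of helper80; filled in by
helper20)
-/

set_option autoImplicit false

namespace Cfsg.Agent.Lib.Helper80.Cole

open Cfsg
open Cfsg.Agent.Lib.Helper83 (trivIrr)
open Cfsg.Agent.Lib.Helper10.BR (DOut)

universe u

/-- ZINV: a self-centralizing subgroup `P` of odd prime order whose normalizer has even order
is inverted by an involution. -/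
theorem exists_invert {G : Type u} [Group G] [Finite G] (p : ℕ) [Fact p.Prime] (hp2 : p ≠ 2)
    (P : Subgroup G) (hP : Nat.card P = p)
    (hC : Nat.card (Subgroup.centralizer (P : Set G)) = p)
    (hN : 2 ∣ Nat.card (Subgroup.normalizer (P : Set G))) :
    (∀ y ∈ P, y ≠ 1 → ∀ g : G, g * y = y * g → g ∈ P) ∧
    ∃ t : G, t ≠ 1 ∧ t * t = 1 ∧ ∀ u ∈ P, t * u * t = u⁻¹ := by
  classical
  have hp : p.Prime := Fact.out
  have hne : ∃ y₀ ∈ P, y₀ ≠ 1 := by
    by_contra hcon
    push_neg at hcon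
    have hbot : P = ⊥ := (Subgroup.eq_bot_iff_forall P).mpr hcon
    rw [hbot, Subgroup.card_bot] at hP
    exact hp.one_lt.ne hP
  obtain ⟨y₀, hy₀, hy₀1⟩ := hne
  have hzp : ∀ y ∈ P, y ≠ 1 → Subgroup.zpowers y = P := fun y hy hy1 =>
    Cfsg.Agent.Lib.Helper5.BQ.bqf1_zpowers_eq p hp P hP y hy hy1
  have hcomm : ∀ u ∈ P, ∀ v ∈ P, u * v = v * u := by
    intro u hu v hv
    rw [← hzp y₀ hy₀ hy₀1] at hu hv
    obtain ⟨i, rfl⟩ := Subgroup.mem_zpowers_iff.mp hu
    obtain ⟨j, rfl⟩ := Subgroup.mem_zpowers_iff.mp hv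
    rw [← zpow_add, ← zpow_add, add_comm]
  have hPC : P ≤ Subgroup.centralizer (P : Set G) := by
    intro g hg
    rw [Subgroup.mem_centralizer_iff]
    intro x hx
    exact hcomm x hx g hg
  have hCP : Subgroup.centralizer (P : Set G) = P :=
    (Subgroup.eq_of_le_of_card_ge hPC (by rw [hP, hC])).symm
  have hcent : ∀ y ∈ P, y ≠ 1 → ∀ g : G, g * y = y * g → g ∈ P := by
    intro y hy hy1 g hg
    rw [← hCP, Subgroup.mem_centralizer_iff]
    intro x hx
    have hx' : x ∈ Subgroup.zpowers y := by rw [hzp y hy hy1]; exact hx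
    obtain ⟨k, rfl⟩ := Subgroup.mem_zpowers_iff.mp hx'
    exact ((show Commute g y from hg).zpow_right k).eq.symm
  refine ⟨hcent, ?_⟩
  have h2 : Fact (Nat.Prime 2) := ⟨Nat.prime_two⟩
  obtain ⟨t', ht'⟩ := exists_prime_orderOf_dvd_card' 2 hN
  have htN : (t' : G) ∈ Subgroup.normalizer (P : Set G) := t'.2
  have hto : orderOf (t' : G) = 2 := by rw [Subgroup.orderOf_coe]; exact ht'
  obtain ⟨t, ht⟩ : ∃ t : G, t = (t' : G) := ⟨_, rfl⟩
  rw [← ht] at htN hto
  have ht1 : t ≠ 1 := by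
    intro h
    rw [h, orderOf_one] at hto
    omega
  have htt : t * t = 1 := by
    rw [← pow_two, ← hto]; exact pow_orderOf_eq_one t
  have htinv : t⁻¹ = t := inv_eq_of_mul_eq_one_left htt
  have htP : t ∉ P := by
    intro h
    have h1 : orderOf (⟨t, h⟩ : P) ∣ Nat.card P := orderOf_dvd_natCard _
    rw [hP, Subgroup.orderOf_mk, hto] at h1
    exact hp2 ((Nat.prime_dvd_prime_iff_eq Nat.prime_two hp).mp h1).symm
  refine ⟨t, ht1, htt, fun u hu => ?_⟩
  have hconj : t * u * t⁻¹ ∈ P := (Subgroup.mem_normalizer_iff.mp htN u).mp hu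
  rw [htinv] at hconj
  have hw : u * (t * u * t) ∈ P := P.mul_mem hu hconj
  have hfix : t * (u * (t * u * t)) = (u * (t * u * t)) * t := by
    have e1 : t * (u * (t * u * t)) = (t * u * t) * u * t := by group
    rw [e1, hcomm _ hconj u hu]
  have hw1 : u * (t * u * t) = 1 := by
    by_contra hne
    exact htP (hcent _ hw hne t hfix)
  exact eq_inv_of_mul_eq_one_right hw1

end Cfsg.Agent.Lib.Helper80.Cole
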