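import Mathlib
import Cfsg.Agent.Lib.Helper10.BR0
import Cfsg.Agent.Lib.Helper82.CharCore
import Cfsg.Agent.Lib.Helper23.ExcGroup
import Cfsg.Agent.Lib.Helper20.Exc2f
import Cfsg.Agent.Lib.Helper74.NS19F
import Cfsg.Agent.Lib.Helper80.CoCLASSF
import Cfsg.Agent.Lib.Helper80.CoCOUNT
import Cfsg.Agent.Lib.Helper80.CoZINV

/-!
# Cole-range orders (S0977: 4320, S0980: 5760), piece D10 (project of helper80; proof by helper63)
-/

set_option autoImplicit false
set_option linter.style.haveILetI false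

namespace Cfsg.Agent.Lib.Helper80.Cole

open Cfsg
open Cfsg.Agent.Lib.Helper83 (trivIrr)
open Cfsg.Agent.Lib.Helper10.BR (DOut)

universe u

/-- the class formula for the relation `1 + χ - ψ`, evaluated at an involution `z` -/
theorem cod10_key {G : Type u} [Group G] [Finite G] [IsSimpleGroup G] (hG : ¬ IsCyclic G)
    (P : Subgroup G) (hodd : Odd (Nat.card P))
    (χ ψ : IrrCharacter G) (hχ : χ ≠ trivIrr G) (hψ : ψ ≠ trivIrr G) (hχψ : χ ≠ ψ) (d : ℕ)
    (hd : (χ : G → ℂ) 1 = (d : ℂ)) (hd' : (ψ : G → ℂ) 1 = (d : ℂ) + 1)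
    (hrel : ∀ g : G, (∀ y ∈ P, y ≠ 1 → ¬ IsConj y g) →
      1 + (χ : G → ℂ) g - (ψ : G → ℂ) g = 0)
    (z : G) (hz1 : z ≠ 1) (hz : z * z = 1) (m : ℕ)
    (hcount : ∀ y ∈ P, y ≠ 1 → pairCount z y = m) :
    ∃ q : ℕ, q ≠ 0 ∧ q ≤ d ∧
      m * Nat.card (Subgroup.centralizer ({z} : Set G)) ^ 2 * (d * (d + 1)) =
        Nat.card G * (2 * q) ^ 2 := by
  classical
  obtain ⟨S, hS⟩ : ∃ S : Set G, S = {y | y ∈ P ∧ y ≠ 1} := ⟨_, rfl⟩
  obtain ⟨c, hc⟩ : ∃ c : IrrCharacter G → ℤ, c = fun φ => if φ = ψ then -1 else 1 := ⟨_, rfl⟩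
  have hc1 : c (trivIrr G) = 1 := by rw [hc]; exact if_neg (Ne.symm hψ)
  have hc2 : c χ = 1 := by rw [hc]; exact if_neg hχψ
  have hc3 : c ψ = -1 := by rw [hc]; exact if_pos rfl
  have hnotmem : trivIrr G ∉ ({χ, ψ} : Finset (IrrCharacter G)) := by
    intro h
    rcases Finset.mem_insert.1 h with h | h
    · exact hχ h.symm
    · exact hψ (Finset.mem_singleton.1 h).symm
  have hsumB : ∀ f : IrrCharacter G → ℂ,
      ∑ φ ∈ ({trivIrr G, χ, ψ} : Finset (IrrCharacter G)), f φ = f (trivIrr G) + (f χ + f ψ) := by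
    intro f
    rw [Finset.sum_insert hnotmem, Finset.sum_pair hχψ]
  have hB := class_formula S z m
    (by intro y hy; rw [hS] at hy; exact hcount y hy.1 hy.2)
    ({trivIrr G, χ, ψ} : Finset (IrrCharacter G)) c (Finset.mem_insert_self _ _)
    (by
      intro g hg
      have h1 := hrel g (fun y hy hy1 => hg y (by rw [hS]; exact ⟨hy, hy1⟩))
      rw [hsumB, hc1, hc2, hc3]
      have h2 : (trivIrr G : G → ℂ) g = 1 := rfl
      rw [h2]
      push_cast
      linear_combination h1)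
  rw [hsumB, hc1, hc2, hc3] at hB
  have h21 : (trivIrr G : G → ℂ) z = 1 := rfl
  have h22 : (trivIrr G : G → ℂ) 1 = 1 := rfl
  -- involutions of `P` are trivial
  have hinvP : ∀ y ∈ P, y * y = 1 → y = 1 := by
    intro y hy hyy
    have h1 : orderOf y ∣ 2 := orderOf_dvd_of_pow_eq_one (by rw [pow_two]; exact hyy)
    have h2 : orderOf y ∣ Nat.card P := Subgroup.orderOf_dvd_natCard _ hy
    have h3 : orderOf y = 1 := by
      rcases (Nat.dvd_prime Nat.prime_two).1 h1 with h | h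
      · exact h
      · exfalso
        rw [h] at h2
        exact (Nat.not_even_iff_odd.2 hodd) (even_iff_two_dvd.2 h2)
    exact orderOf_eq_one_iff.1 h3
  -- `ψ z = 1 + χ z`
  have hψz : (ψ : G → ℂ) z = 1 + (χ : G → ℂ) z := by
    have h1 := hrel z (by
      intro y hy hy1 hconj
      apply hy1
      apply hinvP y hy
      obtain ⟨w, hw⟩ := isConj_iff.1 hconj.symm
      rw [← hw]
      calc w * z * w⁻¹ * (w * z * w⁻¹) = w * (z * z) * w⁻¹ := by group
        _ = 1 := by rw [hz]; group)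
    linear_combination -h1
  obtain ⟨a, q, hzq, h1q⟩ := Cfsg.Agent.Lib.Helper62.irr_invol χ z hz
  have hdq : d = a + q := by
    have : (d : ℂ) = ((a + q : ℕ) : ℂ) := by rw [← hd, h1q]; push_cast; rfl
    exact_mod_cast this
  have hq0 : q ≠ 0 := by
    intro h
    apply Cfsg.Agent.Lib.Helper74.NS19.faithful hG χ hχ z hz1
    rw [hzq, h1q, h]
    simp
  refine ⟨q, hq0, by omega, ?_⟩
  have hd0 : (d : ℂ) ≠ 0 := by
    have : d ≠ 0 := by omega
    exact_mod_cast this
  have hd1 : (d : ℂ) + 1 ≠ 0 := by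
    have : ((d + 1 : ℕ) : ℂ) ≠ 0 := Nat.cast_ne_zero.2 (Nat.succ_ne_zero d)
    exact_mod_cast this
  rw [h21, h22, hψz, hd, hd', hzq] at hB
  have hfin : (m : ℂ) * (Nat.card (Subgroup.centralizer ({z} : Set G)) : ℂ) ^ 2 *
      ((d : ℂ) * ((d : ℂ) + 1)) = (Nat.card G : ℂ) * (2 * (q : ℂ)) ^ 2 := by
    have hdq' : (d : ℂ) = (a : ℂ) + (q : ℂ) := by rw [hdq]; push_cast; rfl
    push_cast at hB
    have hB' : (m : ℂ) * (Nat.card (Subgroup.centralizer ({z} : Set G)) : ℂ) ^ 2 =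
        (Nat.card G : ℂ) * (1 + ((a : ℂ) - q) ^ 2 / d - (1 + ((a : ℂ) - q)) ^ 2 / (d + 1)) := by
      rw [← mul_one ((m : ℂ) * (Nat.card (Subgroup.centralizer ({z} : Set G)) : ℂ) ^ 2), hB]
      congr 1
      ring
    rw [hB']
    field_simp
    rw [hdq']
    ring
  exact_mod_cast hfin

/-- D10: a simple non-cyclic group with a self-centralizing Sylow `p`-subgroup `P` of odd prime
order `p` and `|N_G(P)| = 2p` satisfies `p * (2^a)² < 4 |G|` whenever `2^a ∣ |G|`. -/
theorem d10_false {G : Type u} [Group G] [Finite G] [IsSimpleGroup G] (hG : ¬ IsCyclic G)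
    (p : ℕ) [Fact p.Prime] (hp2 : p ≠ 2) (P : Sylow p G) (hP : Nat.card P = p)
    (hC : Nat.card (Subgroup.centralizer ((P : Subgroup G) : Set G)) = p)
    (hN : Nat.card (Subgroup.normalizer ((P : Subgroup G) : Set G)) = 2 * p)
    (a : ℕ) (h2 : 2 ^ a ∣ Nat.card G) (hbig : 4 * Nat.card G ≤ p * (2 ^ a) ^ 2) : False := by
  classical
  have hp := (Fact.out : p.Prime)
  have hP' : Nat.card (P : Subgroup G) = p := hP
  have hodd : Odd (Nat.card (P : Subgroup G)) := by
    rw [hP']; exact hp.odd_of_ne_two hp2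
  have hN2 : 2 ∣ Nat.card (Subgroup.normalizer ((P : Subgroup G) : Set G)) := by
    rw [hN]; exact dvd_mul_right 2 p
  obtain ⟨hcent, t, ht1, ht2, htP⟩ := exists_invert p hp2 (P : Subgroup G) hP' hC hN2
  -- `C(P) = P`
  have hcomm : ∀ x ∈ (P : Subgroup G), ∀ y ∈ (P : Subgroup G), x * y = y * x := by
    have : IsCyclic (P : Subgroup G) := isCyclic_of_prime_card hP'
    intro x hx y hy
    have := (Cfsg.Agent.Lib.Helper23.isMulCommutative_of_isCyclic (α := (P : Subgroup G))).is_comm.comm ⟨x, hx⟩ ⟨y, hy⟩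
    exact congrArg Subtype.val this
  have hCP : Subgroup.centralizer ((P : Subgroup G) : Set G) = (P : Subgroup G) := by
    symm
    apply Subgroup.eq_of_le_of_card_ge
    · intro x hx
      rw [Subgroup.mem_centralizer_iff]
      intro y hy
      exact hcomm y hy x hx
    · rw [hC, hP']
  obtain ⟨hC', hF⟩ := Cfsg.Agent.Lib.Helper23.prime_fusion_two (P : Subgroup G) hP' hCP hN
  cases nonempty_fintype G
  letI : Fintype (IrrCharacter G) := Fintype.ofFinite _
  obtain ⟨χ, ψ, hχ, hψ, hχψ, hdeg, hrel⟩ :=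
    Cfsg.Agent.Lib.Helper20.exc2_one p hp2 (P : Subgroup G) hP' hC' hF
  have htr : (Cfsg.Agent.Lib.Helper4.trivIrr : IrrCharacter G) = trivIrr G := Subtype.ext rfl
  rw [htr] at hχ hψ
  obtain ⟨d, hdd⟩ : ∃ d : ℕ, d = Cfsg.Agent.Lib.Helper4.irrDeg χ := ⟨_, rfl⟩
  have hd : (χ : G → ℂ) 1 = (d : ℂ) := by
    rw [hdd]; exact Cfsg.Agent.Lib.Helper4.irrDeg_spec χ
  have hd' : (ψ : G → ℂ) 1 = (d : ℂ) + 1 := by
    rw [Cfsg.Agent.Lib.Helper4.irrDeg_spec ψ, hdeg, hdd]; push_cast; rfl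
  have hrel' : ∀ g : G, (∀ y ∈ (P : Subgroup G), y ≠ 1 → ¬ IsConj y g) →
      1 + (χ : G → ℂ) g - (ψ : G → ℂ) g = 0 := hrel
  have hNpos : 0 < Nat.card G := Nat.card_pos
  have htinv : t⁻¹ = t := inv_eq_of_mul_eq_one_right ht2
  -- (a) every involution is conjugate to `t`
  have hA : ∀ z : G, z ≠ 1 → z * z = 1 → IsConj t z := by
    intro z hz1 hz
    by_contra hnc
    have hno : ∀ y ∈ (P : Subgroup G), y ≠ 1 → ∀ g : G, IsConj z g → g * y * g ≠ y⁻¹ := by
      intro y hy hy1 g hzg hgy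
      have hgg : g * g = 1 := by
        obtain ⟨w, hw⟩ := isConj_iff.1 hzg
        rw [← hw]
        calc w * z * w⁻¹ * (w * z * w⁻¹) = w * (z * z) * w⁻¹ := by group
          _ = 1 := by rw [hz]; group
      have hginv : g⁻¹ = g := inv_eq_of_mul_eq_one_right hgg
      -- `t g` centralizes `y`
      have h1 : g * y = y⁻¹ * g := by
        have : g * y = y⁻¹ * g⁻¹ := by rw [← hgy]; group
        rw [this, hginv]
      have h2 : t * y⁻¹ = y * t := by
        have h3 := htP y⁻¹ (inv_mem hy)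
        rw [inv_inv] at h3
        calc t * y⁻¹ = t * y⁻¹ * (t * t) := by rw [ht2, mul_one]
          _ = (t * y⁻¹ * t) * t := by group
          _ = y * t := by rw [h3]
      have h5 : t * g * y = y * (t * g) := by
        rw [mul_assoc, h1, ← mul_assoc, h2, mul_assoc]
      have h6 : t * g ∈ (P : Subgroup G) := hcent y hy hy1 (t * g) h5
      have h7 := Cfsg.Agent.Lib.Helper20.exc2_isConj_mul (P : Subgroup G) hodd t ht2 htP (t * g) h6
      rw [← mul_assoc, ht2, one_mul] at h7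
      exact hnc (h7.trans hzg.symm)
    obtain ⟨q, hq0, -, hq⟩ := cod10_key hG (P : Subgroup G) hodd χ ψ hχ hψ hχψ d hd hd' hrel' z hz1 hz 0
      (fun y hy hy1 => pairCount_zero z y hz (hno y hy hy1))
    have : Nat.card G * (2 * q) ^ 2 = 0 := by rw [← hq]; ring
    rcases mul_eq_zero.1 this with h | h
    · omega
    · have : 2 * q = 0 := pow_eq_zero_iff (n := 2) (by norm_num) |>.1 h
      omega
  -- (b) an involution whose centralizer has order at least `2 ^ a`
  have hB : ∃ z₀ : G, z₀ ≠ 1 ∧ z₀ * z₀ = 1 ∧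
      2 ^ a ≤ Nat.card (Subgroup.centralizer ({z₀} : Set G)) := by
    rcases Nat.eq_zero_or_pos a with ha | ha
    · refine ⟨t, ht1, ht2, ?_⟩
      rw [ha, pow_zero]
      exact Nat.card_pos
    · obtain ⟨K, hK⟩ := Sylow.exists_subgroup_card_pow_prime 2 h2
      have hKp : IsPGroup 2 K := IsPGroup.of_card hK
      have : Nontrivial K := by
        rw [← Finite.one_lt_card_iff_nontrivial, hK]
        exact Nat.one_lt_two_pow (by omega)
      have : Nontrivial (Subgroup.center K) := hKp.center_nontrivial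
      have hZp : IsPGroup 2 (Subgroup.center K) := hKp.to_subgroup _
      have h2Z : 2 ∣ Nat.card (Subgroup.center K) := by
        rcases hZp.card_eq_or_dvd with h | h
        · exfalso
          have := Finite.one_lt_card_iff_nontrivial.2 (inferInstance : Nontrivial (Subgroup.center K))
          omega
        · exact h
      obtain ⟨x, hx⟩ := exists_prime_orderOf_dvd_card' 2 h2Z
      have hx2 : orderOf (((x : K) : G)) = 2 := by
        rw [Subgroup.orderOf_coe, Subgroup.orderOf_coe, hx]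
      refine ⟨((x : K) : G), ?_, ?_, ?_⟩
      · intro h
        rw [← orderOf_eq_one_iff, hx2] at h
        omega
      · rw [← pow_two, ← hx2]; exact pow_orderOf_eq_one _
      · rw [← hK]
        apply Subgroup.card_le_of_le
        intro k hk
        rw [Subgroup.mem_centralizer_iff]
        intro y hy
        rw [Set.mem_singleton_iff] at hy
        rw [hy]
        have := Subgroup.mem_center_iff.1 x.2 ⟨k, hk⟩
        exact (congrArg Subtype.val this).symm
  obtain ⟨z₀, hz1, hz, hcz⟩ := hB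
  have htz := hA z₀ hz1 hz
  -- (c) the class formula at `z₀`
  have hcount : ∀ y ∈ (P : Subgroup G), y ≠ 1 → pairCount z₀ y = p := by
    intro y hy hy1
    have h1 : pairCount z₀ y = pairCount t y := by
      unfold pairCount
      have hiff : ∀ g : G, IsConj z₀ g ↔ IsConj t g :=
        fun g => ⟨fun h => htz.trans h, fun h => htz.symm.trans h⟩
      simp only [hiff]
    rw [h1, pairCount_invert (P : Subgroup G) hodd t ht2 htP y hy (hcent y hy hy1), hP']
  obtain ⟨q, hq0, hqd, hq⟩ := cod10_key hG (P : Subgroup G) hodd χ ψ hχ hψ hχψ d hd hd' hrel'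
    z₀ hz1 hz p hcount
  obtain ⟨c₀, hc₀⟩ : ∃ c₀ : ℕ, c₀ = Nat.card (Subgroup.centralizer ({z₀} : Set G)) := ⟨_, rfl⟩
  rw [← hc₀] at hq hcz
  obtain ⟨N, hNdef⟩ : ∃ N : ℕ, N = Nat.card G := ⟨_, rfl⟩
  rw [← hNdef] at hq hbig hNpos
  have h1 : N * (2 * q) ^ 2 ≤ N * (4 * d * d) := Nat.mul_le_mul_left N (by nlinarith)
  have hd1 : 1 ≤ d := by omega
  have h2' : N * (4 * d * d) < N * (4 * d * (d + 1)) := by
    apply Nat.mul_lt_mul_of_pos_left _ hNpos
    nlinarith
  have h3 : 4 * N * (d * (d + 1)) ≤ p * (2 ^ a) ^ 2 * (d * (d + 1)) := Nat.mul_le_mul_right _ hbig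
  have h4 : p * (2 ^ a) ^ 2 * (d * (d + 1)) ≤ p * c₀ ^ 2 * (d * (d + 1)) := by
    apply Nat.mul_le_mul_right
    apply Nat.mul_le_mul_left
    exact Nat.pow_le_pow_left hcz 2
  have h5 : N * (4 * d * (d + 1)) = 4 * N * (d * (d + 1)) := by ring
  have h6 : p * c₀ ^ 2 * (d * (d + 1)) < p * c₀ ^ 2 * (d * (d + 1)) := by
    calc p * c₀ ^ 2 * (d * (d + 1)) = N * (2 * q) ^ 2 := hq
      _ ≤ N * (4 * d * d) := h1
      _ < N * (4 * d * (d + 1)) := h2'
      _ = 4 * N * (d * (d + 1)) := h5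
      _ ≤ p * (2 ^ a) ^ 2 * (d * (d + 1)) := h3
      _ ≤ p * c₀ ^ 2 * (d * (d + 1)) := h4
  exact lt_irrefl _ h6

end Cfsg.Agent.Lib.Helper80.Cole
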