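import Mathlib
import Cfsg.Agent.Lib.Helper10.BR0
import Cfsg.Agent.Lib.Helper82.CharCore
import Cfsg.Agent.Lib.Helper83.Linear

/-!
# Cole-range orders (S0977: 4320, S0980: 5760), piece DEG1 (placeholder; project of helper80)
-/

set_option autoImplicit false

namespace Cfsg.Agent.Lib.Helper80.Cole

open Cfsg
open Cfsg.Agent.Lib.Helper83 (trivIrr)
open Cfsg.Agent.Lib.Helper10.BR (DOut)

universe u

theorem codeg1_commutator_top {G : Type u} [Group G] [IsSimpleGroup G] (hG : ¬ IsCyclic G) :
    commutator G = ⊤ := by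
  rcases (IsSimpleGroup.eq_bot_or_eq_top_of_normal (commutator G) inferInstance) with h | h
  · exfalso
    apply hG
    have hc : ∀ a b : G, a * b = b * a :=
      isMulCommutative_iff.mp ((commutator_eq_bot_iff G).mp h)
    letI : CommGroup G := { ‹Group G› with mul_comm := hc }
    exact IsSimpleGroup.isCyclic
  · exact h

/-- DEG1: a nontrivial irreducible character of a simple non-cyclic finite group has degree at
least 2. -/
theorem deg_ge_two {G : Type u} [Group G] [Finite G] [IsSimpleGroup G] (hG : ¬ IsCyclic G)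
    (χ : IrrCharacter G) (hχ : χ ≠ trivIrr G) : 2 ≤ charDegree (χ : G → ℂ) := by
  obtain ⟨hpos, h1⟩ := Cfsg.Agent.Lib.Helper83.irr_degree χ.2
  by_contra hlt
  have hd1 : charDegree (χ : G → ℂ) = 1 := by omega
  have hχ1 : (χ : G → ℂ) 1 = 1 :=
    (Cfsg.Agent.Lib.Helper83.irr_charDegree_eq_one_iff χ.2).mp hd1
  have hcomm : commutator G = ⊤ := codeg1_commutator_top hG
  apply hχ
  apply Subtype.ext
  funext g
  exact Cfsg.Agent.Lib.Helper83.irr_linear_commutator χ.2 hχ1 (c := g)
    (by rw [hcomm]; exact Subgroup.mem_top g)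

end Cfsg.Agent.Lib.Helper80.Cole
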