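import Mathlib
import Cfsg.Agent.Lib.Helper10.BR0
import Cfsg.Agent.Lib.Helper82.CharCore

/-!
# Cole-range orders (S0978: 5040), piece INTW (project of helper80; proved by helper16)

Integrality of the central character: if `χ y` is an integer `k`, the degree of `χ` divides
`|G : C_G(y)| * k`.
-/

set_option autoImplicit false

namespace Cfsg.Agent.Lib.Helper80.Cole

open Cfsg
open Cfsg.Agent.Lib.Helper83 (trivIrr)
open Cfsg.Agent.Lib.Helper10.BR (DOut)

universe u

/-- a rational number `a / b` that is an algebraic integer: `b ∣ a` -/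
theorem cointw_int (a : ℤ) (b : ℕ) (hb : b ≠ 0) (h : IsIntegral ℤ ((a : ℂ) / (b : ℂ))) :
    (b : ℤ) ∣ a := by
  have h1 : IsIntegral ℤ ((a : ℚ) / (b : ℚ)) := by
    apply (isIntegral_algebraMap_iff (algebraMap ℚ ℂ).injective).mp
    simpa using h
  obtain ⟨m, hm⟩ := IsIntegrallyClosed.isIntegral_iff.mp h1
  have hb0 : (b : ℚ) ≠ 0 := by exact_mod_cast hb
  have h2 : (m : ℚ) * (b : ℚ) = (a : ℚ) := by
    have h0 : (algebraMap ℤ ℚ) m = (m : ℚ) := rfl
    rw [h0] at hm
    rw [hm]
    field_simp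
  have h3 : m * (b : ℤ) = a := by exact_mod_cast h2
  exact ⟨m, by rw [← h3]; ring⟩

/-- INTW: integrality of the central character: if `χ y = k` is an integer, the degree of `χ`
divides `|G : C_G(y)| * k`. -/
theorem central_dvd {G : Type u} [Group G] [Finite G] (χ : IrrCharacter G) (y : G) (k : ℤ)
    (hk : (χ : G → ℂ) y = (k : ℂ)) :
    (charDegree (χ : G → ℂ) : ℤ) ∣
      ((Subgroup.centralizer ({y} : Set G)).index : ℤ) * k := by
  have hint := Cfsg.Agent.Lib.Helper82.irr_centralChar_isIntegral χ y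
  obtain ⟨hdeg, hdeg0⟩ := Cfsg.Agent.Lib.Helper82.irr_charDegree χ
  unfold centralChar at hint
  rw [hk, ← hdeg] at hint
  apply cointw_int _ _ hdeg0
  convert hint using 2
  push_cast
  rfl

end Cfsg.Agent.Lib.Helper80.Cole
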