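import Mathlib
import Cfsg.Agent.Lib.Helper10.BR0
import Cfsg.Agent.Lib.Helper82.CharCore
import Cfsg.Agent.Lib.Helper62.Cent4B
import Cfsg.Agent.Lib.Helper20.DetChar

/-!
# Cole-range orders (S0977: 4320, S0980: 5760), piece INVDET (project of helper80)
-/

set_option autoImplicit false

namespace Cfsg.Agent.Lib.Helper80.Cole

open Cfsg
open Cfsg.Agent.Lib.Helper83 (trivIrr)
open Cfsg.Agent.Lib.Helper10.BR (DOut)

universe u

/-- A homomorphism from a simple non-cyclic group to a commutative group is trivial. -/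
theorem coinvdet_hom_trivial {G : Type u} [Group G] [IsSimpleGroup G] (hG : ¬ IsCyclic G)
    {A : Type*} [CommGroup A] (f : G →* A) (g : G) : f g = 1 := by
  rcases Subgroup.Normal.eq_bot_or_eq_top (inferInstance : f.ker.Normal) with h | h
  · exfalso
    have hinj : Function.Injective f := (MonoidHom.ker_eq_bot_iff f).mp h
    have hcomm : ∀ a b : G, a * b = b * a := by
      intro a b
      apply hinj
      rw [map_mul, map_mul, mul_comm]
    let _i : CommGroup G := { ‹Group G› with mul_comm := hcomm }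
    exact hG IsSimpleGroup.isCyclic
  · have : g ∈ f.ker := by rw [h]; exact Subgroup.mem_top g
    exact MonoidHom.mem_ker.mp this

/-- Eigenvalue data of a representation at an element of square one, with the determinant. -/
theorem coinvdet_rep {G : Type u} [Group G] [Finite G] {V : Type*} [AddCommGroup V] [Module ℂ V]
    [FiniteDimensional ℂ V] (ρ : Representation ℂ G V) (g : G) (hg : g * g = 1) :
    ∃ p q : ℕ, ρ.character g = (p : ℂ) - (q : ℂ) ∧ ρ.character 1 = (p : ℂ) + (q : ℂ) ∧
      LinearMap.det (ρ g) = (-1 : ℂ) ^ q := by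
  classical
  have hf : (ρ g) ^ 2 = 1 := by rw [← map_pow, pow_two, hg, map_one]
  obtain ⟨ι, hι, hd, v, μ, h1, h2⟩ :=
    Cfsg.Agent.Lib.Helper4.exists_eigenbasis (ρ g) 2 (by norm_num) hf
  have hμ : ∀ i, μ i = 1 ∨ μ i = -1 := by
    intro i
    have := h2 i
    have h3 : (μ i - 1) * (μ i + 1) = 0 := by ring_nf; rw [this]; ring
    rcases mul_eq_zero.mp h3 with h | h
    · left; exact sub_eq_zero.mp h
    · right; exact eq_neg_of_add_eq_zero_left h
  refine ⟨(Finset.univ.filter fun i => μ i = 1).card,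
    (Finset.univ.filter fun i => ¬ μ i = 1).card, ?_, ?_, ?_⟩
  · rw [Representation.character, Cfsg.Agent.Lib.Helper4.trace_eq_sum_of_eigenbasis v (ρ g) μ h1]
    rw [← Finset.sum_filter_add_sum_filter_not Finset.univ (fun i => μ i = 1)]
    have e1 : ∑ i ∈ Finset.univ.filter (fun i => μ i = 1), μ i =
        ((Finset.univ.filter fun i => μ i = 1).card : ℂ) := by
      rw [Finset.sum_congr rfl (g := fun _ => (1 : ℂ))]
      · simp
      · intro i hi
        exact (Finset.mem_filter.mp hi).2
    have e2 : ∑ i ∈ Finset.univ.filter (fun i => ¬ μ i = 1), μ i =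
        -((Finset.univ.filter fun i => ¬ μ i = 1).card : ℂ) := by
      rw [Finset.sum_congr rfl (g := fun _ => (-1 : ℂ))]
      · simp
      · intro i hi
        rcases hμ i with h | h
        · exact absurd h (Finset.mem_filter.mp hi).2
        · exact h
    rw [e1, e2]
    ring
  · rw [Representation.char_one, Module.finrank_eq_card_basis v]
    rw [← Nat.cast_add, Finset.card_filter_add_card_filter_not]
    simp
  · rw [Cfsg.Agent.Lib.Helper20.det_eq_prod_of_eigenbasis v (ρ g) μ h1]
    rw [← Finset.prod_filter_mul_prod_filter_not Finset.univ (fun i => μ i = 1)]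
    have e1 : ∏ i ∈ Finset.univ.filter (fun i => μ i = 1), μ i = 1 := by
      apply Finset.prod_eq_one
      intro i hi
      exact (Finset.mem_filter.mp hi).2
    have e2 : ∏ i ∈ Finset.univ.filter (fun i => ¬ μ i = 1), μ i =
        (-1 : ℂ) ^ (Finset.univ.filter fun i => ¬ μ i = 1).card := by
      rw [Finset.prod_congr rfl (g := fun _ => (-1 : ℂ))]
      · simp
      · intro i hi
        rcases hμ i with h | h
        · exact absurd h (Finset.mem_filter.mp hi).2
        · exact h
    rw [e1, e2, one_mul]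

/-- INVDET: in a simple non-cyclic finite group the determinant of every representation is
trivial, hence the value of an irreducible character at an involution is an integer congruent
to the degree modulo 4. -/
theorem invol_det {G : Type u} [Group G] [Finite G] [IsSimpleGroup G] (hG : ¬ IsCyclic G)
    (χ : IrrCharacter G) (y : G) (hy : y * y = 1) :
    ∃ k : ℤ, (χ : G → ℂ) y = (k : ℂ) ∧ k ≡ (charDegree (χ : G → ℂ) : ℤ) [ZMOD 4] ∧
      |k| ≤ (charDegree (χ : G → ℂ) : ℤ) := by
  obtain ⟨hdeg, -⟩ := Cfsg.Agent.Lib.Helper82.irr_charDegree χ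
  obtain ⟨n, ρ, hρ, hχ⟩ := χ.2
  obtain ⟨p, q, h1, h2, h3⟩ := coinvdet_rep ρ y hy
  obtain ⟨f, hf⟩ := Cfsg.Agent.Lib.Helper20.exists_detHom (G := G) ρ.character
  have hdet : LinearMap.det (ρ y) = 1 := by
    rw [← Cfsg.Agent.Lib.Helper20.detChar_eq ρ y, ← hf y, coinvdet_hom_trivial hG f y]
    rfl
  rw [hdet] at h3
  have hq : Even q := by
    rcases Nat.even_or_odd q with h | h
    · exact h
    · exfalso
      rw [h.neg_one_pow] at h3
      norm_num at h3
  obtain ⟨r, hr⟩ := hq
  have hd : charDegree (χ : G → ℂ) = p + q := by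
    have : ((charDegree (χ : G → ℂ) : ℕ) : ℂ) = ((p + q : ℕ) : ℂ) := by
      rw [hdeg, ← hχ, h2]; push_cast; rfl
    exact_mod_cast this
  refine ⟨(p : ℤ) - (q : ℤ), ?_, ?_, ?_⟩
  · rw [← hχ, h1]; push_cast; rfl
  · rw [hd, hr]
    push_cast
    have : ((p : ℤ) + ((r : ℤ) + (r : ℤ))) - ((p : ℤ) - ((r : ℤ) + (r : ℤ))) = 4 * (r : ℤ) := by ring
    exact (Int.modEq_iff_dvd.mpr ⟨r, this⟩)
  · rw [hd]
    push_cast
    rw [abs_le]
    constructor <;> omega

end Cfsg.Agent.Lib.Helper80.Cole
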