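import Mathlib
import Cfsg.Agent.Lib.Helper10.BR0
import Cfsg.Agent.Lib.Helper82.CharCore
import Cfsg.Agent.Lib.Helper83.BRL2

/-!
# Cole-range orders (S0977: 4320, S0980: 5760), piece VALMOD (placeholder; project of helper80)
-/

set_option autoImplicit false

namespace Cfsg.Agent.Lib.Helper80.Cole

open Cfsg
open Cfsg.Agent.Lib.Helper83 (trivIrr)
open Cfsg.Agent.Lib.Helper10.BR (DOut)

universe u

/-- VALMOD: if `χ (x * y) = s` for all `x ∈ P ∖ {1}` (`|P| = p`, `y ∈ C_G(P)`), then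
`χ y = s + p * a` with `a` an algebraic integer. -/
theorem val_mod {G : Type u} [Group G] [Finite G] (p : ℕ) [Fact p.Prime] (P : Subgroup G)
    (hP : Nat.card P = p) (χ : IrrCharacter G) (s : ℤ) (y : G)
    (hy : y ∈ Subgroup.centralizer (P : Set G))
    (hval : ∀ x ∈ P, x ≠ 1 → (χ : G → ℂ) (x * y) = (s : ℂ)) :
    ∃ a : ℂ, IsIntegral ℤ a ∧ (χ : G → ℂ) y = (s : ℂ) + (p : ℂ) * a := by
  classical
  cases nonempty_fintype G
  have hp0 : p ≠ 0 := (Fact.out : p.Prime).ne_zero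
  have hp1 : 1 ≤ p := (Fact.out : p.Prime).one_le
  haveI : Finite P := Nat.finite_of_card_ne_zero (by rw [hP]; exact hp0)
  letI : Fintype P := Fintype.ofFinite P
  have hcardP : Fintype.card P = p := by rw [← Nat.card_eq_fintype_card, hP]
  have hps : Cfsg.Agent.Lib.Helper10.BR.psum P (χ : G → ℂ) y =
      (χ : G → ℂ) y + ((p - 1 : ℕ) : ℂ) * (s : ℂ) := by
    rw [Cfsg.Agent.Lib.Helper10.BR.psum_eq_sum, ← Finset.add_sum_erase Finset.univ _
      (Finset.mem_univ (1 : P))]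
    have h1 : ∑ u ∈ Finset.univ.erase (1 : P), (χ : G → ℂ) (y * (u : G)) =
        ∑ u ∈ Finset.univ.erase (1 : P), (s : ℂ) := by
      apply Finset.sum_congr rfl
      intro u hu
      have hu1 : (u : G) ≠ 1 := fun h => (Finset.ne_of_mem_erase hu) (Subtype.ext h)
      have hc : (u : G) * y = y * (u : G) := (Subgroup.mem_centralizer_iff.1 hy) u u.2
      rw [← hc]
      exact hval u u.2 hu1
    rw [h1, Finset.sum_const, Finset.card_erase_of_mem (Finset.mem_univ _), Finset.card_univ,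
      hcardP]
    simp
  have hyN : y ∈ Subgroup.normalizer (P : Set G) := Subgroup.centralizer_le_normalizer _ hy
  have hχc : IsCharacter G (χ : G → ℂ) := by
    obtain ⟨n, ρ, -, h⟩ := χ.2
    exact ⟨n, ρ, h⟩
  obtain ⟨T, c, hT⟩ := Cfsg.Agent.Lib.Helper10.BR.BRL2aux.psum_decomp P (χ : G → ℂ) hχc
  have hTy := hT ⟨y, hyN⟩
  rw [hP] at hTy
  have hint : IsIntegral ℤ (∑ η ∈ T, (c η : ℂ) *
      (η : Subgroup.normalizer (P : Set G) → ℂ) ⟨y, hyN⟩) := by
    apply IsIntegral.sum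
    intro η _
    exact IsIntegral.mul (isIntegral_natCast _) (Cfsg.Agent.Lib.Helper82.irr_isIntegral η _)
  have hTy' : Cfsg.Agent.Lib.Helper10.BR.psum P (χ : G → ℂ) y = (p : ℂ) *
      ∑ η ∈ T, (c η : ℂ) * (η : Subgroup.normalizer (P : Set G) → ℂ) ⟨y, hyN⟩ := hTy
  refine ⟨(∑ η ∈ T, (c η : ℂ) * (η : Subgroup.normalizer (P : Set G) → ℂ) ⟨y, hyN⟩) - (s : ℂ),
    IsIntegral.sub hint isIntegral_algebraMap, ?_⟩
  rw [hps] at hTy'
  have hcast : ((p - 1 : ℕ) : ℂ) = (p : ℂ) - 1 := by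
    rw [Nat.cast_sub hp1, Nat.cast_one]
  rw [hcast] at hTy'
  linear_combination hTy'

/-- VALMOD, integer form. -/
theorem val_mod_int {G : Type u} [Group G] [Finite G] (p : ℕ) [Fact p.Prime] (P : Subgroup G)
    (hP : Nat.card P = p) (χ : IrrCharacter G) (s : ℤ) (y : G)
    (hy : y ∈ Subgroup.centralizer (P : Set G))
    (hval : ∀ x ∈ P, x ≠ 1 → (χ : G → ℂ) (x * y) = (s : ℂ))
    (k : ℤ) (hk : (χ : G → ℂ) y = (k : ℂ)) : k ≡ s [ZMOD p] := by
  obtain ⟨a, ha, hya⟩ := val_mod p P hP χ s y hy hval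
  have hp0 : p ≠ 0 := (Fact.out : p.Prime).ne_zero
  have hpc : (p : ℂ) ≠ 0 := by exact_mod_cast hp0
  rw [hk] at hya
  -- a = (k - s) / p
  have hnn : 0 ≤ k - s + (p : ℤ) * |k - s| := by
    have h1 : (1 : ℤ) ≤ (p : ℤ) := by exact_mod_cast (Fact.out : p.Prime).one_le
    have h2 : 0 ≤ |k - s| := abs_nonneg _
    have h3 : -(k - s) ≤ |k - s| := neg_le_abs _
    nlinarith
  obtain ⟨b, hb⟩ := Int.eq_ofNat_of_zero_le hnn
  obtain ⟨m, hm⟩ := Int.eq_ofNat_of_zero_le (abs_nonneg (k - s))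
  have hint2 : IsIntegral ℤ ((b : ℂ) / (p : ℂ)) := by
    have h2 : (b : ℂ) / (p : ℂ) = a + (m : ℂ) := by
      have h3 : (b : ℂ) = ((k - s + (p : ℤ) * |k - s| : ℤ) : ℂ) := by
        rw [hb]
        norm_cast
      have h4 : ((|k - s| : ℤ) : ℂ) = (m : ℂ) := by
        rw [hm]
        norm_cast
      rw [h3]
      push_cast
      push_cast at h4
      rw [h4]
      field_simp
      linear_combination hya
    rw [h2]
    exact IsIntegral.add ha (isIntegral_natCast _)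
  have hdvd := Cfsg.Agent.Lib.Helper82.isIntegral_div_imp_dvd b p hp0 hint2
  have h4 : (p : ℤ) ∣ (b : ℤ) := by exact_mod_cast hdvd
  rw [← hb] at h4
  have h5 : (p : ℤ) ∣ k - s := by
    have h6 : (p : ℤ) ∣ (p : ℤ) * |k - s| := dvd_mul_right _ _
    exact (Int.dvd_add_left h6).mp h4
  exact (Int.modEq_iff_dvd.mpr (by
    have h7 : s - k = -(k - s) := by ring
    rw [h7]
    exact (dvd_neg).mpr h5))

end Cfsg.Agent.Lib.Helper80.Cole
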