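import Mathlib
import Cfsg.Agent.Lib.Helper10.BR0
import Cfsg.Agent.Lib.Helper22.DOne2
import Cfsg.Agent.Lib.Helper82.PQ
import Cfsg.Agent.Lib.Helper82.CharCore
import Cfsg.Agent.Lib.Helper34.BRG4
import Cfsg.Agent.Lib.Helper74.BRG3
import Cfsg.Agent.Lib.Helper66.BQX1
import Cfsg.Agent.Lib.Helper30.BQX5
import Cfsg.Agent.Lib.Helper74.NS19F
import Cfsg.Agent.Lib.Helper80.CoINVDET
import Cfsg.Agent.Lib.Helper80.CoVALMOD
import Cfsg.Agent.Lib.Helper80.CoBLK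
import Cfsg.Agent.Lib.Helper80.CoINTW
import Cfsg.Agent.Lib.Helper80.CoCOLB
import Cfsg.Agent.Lib.Helper80.CoARC5

/-!
# Cole-range orders (S0978: 5040), piece INVC5 (placeholder; project of helper80)
-/

set_option autoImplicit false

namespace Cfsg.Agent.Lib.Helper80.Cole

open Cfsg
open Cfsg.Agent.Lib.Helper83 (trivIrr)
open Cfsg.Agent.Lib.Helper10.BR (DOut)

universe u

/-- data of a nontrivial non-exceptional character at the involution `y` -/
theorem coinvc5_char {G : Type u} [Group G] [Finite G] [IsSimpleGroup G] (hG : ¬ IsCyclic G)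
    (M : Ideal AlgInt) (P : Sylow 5 G) (hP : Nat.card P = 5) (e : ℕ)
    (X Y : Set (IrrCharacter G)) (εX : IrrCharacter G → ℤ) (ε : ℤ)
    (hD : DOut G 5 M (P : Subgroup G) e X Y εX ε)
    (y : G) (hy : y ∈ Subgroup.centralizer ((P : Subgroup G) : Set G)) (hy1 : y ≠ 1)
    (hy2 : y * y = 1) (χ : IrrCharacter G) (hχX : χ ∈ X) (hχne : χ ≠ trivIrr G) :
    ∃ k : ℤ, (χ : G → ℂ) y = (k : ℂ) ∧ (εX χ = 1 ∨ εX χ = -1) ∧
      charDegree (χ : G → ℂ) ∣ Nat.card G ∧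
      charDegree (χ : G → ℂ) * charDegree (χ : G → ℂ) < Nat.card G ∧
      (charDegree (χ : G → ℂ) : ℤ) ≡ εX χ [ZMOD 5] ∧
      k ≡ εX χ [ZMOD 5] ∧ k ≡ (charDegree (χ : G → ℂ) : ℤ) [ZMOD 4] ∧
      |k| ≤ (charDegree (χ : G → ℂ) : ℤ) ∧ k ≠ (charDegree (χ : G → ℂ) : ℤ) := by
  classical
  haveI : Fact (Nat.Prime 5) := ⟨by norm_num⟩
  haveI : Fact (Nat.Prime 2) := ⟨Nat.prime_two⟩
  letI : Fintype G := Fintype.ofFinite G
  have hyo : orderOf y = 2 := orderOf_eq_prime (by rw [pow_two]; exact hy2) hy1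
  have hyreg : ¬ 5 ∣ orderOf y := by rw [hyo]; norm_num
  obtain ⟨k, hk, hk4, hkabs⟩ := invol_det hG χ y hy2
  have hk5 : k ≡ εX χ [ZMOD 5] := by
    have h := val_mod_int 5 (P : Subgroup G) hP χ (εX χ) y hy
      (fun x hx hx1 => hD.valX χ hχX x hx hx1 y hy hyreg) k hk
    exact_mod_cast h
  have hm : (charDegree (χ : G → ℂ) : ℤ) ≡ εX χ [ZMOD 5] := by
    have h := hD.degX χ hχX
    exact_mod_cast h
  refine ⟨k, hk, hD.signX χ hχX, Cfsg.Agent.Lib.Helper82.irr_degree_dvd_card χ,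
    Cfsg.Agent.Lib.Helper5.BQ.deg_sq_lt χ hχne, hm, hk5, hk4, hkabs, ?_⟩
  intro hkd
  apply Cfsg.Agent.Lib.Helper74.NS19.faithful hG χ hχne y hy1
  rw [hk, hkd, ← (Cfsg.Agent.Lib.Helper82.irr_charDegree χ).1]
  push_cast
  rfl

/-- INVC5: in a simple group of order 5040 no involution centralizes a Sylow 5-subgroup. -/
theorem invc5040_false {G : Type u} [Group G] [Finite G] [IsSimpleGroup G]
    (hcard : Nat.card G = 5040) (P : Sylow 5 G) (hP : Nat.card P = 5)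
    (y : G) (hy : y ∈ Subgroup.centralizer ((P : Subgroup G) : Set G)) (hy1 : y ≠ 1)
    (hy2 : y * y = 1) : False := by
  classical
  haveI : Fact (Nat.Prime 5) := ⟨by norm_num⟩
  haveI : Fact (Nat.Prime 2) := ⟨Nat.prime_two⟩
  letI : Fintype G := Fintype.ofFinite G
  have hG : ¬ IsCyclic G := by
    intro hc
    letI : CommGroup G := hc.commGroup
    have hprime : (Nat.card G).Prime := IsSimpleGroup.prime_card
    rw [hcard] at hprime
    norm_num at hprime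
  obtain ⟨e, hedef⟩ : ∃ e, (Subgroup.centralizer ((P : Subgroup G) : Set G)).relIndex
      (Subgroup.normalizer ((P : Subgroup G) : Set G)) = e := ⟨_, rfl⟩
  have he1 : e ≠ 1 := by
    rw [← hedef]
    exact Cfsg.Agent.Lib.Helper10.BR.relIndex_ne_one hG 5 P hP
  have hedvd : e ∣ 4 := by
    rw [← hedef]
    exact Cfsg.Agent.Lib.Helper10.BR.relIndex_dvd 5 P hP
  obtain ⟨M, hM⟩ := Cfsg.Agent.Lib.Helper82.exists_isPModular 5
  obtain ⟨X₀, Y₀, hblock, hdisj, hcX, hcY, εX₀, ε₀, hX, hε, hdY, hregY, ht1⟩ :=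
    Cfsg.Agent.Lib.Helper22.DOne.core 5 M hM P hP e hedef
  have hD₀ : DOut G 5 M (P : Subgroup G) e X₀ Y₀ εX₀ ε₀ :=
    ⟨hblock, hdisj, hcX, hcY, fun χ hχ => (hX χ hχ).1, fun χ hχ => (hX χ hχ).2.1,
      fun χ hχ => (hX χ hχ).2.2, hε, hdY, hregY, ht1⟩
  obtain ⟨X, Y, εX, ε, hD, htriv, hεt⟩ :=
    Cfsg.Agent.Lib.Helper5.BQ.triv_mem_gen hG 5 (by norm_num) M hM (P : Subgroup G) hP e hedvd
      X₀ Y₀ εX₀ ε₀ hD₀
  have he24 : e = 2 ∨ e = 4 := by
    have hle : e ≤ 4 := Nat.le_of_dvd (by norm_num) hedvd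
    have h0 : e ≠ 0 := by
      rintro rfl
      norm_num at hedvd
    have h3 : e ≠ 3 := by
      rintro rfl
      norm_num at hedvd
    omega
  have hyo : orderOf y = 2 := orderOf_eq_prime (by rw [pow_two]; exact hy2) hy1
  have hyreg : ¬ 5 ∣ orderOf y := by rw [hyo]; norm_num
  have h1reg : ¬ 5 ∣ orderOf (1 : G) := by rw [orderOf_one]; norm_num
  rcases he24 with rfl | rfl
  · obtain ⟨χ, θ, hχX, hθY, hχne, hθne, hθχ, hrel⟩ :=
      blk2 5 (by norm_num) M (P : Subgroup G) X Y εX ε hD htriv hεt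
    obtain ⟨k, hk, hs, hd, hq, hm, hk5, hk4, hkabs, hkne⟩ :=
      coinvc5_char hG M P hP 2 X Y εX ε hD y hy hy1 hy2 χ hχX hχne
    have hdθ : charDegree (θ : G → ℂ) ∣ Nat.card G :=
      Cfsg.Agent.Lib.Helper82.irr_degree_dvd_card θ
    have hqθ := Cfsg.Agent.Lib.Helper5.BQ.deg_sq_lt θ hθne
    have hmθ : (charDegree (θ : G → ℂ) : ℤ) ≡ ε * 2 [ZMOD 5] := by
      have h := hD.degY θ hθY
      exact_mod_cast h
    have hdeg : ε * (charDegree (θ : G → ℂ) : ℤ) = 1 + εX χ * (charDegree (χ : G → ℂ) : ℤ) := by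
      have h := hrel 1 h1reg
      rw [← (Cfsg.Agent.Lib.Helper82.irr_charDegree θ).1,
        ← (Cfsg.Agent.Lib.Helper82.irr_charDegree χ).1] at h
      exact_mod_cast h
    rw [hcard] at hd hdθ hq hqθ
    exact arc2_5040 _ _ (εX χ) ε k hs hD.signY hd hdθ hq hqθ hm hmθ hdeg hk5 hk4
      hkabs hkne
  · obtain ⟨χ₁, χ₂, χ₃, θ, h₁X, h₂X, h₃X, hθY, h₁ne, h₂ne, h₃ne, hθne, h12, h13, h23, hθ1, hθ2,
      hθ3, hrel⟩ := blk4 5 (by norm_num) M (P : Subgroup G) X Y εX ε hD htriv hεt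
    obtain ⟨k₁, hk₁, hs₁, hd₁, hq₁, hm₁, hk5₁, hk4₁, hkabs₁, hkne₁⟩ :=
      coinvc5_char hG M P hP 4 X Y εX ε hD y hy hy1 hy2 χ₁ h₁X h₁ne
    obtain ⟨k₂, hk₂, hs₂, hd₂, hq₂, hm₂, hk5₂, hk4₂, hkabs₂, hkne₂⟩ :=
      coinvc5_char hG M P hP 4 X Y εX ε hD y hy hy1 hy2 χ₂ h₂X h₂ne
    obtain ⟨k₃, hk₃, hs₃, hd₃, hq₃, hm₃, hk5₃, hk4₃, hkabs₃, hkne₃⟩ :=
      coinvc5_char hG M P hP 4 X Y εX ε hD y hy hy1 hy2 χ₃ h₃X h₃ne
    obtain ⟨kθ, hkθ, hk4θ, hkabsθ⟩ := invol_det hG θ y hy2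
    have hkneθ : kθ ≠ (charDegree (θ : G → ℂ) : ℤ) := by
      intro hkd
      apply Cfsg.Agent.Lib.Helper74.NS19.faithful hG θ hθne y hy1
      rw [hkθ, hkd, ← (Cfsg.Agent.Lib.Helper82.irr_charDegree θ).1]
      push_cast
      rfl
    have hdθ : charDegree (θ : G → ℂ) ∣ Nat.card G :=
      Cfsg.Agent.Lib.Helper82.irr_degree_dvd_card θ
    have hqθ := Cfsg.Agent.Lib.Helper5.BQ.deg_sq_lt θ hθne
    have hmθ : (charDegree (θ : G → ℂ) : ℤ) ≡ ε * 4 [ZMOD 5] := by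
      have h := hD.degY θ hθY
      exact_mod_cast h
    have hdeg : ε * (charDegree (θ : G → ℂ) : ℤ) = 1 + εX χ₁ * (charDegree (χ₁ : G → ℂ) : ℤ)
        + εX χ₂ * (charDegree (χ₂ : G → ℂ) : ℤ) + εX χ₃ * (charDegree (χ₃ : G → ℂ) : ℤ) := by
      have h := hrel 1 h1reg
      rw [← (Cfsg.Agent.Lib.Helper82.irr_charDegree θ).1,
        ← (Cfsg.Agent.Lib.Helper82.irr_charDegree χ₁).1,
        ← (Cfsg.Agent.Lib.Helper82.irr_charDegree χ₂).1,
        ← (Cfsg.Agent.Lib.Helper82.irr_charDegree χ₃).1] at h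
      exact_mod_cast h
    have hval : ε * kθ = 1 + εX χ₁ * k₁ + εX χ₂ * k₂ + εX χ₃ * k₃ := by
      have h := hrel y hyreg
      rw [hkθ, hk₁, hk₂, hk₃] at h
      exact_mod_cast h
    -- the centralizer of `y`
    have hcI : Nat.card (Subgroup.centralizer ({y} : Set G)) *
        (Subgroup.centralizer ({y} : Set G)).index = 5040 := by
      rw [Subgroup.card_mul_index, hcard]
    have hi₁ := central_dvd χ₁ y k₁ hk₁
    have hi₂ := central_dvd χ₂ y k₂ hk₂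
    have hi₃ := central_dvd χ₃ y k₃ hk₃
    have hiθ := central_dvd θ y kθ hkθ
    -- the column bound
    have hcol : 1 + k₁ ^ 2 + k₂ ^ 2 + k₃ ^ 2 + kθ ^ 2 ≤
        (Nat.card (Subgroup.centralizer ({y} : Set G)) : ℤ) := by
      have hcb := col_bound y ({trivIrr G, χ₁, χ₂, χ₃, θ} : Finset (IrrCharacter G))
        (fun φ => if φ = trivIrr G then 1 else if φ = χ₁ then k₁ else if φ = χ₂ then k₂
          else if φ = χ₃ then k₃ else kθ) (by
          intro φ hφ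
          simp only [Finset.mem_insert, Finset.mem_singleton] at hφ
          rcases hφ with rfl | rfl | rfl | rfl | rfl
          · rw [if_pos rfl, Cfsg.Agent.Lib.Helper83.trivIrr_apply]
            push_cast
            rfl
          · rw [if_neg h₁ne, if_pos rfl]
            exact hk₁
          · rw [if_neg h₂ne, if_neg (Ne.symm h12), if_pos rfl]
            exact hk₂
          · rw [if_neg h₃ne, if_neg (Ne.symm h13), if_neg (Ne.symm h23), if_pos rfl]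
            exact hk₃
          · rw [if_neg hθne, if_neg hθ1, if_neg hθ2, if_neg hθ3]
            exact hkθ)
      have hsum : ∑ φ ∈ ({trivIrr G, χ₁, χ₂, χ₃, θ} : Finset (IrrCharacter G)),
          (if φ = trivIrr G then 1 else if φ = χ₁ then k₁ else if φ = χ₂ then k₂
            else if φ = χ₃ then k₃ else kθ) ^ 2 = 1 + k₁ ^ 2 + k₂ ^ 2 + k₃ ^ 2 + kθ ^ 2 := by
        rw [Finset.sum_insert (by
            simp only [Finset.mem_insert, Finset.mem_singleton, not_or]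
            exact ⟨Ne.symm h₁ne, Ne.symm h₂ne, Ne.symm h₃ne, Ne.symm hθne⟩),
          Finset.sum_insert (by
            simp only [Finset.mem_insert, Finset.mem_singleton, not_or]
            exact ⟨h12, h13, Ne.symm hθ1⟩),
          Finset.sum_insert (by
            simp only [Finset.mem_insert, Finset.mem_singleton, not_or]
            exact ⟨h23, Ne.symm hθ2⟩),
          Finset.sum_insert (by
            simp only [Finset.mem_singleton]
            exact Ne.symm hθ3),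
          Finset.sum_singleton]
        rw [if_pos rfl, if_neg h₁ne, if_pos rfl, if_neg h₂ne, if_neg (Ne.symm h12), if_pos rfl,
          if_neg h₃ne, if_neg (Ne.symm h13), if_neg (Ne.symm h23), if_pos rfl,
          if_neg hθne, if_neg hθ1, if_neg hθ2, if_neg hθ3]
        ring
      rw [← hsum]
      exact hcb
    rw [hcard] at hd₁ hd₂ hd₃ hdθ hq₁ hq₂ hq₃ hqθ
    exact arc4_5040 _ _ _ _ _ _ (εX χ₁) (εX χ₂) (εX χ₃) ε k₁ k₂ k₃ kθ hs₁ hs₂ hs₃
      hD.signY hd₁ hd₂ hd₃ hdθ hq₁ hq₂ hq₃ hqθ hm₁ hm₂ hm₃ hmθ hdeg hval hk5₁ hk5₂ hk5₃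
      hk4₁ hk4₂ hk4₃ hk4θ hkabs₁ hkabs₂ hkabs₃ hkabsθ hkne₁ hkne₂ hkne₃ hkneθ hcI
      hi₁ hi₂ hi₃ hiθ hcol

end Cfsg.Agent.Lib.Helper80.Cole
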