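import Mathlib
import Cfsg.Agent.Lib.Helper10.BR0
import Cfsg.Agent.Lib.Helper22.DOne2
import Cfsg.Agent.Lib.Helper82.PQ
import Cfsg.Agent.Lib.Helper82.CharCore
import Cfsg.Agent.Lib.Helper90.BRX1
import Cfsg.Agent.Lib.Helper30.BQX5
import Cfsg.Agent.Lib.Helper74.NS19F
import Cfsg.Agent.Lib.Helper80.CoINVDET
import Cfsg.Agent.Lib.Helper80.CoVALMOD
import Cfsg.Agent.Lib.Helper80.CoBLK
import Cfsg.Agent.Lib.Helper80.CoINTW
import Cfsg.Agent.Lib.Helper80.CoCOLB
import Cfsg.Agent.Lib.Helper80.CoARC5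

/-!
# Cole-range orders (S0978: 5040), piece INVC7 (placeholder; project of helper80)
-/

set_option autoImplicit false

namespace Cfsg.Agent.Lib.Helper80.Cole

open Cfsg
open Cfsg.Agent.Lib.Helper83 (trivIrr)
open Cfsg.Agent.Lib.Helper10.BR (DOut)

universe u

/-- INVC7: in a simple group of order 5040 with `|N_G(Q) : C_G(Q)| = 2` for a Sylow
7-subgroup `Q`, no involution centralizes `Q`. -/
theorem invc7_false {G : Type u} [Group G] [Finite G] [IsSimpleGroup G]
    (hcard : Nat.card G = 5040) (Q : Sylow 7 G) (hQ : Nat.card Q = 7)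
    (he : (Subgroup.centralizer ((Q : Subgroup G) : Set G)).relIndex
      (Subgroup.normalizer ((Q : Subgroup G) : Set G)) = 2)
    (y : G) (hy : y ∈ Subgroup.centralizer ((Q : Subgroup G) : Set G)) (hy1 : y ≠ 1)
    (hy2 : y * y = 1) : False := by
  classical
  haveI : Fact (Nat.Prime 7) := ⟨by norm_num⟩
  haveI : Fact (Nat.Prime 2) := ⟨Nat.prime_two⟩
  letI : Fintype G := Fintype.ofFinite G
  have hG : ¬ IsCyclic G := by
    intro hc
    letI : CommGroup G := hc.commGroup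
    have hprime : (Nat.card G).Prime := IsSimpleGroup.prime_card
    rw [hcard] at hprime
    norm_num at hprime
  obtain ⟨M, hM⟩ := Cfsg.Agent.Lib.Helper82.exists_isPModular 7
  obtain ⟨X, Y, hblock, hdisj, hcX, hcY, εX, ε, hX, hε, hdY, hregY, ht1⟩ :=
    Cfsg.Agent.Lib.Helper22.DOne.core 7 M hM Q hQ 2 he
  have hD : DOut G 7 M (Q : Subgroup G) 2 X Y εX ε :=
    ⟨hblock, hdisj, hcX, hcY, fun χ hχ => (hX χ hχ).1, fun χ hχ => (hX χ hχ).2.1,
      fun χ hχ => (hX χ hχ).2.2, hε, hdY, hregY, ht1⟩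
  obtain ⟨htriv, hεt⟩ :=
    Cfsg.Agent.Lib.Helper10.BR.triv_mem hG 7 M hM (Q : Subgroup G) hQ 2 X Y εX ε hD
      (by norm_num)
  have hyo : orderOf y = 2 := orderOf_eq_prime (by rw [pow_two]; exact hy2) hy1
  have hyreg : ¬ 7 ∣ orderOf y := by rw [hyo]; norm_num
  have h1reg : ¬ 7 ∣ orderOf (1 : G) := by rw [orderOf_one]; norm_num
  obtain ⟨χ, θ, hχX, hθY, hχne, hθne, hθχ, hrel⟩ :=
    blk2 7 (by norm_num) M (Q : Subgroup G) X Y εX ε hD htriv hεt
  obtain ⟨k, hk, hk4, hkabs⟩ := invol_det hG χ y hy2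
  obtain ⟨kθ, hkθ, hk4θ, hkabsθ⟩ := invol_det hG θ y hy2
  have hk7 : k ≡ εX χ [ZMOD 7] := by
    have h := val_mod_int 7 (Q : Subgroup G) hQ χ (εX χ) y hy
      (fun x hx hx1 => hD.valX χ hχX x hx hx1 y hy hyreg) k hk
    exact_mod_cast h
  have hm : (charDegree (χ : G → ℂ) : ℤ) ≡ εX χ [ZMOD 7] := by
    have h := hD.degX χ hχX
    exact_mod_cast h
  have hmθ : (charDegree (θ : G → ℂ) : ℤ) ≡ ε * 2 [ZMOD 7] := by
    have h := hD.degY θ hθY
    exact_mod_cast h
  have hkne : k ≠ (charDegree (χ : G → ℂ) : ℤ) := by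
    intro hkd
    apply Cfsg.Agent.Lib.Helper74.NS19.faithful hG χ hχne y hy1
    rw [hk, hkd, ← (Cfsg.Agent.Lib.Helper82.irr_charDegree χ).1]
    push_cast
    rfl
  have hd : charDegree (χ : G → ℂ) ∣ 5040 := by
    rw [← hcard]
    exact Cfsg.Agent.Lib.Helper82.irr_degree_dvd_card χ
  have hdθ : charDegree (θ : G → ℂ) ∣ 5040 := by
    rw [← hcard]
    exact Cfsg.Agent.Lib.Helper82.irr_degree_dvd_card θ
  have hq : charDegree (χ : G → ℂ) * charDegree (χ : G → ℂ) < 5040 := by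
    rw [← hcard]
    exact Cfsg.Agent.Lib.Helper5.BQ.deg_sq_lt χ hχne
  have hqθ : charDegree (θ : G → ℂ) * charDegree (θ : G → ℂ) < 5040 := by
    rw [← hcard]
    exact Cfsg.Agent.Lib.Helper5.BQ.deg_sq_lt θ hθne
  have hdeg : ε * (charDegree (θ : G → ℂ) : ℤ) = 1 + εX χ * (charDegree (χ : G → ℂ) : ℤ) := by
    have h := hrel 1 h1reg
    rw [← (Cfsg.Agent.Lib.Helper82.irr_charDegree θ).1,
      ← (Cfsg.Agent.Lib.Helper82.irr_charDegree χ).1] at h
    exact_mod_cast h
  have hval : ε * kθ = 1 + εX χ * k := by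
    have h := hrel y hyreg
    rw [hkθ, hk] at h
    exact_mod_cast h
  have hcI : Nat.card (Subgroup.centralizer ({y} : Set G)) *
      (Subgroup.centralizer ({y} : Set G)).index = 5040 := by
    rw [Subgroup.card_mul_index, hcard]
  have hi := central_dvd χ y k hk
  have hiθ := central_dvd θ y kθ hkθ
  have hcol : 1 + k ^ 2 + kθ ^ 2 ≤ (Nat.card (Subgroup.centralizer ({y} : Set G)) : ℤ) := by
    have h := col_bound y ({trivIrr G, χ, θ} : Finset (IrrCharacter G))
      (fun φ => if φ = trivIrr G then 1 else if φ = χ then k else kθ) (by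
        intro φ hφ
        rw [Finset.mem_insert, Finset.mem_insert, Finset.mem_singleton] at hφ
        rcases hφ with rfl | rfl | rfl
        · rw [if_pos rfl, Cfsg.Agent.Lib.Helper83.trivIrr_apply]
          push_cast
          rfl
        · rw [if_neg hχne, if_pos rfl, hk]
        · rw [if_neg hθne, if_neg hθχ, hkθ])
    have h1 : trivIrr G ∉ ({χ, θ} : Finset (IrrCharacter G)) := by
      rw [Finset.mem_insert, Finset.mem_singleton]
      rintro (h | h)
      · exact hχne h.symm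
      · exact hθne h.symm
    have h2 : χ ∉ ({θ} : Finset (IrrCharacter G)) := by
      rw [Finset.mem_singleton]
      exact fun h => hθχ h.symm
    rw [Finset.sum_insert h1, Finset.sum_insert h2, Finset.sum_singleton, if_pos rfl,
      if_neg hχne, if_pos rfl, if_neg hθne, if_neg hθχ] at h
    linarith
  exact arc2_7 _ _ _ _ (εX χ) ε k kθ (hD.signX χ hχX) hD.signY hd hdθ hq hqθ hm hmθ hdeg hval
    hk7 hk4 hkabs hkne hcI hi hiθ hcol

end Cfsg.Agent.Lib.Helper80.Cole
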