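import Mathlib
import Cfsg.Agent.Lib.Helper10.BR0

/-!
# Cole-range orders (S0977: 4320, S0980: 5760), piece SING (project of helper80; proved by helper77)
-/

set_option autoImplicit false

namespace Cfsg.Agent.Lib.Helper80.Cole

open Cfsg
open Cfsg.Agent.Lib.Helper83 (trivIrr)
open Cfsg.Agent.Lib.Helper10.BR (DOut)

universe u

open scoped Pointwise in
theorem cosing_mem_smul {G : Type u} [Group G] (p : ℕ) (P : Sylow p G) (c h : G)
    (hh : h ∈ (c • P : Sylow p G)) : ∃ s ∈ (P : Subgroup G), c * s * c⁻¹ = h := by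
  have hh' : h ∈ (MulAut.conj c • (P : Subgroup G)) := by
    rw [← Sylow.pointwise_smul_def, ← Sylow.smul_def]
    exact hh
  obtain ⟨s, hs, hsh⟩ := Subgroup.mem_smul_pointwise_iff_exists _ _ _ |>.mp hh'
  exact ⟨s, hs, hsh⟩

/-- SING: if the Sylow `p`-subgroup `P` has order `p` and is self-centralizing, every
`p`-singular element is conjugate to an element of `P ∖ {1}`. -/
theorem sing_conj {G : Type u} [Group G] [Finite G] (p : ℕ) [Fact p.Prime] (P : Sylow p G)
    (hP : Nat.card P = p)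
    (hcent : ∀ y ∈ (P : Subgroup G), y ≠ 1 → ∀ g : G, g * y = y * g → g ∈ (P : Subgroup G))
    (g : G) (hg : p ∣ orderOf g) : ∃ y ∈ (P : Subgroup G), y ≠ 1 ∧ IsConj y g := by
  have hp : p.Prime := Fact.out
  have hg0 : orderOf g ≠ 0 := (orderOf_pos g).ne'
  have hg1 : g ≠ 1 := by
    rintro rfl
    rw [orderOf_one] at hg
    exact hp.one_lt.ne' (Nat.dvd_one.mp hg)
  set h : G := g ^ (orderOf g / p) with hh
  have hord : orderOf h = p := orderOf_pow_orderOf_div hg0 hg
  have hh1 : h ≠ 1 := by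
    intro h1
    rw [h1, orderOf_one] at hord
    exact hp.one_lt.ne' hord.symm
  have hpg : IsPGroup p (Subgroup.zpowers h) := by
    apply IsPGroup.of_card (n := 1)
    rw [Nat.card_zpowers, hord, pow_one]
  obtain ⟨Q, hQ⟩ := hpg.exists_le_sylow
  obtain ⟨c, hc⟩ := MulAction.exists_smul_eq G P Q
  have hhQ : h ∈ (c • P : Sylow p G) := by
    rw [hc]
    exact hQ (Subgroup.mem_zpowers h)
  obtain ⟨s, hs, hsh'⟩ := cosing_mem_smul p P c h hhQ
  have hs1 : s ≠ 1 := by
    rintro rfl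
    apply hh1
    rw [← hsh']
    group
  have hgh : g * h = h * g := by
    rw [hh, ← pow_succ', ← pow_succ]
  have hcomm : (c⁻¹ * g * c) * s = s * (c⁻¹ * g * c) := by
    have e1 : s = c⁻¹ * h * c := by rw [← hsh']; group
    rw [e1]
    calc c⁻¹ * g * c * (c⁻¹ * h * c) = c⁻¹ * (g * h) * c := by group
      _ = c⁻¹ * (h * g) * c := by rw [hgh]
      _ = c⁻¹ * h * c * (c⁻¹ * g * c) := by group
  refine ⟨c⁻¹ * g * c, hcent s hs hs1 _ hcomm, ?_, ?_⟩
  · intro h1
    apply hg1
    calc g = c * (c⁻¹ * g * c) * c⁻¹ := by group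
      _ = 1 := by rw [h1]; group
  · rw [isConj_iff]
    exact ⟨c, by group⟩

end Cfsg.Agent.Lib.Helper80.Cole
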