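import Mathlib
import Cfsg.Agent.Lib.Helper10.BR0
import Cfsg.Agent.Lib.Helper22.DOne2
import Cfsg.Agent.Lib.Helper82.PQ
import Cfsg.Agent.Lib.Helper82.CharCore
import Cfsg.Agent.Lib.Helper66.BQX1
import Cfsg.Agent.Lib.Helper30.BQX5
import Cfsg.Agent.Lib.Helper74.NS19F
import Cfsg.Agent.Lib.Helper80.CoINVDET
import Cfsg.Agent.Lib.Helper80.CoBLK
import Cfsg.Agent.Lib.Helper80.CoCLASSF
import Cfsg.Agent.Lib.Helper80.CoCOUNT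
import Cfsg.Agent.Lib.Helper80.CoZINV
import Cfsg.Agent.Lib.Helper80.CoSING
import Cfsg.Agent.Lib.Helper80.CoCOLB
import Cfsg.Agent.Lib.Helper80.CoARN
import Cfsg.Agent.Lib.Helper64.BRG5

/-!
# Cole-range orders (S0977: 4320, S0980: 5760), piece INVN (project of helper80; assembly by helper75)
-/

set_option autoImplicit false
set_option linter.style.haveILetI false

namespace Cfsg.Agent.Lib.Helper80.Cole

open Cfsg
open Cfsg.Agent.Lib.Helper83 (trivIrr)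
open Cfsg.Agent.Lib.Helper10.BR (DOut)

universe u

theorem coinvn_not_cyclic {G : Type u} [Group G] [Finite G] [IsSimpleGroup G]
    (hcard : Nat.card G = 4320) : ¬ IsCyclic G := by
  intro hc
  letI : CommGroup G := IsCyclic.commGroup
  have h := IsSimpleGroup.prime_card (α := G)
  rw [hcard] at h
  norm_num at h

theorem coinvn_sum5 {ι M : Type*} [DecidableEq ι] [AddCommMonoid M] (a b c d e : ι)
    (hab : a ≠ b) (hac : a ≠ c) (had : a ≠ d) (hae : a ≠ e) (hbc : b ≠ c) (hbd : b ≠ d)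
    (hbe : b ≠ e) (hcd : c ≠ d) (hce : c ≠ e) (hde : d ≠ e) (f : ι → M) :
    ∑ x ∈ ({a, b, c, d, e} : Finset ι), f x = f a + (f b + (f c + (f d + f e))) := by
  rw [Finset.sum_insert, Finset.sum_insert, Finset.sum_insert, Finset.sum_insert,
    Finset.sum_singleton]
  all_goals simp [*]

/-- INVN: order 4320, `C_G(P) = P`, `|N_G(P)| = 20` is impossible. -/
theorem invn_false {G : Type u} [Group G] [Finite G] [IsSimpleGroup G]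
    (hcard : Nat.card G = 4320) (P : Sylow 5 G) (hP : Nat.card P = 5)
    (hC : Nat.card (Subgroup.centralizer ((P : Subgroup G) : Set G)) = 5)
    (hN : Nat.card (Subgroup.normalizer ((P : Subgroup G) : Set G)) = 20) : False := by
  classical
  haveI : Fact (Nat.Prime 5) := ⟨by norm_num⟩
  haveI : Fact (Nat.Prime 2) := ⟨Nat.prime_two⟩
  letI : Fintype G := Fintype.ofFinite G
  have hG : ¬ IsCyclic G := coinvn_not_cyclic hcard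
  obtain ⟨n, v, -, -, hCc, hNc, -, -⟩ := Cfsg.Agent.Lib.Helper10.BR.card_decomp 5 P hP
  have hedef : (Subgroup.centralizer ((P : Subgroup G) : Set G)).relIndex
      (Subgroup.normalizer ((P : Subgroup G) : Set G)) = 4 := by
    rw [hC] at hCc
    rw [hN] at hNc
    have hv1 : v = 1 := by omega
    rw [hv1] at hNc
    omega
  obtain ⟨M, hM⟩ := Cfsg.Agent.Lib.Helper82.exists_isPModular 5
  obtain ⟨X₀, Y₀, hblock, hdisj, hcX, hcY, εX₀, ε₀, hX, hε₀, hdY, hregY, ht1⟩ :=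
    Cfsg.Agent.Lib.Helper22.DOne.core 5 M hM P hP 4 hedef
  have hD₀ : DOut G 5 M (P : Subgroup G) 4 X₀ Y₀ εX₀ ε₀ :=
    ⟨hblock, hdisj, hcX, hcY, fun χ hχ => (hX χ hχ).1, fun χ hχ => (hX χ hχ).2.1,
      fun χ hχ => (hX χ hχ).2.2, hε₀, hdY, hregY, ht1⟩
  obtain ⟨X, Y, εX, ε, hD, htriv, hεt⟩ :=
    Cfsg.Agent.Lib.Helper5.BQ.triv_mem_gen hG 5 (le_refl 5) M hM (P : Subgroup G) hP 4
      (by norm_num) X₀ Y₀ εX₀ ε₀ hD₀
  obtain ⟨χ₁, χ₂, χ₃, θ, hχ₁X, hχ₂X, hχ₃X, hθY, hχ₁t, hχ₂t, hχ₃t, hθt, h12, h13, h23,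
    hθ1, hθ2, hθ3, hrel⟩ := blk4 5 (le_refl 5) M (P : Subgroup G) X Y εX ε hD htriv hεt
  obtain ⟨hcent, t, ht1', ht2, htP⟩ :=
    exists_invert 5 (by norm_num) (P : Subgroup G) hP hC (by rw [hN]; norm_num)
  have hto : orderOf t = 2 := orderOf_eq_prime (by rw [pow_two]; exact ht2) ht1'
  have htreg : ¬ 5 ∣ orderOf t := by
    rw [hto]
    norm_num
  have h1reg : ¬ 5 ∣ orderOf (1 : G) := by
    rw [orderOf_one]
    norm_num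
  choose kf hkf1 hkf2 hkf3 using fun φ : IrrCharacter G => invol_det hG φ t ht2
  have hk0 : kf (trivIrr G) = 1 := by
    have h := hkf1 (trivIrr G)
    rw [Cfsg.Agent.Lib.Helper83.trivIrr_apply] at h
    exact_mod_cast h.symm
  have hdC : ∀ φ : IrrCharacter G, (φ : G → ℂ) 1 = ((charDegree (φ : G → ℂ) : ℕ) : ℂ) :=
    fun φ => (Cfsg.Agent.Lib.Helper82.irr_charDegree φ).1.symm
  have hd0 : ∀ φ : IrrCharacter G, ((charDegree (φ : G → ℂ) : ℕ) : ℂ) ≠ 0 :=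
    fun φ => Nat.cast_ne_zero.mpr (Cfsg.Agent.Lib.Helper82.irr_charDegree φ).2
  have hkne : ∀ φ : IrrCharacter G, φ ≠ trivIrr G → kf φ ≠ (charDegree (φ : G → ℂ) : ℤ) := by
    intro φ hφ hkd
    apply Cfsg.Agent.Lib.Helper74.NS19.faithful hG φ hφ t ht1'
    rw [hkf1 φ, hkd, hdC φ]
    exact Int.cast_natCast _
  obtain ⟨c, hc⟩ : ∃ c : IrrCharacter G → ℤ,
      c = fun φ => if φ = trivIrr G then 1 else if φ = θ then -ε else εX φ := ⟨_, rfl⟩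
  have hc0 : c (trivIrr G) = 1 := by
    rw [hc]
    simp
  have hcθ : c θ = -ε := by
    rw [hc]
    simp [hθt]
  have hc1 : c χ₁ = εX χ₁ := by
    rw [hc]
    simp [hχ₁t, Ne.symm hθ1]
  have hc2 : c χ₂ = εX χ₂ := by
    rw [hc]
    simp [hχ₂t, Ne.symm hθ2]
  have hc3 : c χ₃ = εX χ₃ := by
    rw [hc]
    simp [hχ₃t, Ne.symm hθ3]
  have hsum5 : ∀ (M' : Type) [AddCommMonoid M'] (f : IrrCharacter G → M'),
      ∑ φ ∈ ({trivIrr G, χ₁, χ₂, χ₃, θ} : Finset (IrrCharacter G)), f φ =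
        f (trivIrr G) + (f χ₁ + (f χ₂ + (f χ₃ + f θ))) := fun M' _ f =>
    coinvn_sum5 _ _ _ _ _ (Ne.symm hχ₁t) (Ne.symm hχ₂t) (Ne.symm hχ₃t) (Ne.symm hθt) h12 h13
      (Ne.symm hθ1) h23 (Ne.symm hθ2) (Ne.symm hθ3) f
  have hvan : ∀ g : G, (∀ y ∈ {y : G | y ∈ (P : Subgroup G) ∧ y ≠ 1}, ¬ IsConj y g) →
      ∑ φ ∈ ({trivIrr G, χ₁, χ₂, χ₃, θ} : Finset (IrrCharacter G)),
        (c φ : ℂ) * (φ : G → ℂ) g = 0 := by
    intro g hg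
    have hreg : ¬ 5 ∣ orderOf g := by
      intro h5
      obtain ⟨y, hyP, hy1, hconj⟩ := sing_conj 5 P hP hcent g h5
      exact hg y ⟨hyP, hy1⟩ hconj
    rw [hsum5 ℂ, hc0, hc1, hc2, hc3, hcθ, Cfsg.Agent.Lib.Helper83.trivIrr_apply]
    push_cast
    linear_combination (-1 : ℂ) * hrel g hreg
  have hcount : ∀ y ∈ {y : G | y ∈ (P : Subgroup G) ∧ y ≠ 1}, pairCount t y = 5 := by
    intro y hy
    rw [pairCount_invert (P : Subgroup G) (by rw [hP]; decide) t ht2 htP y hy.1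
      (hcent y hy.1 hy.2), hP]
  have hCF : (5 : ℂ) * ((Nat.card (Subgroup.centralizer ({t} : Set G)) : ℕ) : ℂ) ^ 2 =
      4320 * (1 + (εX χ₁ : ℂ) * (kf χ₁ : ℂ) ^ 2 / ((charDegree (χ₁ : G → ℂ) : ℕ) : ℂ)
        + (εX χ₂ : ℂ) * (kf χ₂ : ℂ) ^ 2 / ((charDegree (χ₂ : G → ℂ) : ℕ) : ℂ)
        + (εX χ₃ : ℂ) * (kf χ₃ : ℂ) ^ 2 / ((charDegree (χ₃ : G → ℂ) : ℕ) : ℂ)
        - (ε : ℂ) * (kf θ : ℂ) ^ 2 / ((charDegree (θ : G → ℂ) : ℕ) : ℂ)) := by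
    have h := class_formula {y : G | y ∈ (P : Subgroup G) ∧ y ≠ 1} t 5 hcount
      ({trivIrr G, χ₁, χ₂, χ₃, θ} : Finset (IrrCharacter G)) c (by simp) hvan
    rw [hsum5 ℂ, hc0, hc1, hc2, hc3, hcθ, hkf1 (trivIrr G), hkf1 χ₁, hkf1 χ₂, hkf1 χ₃, hkf1 θ,
      hk0, Cfsg.Agent.Lib.Helper83.trivIrr_apply, hdC χ₁, hdC χ₂, hdC χ₃, hdC θ, hcard] at h
    push_cast at h
    linear_combination h
  have hformC : (5 : ℂ) * ((Nat.card (Subgroup.centralizer ({t} : Set G)) : ℕ) : ℂ) ^ 2 *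
      (((charDegree (χ₁ : G → ℂ) : ℕ) : ℂ) * ((charDegree (χ₂ : G → ℂ) : ℕ) : ℂ) *
        ((charDegree (χ₃ : G → ℂ) : ℕ) : ℂ) * ((charDegree (θ : G → ℂ) : ℕ) : ℂ)) =
      4320 * (((charDegree (χ₁ : G → ℂ) : ℕ) : ℂ) * ((charDegree (χ₂ : G → ℂ) : ℕ) : ℂ) *
        ((charDegree (χ₃ : G → ℂ) : ℕ) : ℂ) * ((charDegree (θ : G → ℂ) : ℕ) : ℂ)
        + (εX χ₁ : ℂ) * (kf χ₁ : ℂ) ^ 2 * (((charDegree (χ₂ : G → ℂ) : ℕ) : ℂ) *
          ((charDegree (χ₃ : G → ℂ) : ℕ) : ℂ) * ((charDegree (θ : G → ℂ) : ℕ) : ℂ))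
        + (εX χ₂ : ℂ) * (kf χ₂ : ℂ) ^ 2 * (((charDegree (χ₁ : G → ℂ) : ℕ) : ℂ) *
          ((charDegree (χ₃ : G → ℂ) : ℕ) : ℂ) * ((charDegree (θ : G → ℂ) : ℕ) : ℂ))
        + (εX χ₃ : ℂ) * (kf χ₃ : ℂ) ^ 2 * (((charDegree (χ₁ : G → ℂ) : ℕ) : ℂ) *
          ((charDegree (χ₂ : G → ℂ) : ℕ) : ℂ) * ((charDegree (θ : G → ℂ) : ℕ) : ℂ))
        - (ε : ℂ) * (kf θ : ℂ) ^ 2 * (((charDegree (χ₁ : G → ℂ) : ℕ) : ℂ) *
          ((charDegree (χ₂ : G → ℂ) : ℕ) : ℂ) * ((charDegree (χ₃ : G → ℂ) : ℕ) : ℂ))) := by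
    have e1 := hd0 χ₁
    have e2 := hd0 χ₂
    have e3 := hd0 χ₃
    have e4 := hd0 θ
    rw [hCF]
    field_simp
  have hform : 5 * ((Nat.card (Subgroup.centralizer ({t} : Set G)) : ℕ) : ℤ) ^ 2 *
      (((charDegree (χ₁ : G → ℂ) : ℕ) : ℤ) * (charDegree (χ₂ : G → ℂ) : ℕ) *
        (charDegree (χ₃ : G → ℂ) : ℕ) * (charDegree (θ : G → ℂ) : ℕ)) =
      4320 * (((charDegree (χ₁ : G → ℂ) : ℕ) : ℤ) * (charDegree (χ₂ : G → ℂ) : ℕ) *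
        (charDegree (χ₃ : G → ℂ) : ℕ) * (charDegree (θ : G → ℂ) : ℕ)
        + εX χ₁ * kf χ₁ ^ 2 * (((charDegree (χ₂ : G → ℂ) : ℕ) : ℤ) *
          (charDegree (χ₃ : G → ℂ) : ℕ) * (charDegree (θ : G → ℂ) : ℕ))
        + εX χ₂ * kf χ₂ ^ 2 * (((charDegree (χ₁ : G → ℂ) : ℕ) : ℤ) *
          (charDegree (χ₃ : G → ℂ) : ℕ) * (charDegree (θ : G → ℂ) : ℕ))
        + εX χ₃ * kf χ₃ ^ 2 * (((charDegree (χ₁ : G → ℂ) : ℕ) : ℤ) *
          (charDegree (χ₂ : G → ℂ) : ℕ) * (charDegree (θ : G → ℂ) : ℕ))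
        - ε * kf θ ^ 2 * (((charDegree (χ₁ : G → ℂ) : ℕ) : ℤ) *
          (charDegree (χ₂ : G → ℂ) : ℕ) * (charDegree (χ₃ : G → ℂ) : ℕ))) := by
    exact_mod_cast hformC
  have hcol := col_bound t ({trivIrr G, χ₁, χ₂, χ₃, θ} : Finset (IrrCharacter G)) kf
    (fun φ _ => hkf1 φ)
  rw [hsum5 ℤ, hk0] at hcol
  have hdvd : ∀ φ : IrrCharacter G, charDegree (φ : G → ℂ) ∣ 4320 := by
    intro φ
    have h := Cfsg.Agent.Lib.Helper82.irr_degree_dvd_card φ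
    rwa [hcard] at h
  have hsq : ∀ φ : IrrCharacter G, φ ≠ trivIrr G →
      charDegree (φ : G → ℂ) * charDegree (φ : G → ℂ) < 4320 := by
    intro φ hφ
    have h := Cfsg.Agent.Lib.Helper5.BQ.deg_sq_lt φ hφ
    rwa [hcard] at h
  have hmod : ∀ χ ∈ X, (charDegree (χ : G → ℂ) : ℤ) ≡ εX χ [ZMOD 5] := by
    intro χ hχ
    have h := hD.degX χ hχ
    exact_mod_cast h
  have hmodθ : (charDegree (θ : G → ℂ) : ℤ) ≡ ε * 4 [ZMOD 5] := by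
    have h := hD.degY θ hθY
    exact_mod_cast h
  have hdeg : ε * (charDegree (θ : G → ℂ) : ℤ) = 1 + εX χ₁ * (charDegree (χ₁ : G → ℂ) : ℤ)
      + εX χ₂ * (charDegree (χ₂ : G → ℂ) : ℤ) + εX χ₃ * (charDegree (χ₃ : G → ℂ) : ℤ) := by
    have h := hrel 1 h1reg
    rw [hdC θ, hdC χ₁, hdC χ₂, hdC χ₃] at h
    exact_mod_cast h
  have hval : ε * kf θ = 1 + εX χ₁ * kf χ₁ + εX χ₂ * kf χ₂ + εX χ₃ * kf χ₃ := by
    have h := hrel t htreg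
    rw [hkf1 θ, hkf1 χ₁, hkf1 χ₂, hkf1 χ₃] at h
    exact_mod_cast h
  exact arn (charDegree (χ₁ : G → ℂ)) (charDegree (χ₂ : G → ℂ)) (charDegree (χ₃ : G → ℂ))
    (charDegree (θ : G → ℂ)) (Nat.card (Subgroup.centralizer ({t} : Set G)))
    (εX χ₁) (εX χ₂) (εX χ₃) ε (kf χ₁) (kf χ₂) (kf χ₃) (kf θ)
    (hD.signX χ₁ hχ₁X) (hD.signX χ₂ hχ₂X) (hD.signX χ₃ hχ₃X) hD.signY
    (hdvd χ₁) (hdvd χ₂) (hdvd χ₃) (hdvd θ)
    (hsq χ₁ hχ₁t) (hsq χ₂ hχ₂t) (hsq χ₃ hχ₃t) (hsq θ hθt)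
    (hmod χ₁ hχ₁X) (hmod χ₂ hχ₂X) (hmod χ₃ hχ₃X) hmodθ
    hdeg hval
    (hkf2 χ₁) (hkf2 χ₂) (hkf2 χ₃) (hkf2 θ)
    (hkf3 χ₁) (hkf3 χ₂) (hkf3 χ₃) (hkf3 θ)
    (hkne χ₁ hχ₁t) (hkne χ₂ hχ₂t) (hkne χ₃ hχ₃t) (hkne θ hθt)
    hform (by linarith [hcol])

end Cfsg.Agent.Lib.Helper80.Cole
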