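import Mathlib
import Cfsg.Agent.Lib.Helper10.BR0
import Cfsg.Agent.Lib.Helper22.DOne2
import Cfsg.Agent.Lib.Helper82.PQ
import Cfsg.Agent.Lib.Helper82.CharCore
import Cfsg.Agent.Lib.Helper66.BQX1
import Cfsg.Agent.Lib.Helper30.BQX5
import Cfsg.Agent.Lib.Helper92.BRX2
import Cfsg.Agent.Lib.Helper79.DefZero
import Cfsg.Agent.Lib.Helper80.CoVALMOD
import Cfsg.Agent.Lib.Helper80.CoDEG1
import Cfsg.Agent.Lib.Helper80.CoBLK

/-!
# Cole-range orders (S0977: 4320, S0980: 5760), piece L96 (project of helper80; proof by helper13)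

Order `5760`, `|C_G(P)| = 15`, `|N_G(P)| = 60` for a Sylow `5`-subgroup `P`: the principal
`5`-block has three nontrivial non-exceptional characters whose degrees divide `384` and one
exceptional character `θ`; the arithmetic forces `θ(1) = 9`, so `θ` has `3`-defect zero and
vanishes at an element `y` of order `3` in `C_G(P)`; the block relation at `y` together with the
congruences of the non-exceptional characters modulo `5` gives that `4 / 5` is an algebraic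
integer.
-/

set_option autoImplicit false
set_option linter.style.haveILetI false

namespace Cfsg.Agent.Lib.Helper80.Cole

open Cfsg
open Cfsg.Agent.Lib.Helper83 (trivIrr)
open Cfsg.Agent.Lib.Helper10.BR (DOut)

universe u

/-- one non-exceptional degree -/
theorem col96_deg (d : ℕ) (s : ℤ) (hs : s = 1 ∨ s = -1) (hdvd : d ∣ 384) (h2 : 2 ≤ d)
    (hsq : d * d < 5760) (hmod : (d : ℤ) ≡ s [ZMOD 5]) :
    (d = 4 ∧ s = -1) ∨ (d = 6 ∧ s = 1) ∨ (d = 16 ∧ s = 1) ∨ (d = 24 ∧ s = -1) ∨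
      (d = 64 ∧ s = -1) := by
  have hle : d ≤ 75 := by nlinarith
  unfold Int.ModEq at hmod
  interval_cases d <;> rcases hs with rfl | rfl <;> omega

/-- the exceptional degree -/
theorem col96_degY (d : ℕ) (ε : ℤ) (hε : ε = 1 ∨ ε = -1) (hdvd : d ∣ 5760) (h2 : 2 ≤ d)
    (hsq : d * d < 5760) (hmod : (d : ℤ) ≡ ε * 4 [ZMOD 5]) :
    (d = 4 ∧ ε = 1) ∨ (d = 6 ∧ ε = -1) ∨ (d = 9 ∧ ε = 1) ∨ (d = 16 ∧ ε = -1) ∨
      (d = 24 ∧ ε = 1) ∨ (d = 36 ∧ ε = -1) ∨ (d = 64 ∧ ε = 1) := by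
  have hle : d ≤ 75 := by nlinarith
  unfold Int.ModEq at hmod
  interval_cases d <;> rcases hε with rfl | rfl <;> omega

/-- the exceptional degree is `9` -/
theorem col96_arith (d₁ d₂ d₃ dθ : ℕ) (s₁ s₂ s₃ ε : ℤ)
    (h₁ : (d₁ = 4 ∧ s₁ = -1) ∨ (d₁ = 6 ∧ s₁ = 1) ∨ (d₁ = 16 ∧ s₁ = 1) ∨ (d₁ = 24 ∧ s₁ = -1) ∨
      (d₁ = 64 ∧ s₁ = -1))
    (h₂ : (d₂ = 4 ∧ s₂ = -1) ∨ (d₂ = 6 ∧ s₂ = 1) ∨ (d₂ = 16 ∧ s₂ = 1) ∨ (d₂ = 24 ∧ s₂ = -1) ∨
      (d₂ = 64 ∧ s₂ = -1))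
    (h₃ : (d₃ = 4 ∧ s₃ = -1) ∨ (d₃ = 6 ∧ s₃ = 1) ∨ (d₃ = 16 ∧ s₃ = 1) ∨ (d₃ = 24 ∧ s₃ = -1) ∨
      (d₃ = 64 ∧ s₃ = -1))
    (hθ : (dθ = 4 ∧ ε = 1) ∨ (dθ = 6 ∧ ε = -1) ∨ (dθ = 9 ∧ ε = 1) ∨ (dθ = 16 ∧ ε = -1) ∨
      (dθ = 24 ∧ ε = 1) ∨ (dθ = 36 ∧ ε = -1) ∨ (dθ = 64 ∧ ε = 1))
    (hrel : ε * (dθ : ℤ) = 1 + s₁ * d₁ + s₂ * d₂ + s₃ * d₃) : dθ = 9 := by
  rcases h₁ with ⟨rfl, rfl⟩ | ⟨rfl, rfl⟩ | ⟨rfl, rfl⟩ | ⟨rfl, rfl⟩ | ⟨rfl, rfl⟩ <;>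
  rcases h₂ with ⟨rfl, rfl⟩ | ⟨rfl, rfl⟩ | ⟨rfl, rfl⟩ | ⟨rfl, rfl⟩ | ⟨rfl, rfl⟩ <;>
  rcases h₃ with ⟨rfl, rfl⟩ | ⟨rfl, rfl⟩ | ⟨rfl, rfl⟩ | ⟨rfl, rfl⟩ | ⟨rfl, rfl⟩ <;>
  rcases hθ with ⟨rfl, rfl⟩ | ⟨rfl, rfl⟩ | ⟨rfl, rfl⟩ | ⟨rfl, rfl⟩ | ⟨rfl, rfl⟩ | ⟨rfl, rfl⟩ |
    ⟨rfl, rfl⟩ <;>
  omega

/-- a simple group of order `5760` is not cyclic -/
theorem col96_not_cyclic {G : Type u} [Group G] [Finite G] [IsSimpleGroup G]
    (hcard : Nat.card G = 5760) : ¬ IsCyclic G := by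
  intro hc
  have hcomm : ∀ a b : G, a * b = b * a := by
    obtain ⟨g, hg⟩ := hc.exists_generator
    intro a b
    obtain ⟨i, rfl⟩ := Subgroup.mem_zpowers_iff.mp (hg a)
    obtain ⟨j, rfl⟩ := Subgroup.mem_zpowers_iff.mp (hg b)
    rw [← zpow_add, ← zpow_add, add_comm]
  let _ : CommGroup G := { ‹Group G› with mul_comm := hcomm }
  have hpr : (Nat.card G).Prime := IsSimpleGroup.prime_card
  rw [hcard] at hpr
  norm_num at hpr

/-- L96: order 5760, `|C_G(P)| = 15`, `|N_G(P)| = 60` is impossible. -/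
theorem l96_false {G : Type u} [Group G] [Finite G] [IsSimpleGroup G]
    (hcard : Nat.card G = 5760) (P : Sylow 5 G) (hP : Nat.card P = 5)
    (hC : Nat.card (Subgroup.centralizer ((P : Subgroup G) : Set G)) = 15)
    (hN : Nat.card (Subgroup.normalizer ((P : Subgroup G) : Set G)) = 60) : False := by
  classical
  haveI : Fact (Nat.Prime 5) := ⟨by norm_num⟩
  haveI : Fact (Nat.Prime 3) := ⟨by norm_num⟩
  letI : Fintype G := Fintype.ofFinite G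
  have hG : ¬ IsCyclic G := col96_not_cyclic hcard
  have hCN : Subgroup.centralizer ((P : Subgroup G) : Set G) ≤
      Subgroup.normalizer ((P : Subgroup G) : Set G) := Subgroup.centralizer_le_normalizer _
  have hedef : (Subgroup.centralizer ((P : Subgroup G) : Set G)).relIndex
      (Subgroup.normalizer ((P : Subgroup G) : Set G)) = 4 := by
    have h1 := Subgroup.card_mul_index ((Subgroup.centralizer ((P : Subgroup G) : Set G)).subgroupOf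
      (Subgroup.normalizer ((P : Subgroup G) : Set G)))
    have h2 : Nat.card ((Subgroup.centralizer ((P : Subgroup G) : Set G)).subgroupOf
        (Subgroup.normalizer ((P : Subgroup G) : Set G))) = 15 := by
      rw [Nat.card_congr (Subgroup.subgroupOfEquivOfLe hCN).toEquiv, hC]
    rw [h2, hN] at h1
    unfold Subgroup.relIndex
    omega
  have hidx : (Subgroup.centralizer ((P : Subgroup G) : Set G)).index = 384 := by
    have h1 := Subgroup.card_mul_index (Subgroup.centralizer ((P : Subgroup G) : Set G))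
    rw [hC, hcard] at h1
    omega
  obtain ⟨M, hM⟩ := Cfsg.Agent.Lib.Helper82.exists_isPModular 5
  obtain ⟨X0, Y0, hblock, hdisj, hcX, hcY, εX0, ε0, hX, hε0, hdY, hregY, ht1⟩ :=
    Cfsg.Agent.Lib.Helper22.DOne.core 5 M hM P hP 4 hedef
  have hD0 : DOut G 5 M (P : Subgroup G) 4 X0 Y0 εX0 ε0 :=
    ⟨hblock, hdisj, hcX, hcY, fun χ hχ => (hX χ hχ).1, fun χ hχ => (hX χ hχ).2.1,
      fun χ hχ => (hX χ hχ).2.2, hε0, hdY, hregY, ht1⟩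
  obtain ⟨X, Y, εX, ε, hD, htriv, hεt⟩ :=
    Cfsg.Agent.Lib.Helper5.BQ.triv_mem_gen hG 5 (le_refl 5) M hM (P : Subgroup G) hP 4
      (by norm_num) X0 Y0 εX0 ε0 hD0
  obtain ⟨χ₁, χ₂, χ₃, θ, hχ₁, hχ₂, hχ₃, hθ, h₁t, h₂t, h₃t, hθt, -, -, -, -, -, -, hrel⟩ :=
    blk4 5 (le_refl 5) M (P : Subgroup G) X Y εX ε hD htriv hεt
  have hreg1 : ¬ 5 ∣ orderOf (1 : G) := by
    rw [orderOf_one]
    norm_num
  -- the non-exceptional degrees
  have hdeg : ∀ χ ∈ X, χ ≠ trivIrr G →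
      (charDegree (χ : G → ℂ) = 4 ∧ εX χ = -1) ∨ (charDegree (χ : G → ℂ) = 6 ∧ εX χ = 1) ∨
      (charDegree (χ : G → ℂ) = 16 ∧ εX χ = 1) ∨ (charDegree (χ : G → ℂ) = 24 ∧ εX χ = -1) ∨
      (charDegree (χ : G → ℂ) = 64 ∧ εX χ = -1) := by
    intro χ hχ hne
    have hs := hD.signX χ hχ
    have hval1 : ∀ x ∈ (P : Subgroup G), x ≠ 1 → (χ : G → ℂ) x = (εX χ : ℂ) := by
      intro x hx hx1
      have h := hD.valX χ hχ x hx hx1 1 (one_mem _) hreg1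
      rwa [mul_one] at h
    have hdvd := Cfsg.Agent.Lib.Helper10.BR.deg_dvd 5 (by norm_num) (P : Subgroup G) hP χ (εX χ)
      hs hval1
    rw [hidx] at hdvd
    have h2 := deg_ge_two hG χ hne
    have hsq := Cfsg.Agent.Lib.Helper5.BQ.deg_sq_lt χ hne
    rw [hcard] at hsq
    have hmod : (charDegree (χ : G → ℂ) : ℤ) ≡ εX χ [ZMOD 5] := by
      have h := hD.degX χ hχ
      exact_mod_cast h
    exact col96_deg _ _ hs hdvd h2 hsq hmod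
  have hdegθ : (charDegree (θ : G → ℂ) = 4 ∧ ε = 1) ∨ (charDegree (θ : G → ℂ) = 6 ∧ ε = -1) ∨
      (charDegree (θ : G → ℂ) = 9 ∧ ε = 1) ∨ (charDegree (θ : G → ℂ) = 16 ∧ ε = -1) ∨
      (charDegree (θ : G → ℂ) = 24 ∧ ε = 1) ∨ (charDegree (θ : G → ℂ) = 36 ∧ ε = -1) ∨
      (charDegree (θ : G → ℂ) = 64 ∧ ε = 1) := by
    have hdvd := Cfsg.Agent.Lib.Helper82.irr_degree_dvd_card θ
    rw [hcard] at hdvd
    have h2 := deg_ge_two hG θ hθt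
    have hsq := Cfsg.Agent.Lib.Helper5.BQ.deg_sq_lt θ hθt
    rw [hcard] at hsq
    have hmod : (charDegree (θ : G → ℂ) : ℤ) ≡ ε * 4 [ZMOD 5] := by
      have h := hD.degY θ hθ
      exact_mod_cast h
    exact col96_degY _ _ hD.signY hdvd h2 hsq hmod
  have hone : ∀ χ : IrrCharacter G, (χ : G → ℂ) 1 = ((charDegree (χ : G → ℂ) : ℕ) : ℂ) :=
    fun χ => ((Cfsg.Agent.Lib.Helper82.irr_charDegree χ).1).symm
  have hrel1 : ε * (charDegree (θ : G → ℂ) : ℤ) = 1 + εX χ₁ * (charDegree (χ₁ : G → ℂ) : ℤ) +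
      εX χ₂ * (charDegree (χ₂ : G → ℂ) : ℤ) + εX χ₃ * (charDegree (χ₃ : G → ℂ) : ℤ) := by
    have h := hrel 1 hreg1
    rw [hone θ, hone χ₁, hone χ₂, hone χ₃] at h
    exact_mod_cast h
  have hdθ : charDegree (θ : G → ℂ) = 9 :=
    col96_arith _ _ _ _ _ _ _ _ (hdeg χ₁ hχ₁ h₁t) (hdeg χ₂ hχ₂ h₂t) (hdeg χ₃ hχ₃ h₃t) hdegθ hrel1
  -- `θ` has `3`-defect zero
  have hfact : 3 ^ (Nat.card G).factorization 3 ∣ charDegree (θ : G → ℂ) := by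
    rw [hdθ, hcard]
    have h1 : 3 ^ (5760).factorization 3 ∣ 5760 := Nat.ordProj_dvd 5760 3
    have h2 : (5760).factorization 3 ≤ 2 := by
      by_contra hcon
      push Not at hcon
      have h3 : 3 ^ 3 ∣ 5760 := (pow_dvd_pow 3 hcon).trans h1
      norm_num at h3
    exact (pow_dvd_pow 3 h2).trans (by norm_num)
  obtain ⟨y, hy, hy3⟩ : ∃ y : G, y ∈ Subgroup.centralizer ((P : Subgroup G) : Set G) ∧
      orderOf y = 3 := by
    obtain ⟨z, hz⟩ := exists_prime_orderOf_dvd_card' (G := Subgroup.centralizer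
      ((P : Subgroup G) : Set G)) 3 (by rw [hC]; norm_num)
    exact ⟨z, z.2, by rw [← hz, Subgroup.orderOf_coe]⟩
  have hyreg : ¬ 5 ∣ orderOf y := by
    rw [hy3]
    norm_num
  have hθy : (θ : G → ℂ) y = 0 :=
    Cfsg.Agent.Lib.Helper79.irr_eq_zero_of_defect_zero 3 θ hfact y (by rw [hy3])
  have hr := hrel y hyreg
  rw [hθy, mul_zero] at hr
  have hvm : ∀ χ ∈ X, ∃ a : ℂ, IsIntegral ℤ a ∧
      (χ : G → ℂ) y = (εX χ : ℂ) + ((5 : ℕ) : ℂ) * a ∧ (εX χ : ℂ) * (εX χ : ℂ) = 1 := by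
    intro χ hχ
    obtain ⟨a, ha, hv⟩ := val_mod 5 (P : Subgroup G) hP χ (εX χ) y hy
      (fun x hx hx1 => hD.valX χ hχ x hx hx1 y hy hyreg)
    refine ⟨a, ha, hv, ?_⟩
    rcases hD.signX χ hχ with h | h <;> rw [h] <;> norm_num
  obtain ⟨a₁, ha₁, hv₁, hs₁⟩ := hvm χ₁ hχ₁
  obtain ⟨a₂, ha₂, hv₂, hs₂⟩ := hvm χ₂ hχ₂
  obtain ⟨a₃, ha₃, hv₃, hs₃⟩ := hvm χ₃ hχ₃
  rw [hv₁, hv₂, hv₃] at hr
  have hint : IsIntegral ℤ (((4 : ℕ) : ℂ) / ((5 : ℕ) : ℂ)) := by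
    have heq : ((4 : ℕ) : ℂ) / ((5 : ℕ) : ℂ) =
        -((εX χ₁ : ℂ) * a₁ + (εX χ₂ : ℂ) * a₂ + (εX χ₃ : ℂ) * a₃) := by
      rw [div_eq_iff (by norm_num)]
      push_cast
      push_cast at hr
      linear_combination (-1 : ℂ) * hr - hs₁ - hs₂ - hs₃
    rw [heq]
    exact IsIntegral.neg (IsIntegral.add (IsIntegral.add
      (IsIntegral.mul (isIntegral_intCast _) ha₁) (IsIntegral.mul (isIntegral_intCast _) ha₂))
      (IsIntegral.mul (isIntegral_intCast _) ha₃))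
  have h45 := Cfsg.Agent.Lib.Helper82.isIntegral_div_imp_dvd 4 5 (by norm_num) hint
  omega

end Cfsg.Agent.Lib.Helper80.Cole
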