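import Mathlib
import Cfsg.Agent.S4565

set_option autoImplicit false

open Cfsg
open scoped ComplexConjugate

namespace Cfsg.Agent.Lib.Helper80.FullRam

open Cfsg.Agent.Lib

section cjsec

variable {H : Type*} [Group H]

/-- conjugation equivalence of `D` by a normalizing element -/
def cjEquiv (D : Subgroup H) (g : H) (hg : g ∈ Subgroup.normalizer (D : Set H)) : D ≃* D where
  toFun d := ⟨g * d * g⁻¹, (Subgroup.mem_normalizer_iff.mp hg d).mp d.2⟩
  invFun d := ⟨g⁻¹ * d * g, (Subgroup.mem_normalizer_iff''.mp hg d).mp d.2⟩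
  left_inv d := by apply Subtype.ext; simp [mul_assoc]
  right_inv d := by apply Subtype.ext; simp [mul_assoc]
  map_mul' a b := by apply Subtype.ext; simp [mul_assoc]

/-- the conjugate of a function on `D` (zero-extended, so total in `g`) -/
noncomputable def cj (D : Subgroup H) (g : H) (α : D → ℂ) : D → ℂ :=
  fun d => extendByZero D α (g * d * g⁻¹)

theorem cj_eq (D : Subgroup H) (g : H) (hg : g ∈ Subgroup.normalizer (D : Set H)) (α : D → ℂ) :
    cj D g α = fun d => α (cjEquiv D g hg d) := by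
  funext d
  exact Helper35.ext_mem D α _ ((Subgroup.mem_normalizer_iff.mp hg d).mp d.2)

theorem cj_irr (D : Subgroup H) (g : H) (hg : g ∈ Subgroup.normalizer (D : Set H)) {α : D → ℂ}
    (hα : IsIrrCharacter D α) : IsIrrCharacter D (cj D g α) := by
  rw [cj_eq D g hg]
  exact Helper20.irr_comp_surjective (cjEquiv D g hg).toMonoidHom (cjEquiv D g hg).surjective hα

theorem cj_one (D : Subgroup H) (α : D → ℂ) : cj D 1 α = α := by
  funext d
  unfold cj
  rw [show (1 : H) * d * (1 : H)⁻¹ = d by simp]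
  exact Helper35.ext_coe D α d

theorem cj_cj (D : Subgroup H) (g g' : H) (hg : g ∈ Subgroup.normalizer (D : Set H))
    (hg' : g' ∈ Subgroup.normalizer (D : Set H)) (α : D → ℂ) :
    cj D g (cj D g' α) = cj D (g' * g) α := by
  rw [cj_eq D g hg, cj_eq D g' hg', cj_eq D (g' * g) (mul_mem hg' hg)]
  funext d
  show α (cjEquiv D g' hg' (cjEquiv D g hg d)) = α (cjEquiv D (g' * g) (mul_mem hg' hg) d)
  congr 1
  apply Subtype.ext
  simp [cjEquiv, mul_assoc]

theorem cj_mem (D : Subgroup H) (g : H) (hg : g ∈ D) {α : D → ℂ} (hα : IsClassFunction D α) :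
    cj D g α = α := by
  rw [cj_eq D g (Subgroup.le_normalizer hg)]
  funext d
  exact hα d ⟨g, hg⟩

theorem classInner_res_cj (D : Subgroup H) [Fintype D] (g : H)
    (hg : g ∈ Subgroup.normalizer (D : Set H)) {χ : H → ℂ} (hχ : IsClassFunction H χ)
    (α : D → ℂ) :
    classInner (fun d : D => χ d) (cj D g α) = classInner (fun d : D => χ d) α := by
  rw [cj_eq D g hg]
  unfold classInner
  congr 1
  rw [← Equiv.sum_comp (cjEquiv D g hg).toEquiv (fun d => χ d * conj (α d))]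
  refine Finset.sum_congr rfl fun d _ => ?_
  have h : χ ((cjEquiv D g hg d : D) : H) = χ d := hχ d g
  show χ d * conj (α (cjEquiv D g hg d)) = χ ((cjEquiv D g hg d : D) : H) * conj (α (cjEquiv D g hg d))
  rw [h]

/-- the stabilizer of a function on `D` in the normalizer of `D` -/
noncomputable def stab (D : Subgroup H) (δ : D → ℂ) : Subgroup H where
  carrier := {g | g ∈ Subgroup.normalizer (D : Set H) ∧ cj D g δ = δ}
  one_mem' := ⟨one_mem _, cj_one D δ⟩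
  mul_mem' := by
    rintro a b ⟨ha, ha'⟩ ⟨hb, hb'⟩
    refine ⟨mul_mem ha hb, ?_⟩
    rw [← cj_cj D b a hb ha, ha', hb']
  inv_mem' := by
    rintro a ⟨ha, ha'⟩
    refine ⟨inv_mem ha, ?_⟩
    have h := cj_cj D a⁻¹ a (inv_mem ha) ha δ
    rw [ha', mul_inv_cancel, cj_one] at h
    exact h

theorem mem_stab (D : Subgroup H) (δ : D → ℂ) (g : H) :
    g ∈ stab D δ ↔ g ∈ Subgroup.normalizer (D : Set H) ∧ cj D g δ = δ := Iff.rfl

theorem le_stab (D : Subgroup H) {δ : D → ℂ} (hδ : IsClassFunction D δ) : D ≤ stab D δ :=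
  fun g hg => ⟨Subgroup.le_normalizer hg, cj_mem D g hg hδ⟩

end cjsec

section inner

variable {H : Type*} [Group H]

/-- inner products with a function vanishing off `Z` are computed on `Z` -/
theorem inner_res (Z : Subgroup H) [Fintype Z] (χ : H → ℂ) (hvan : ∀ h, h ∉ Z → χ h = 0)
    (θ : Z → ℂ) (e : ℂ) (hres : ∀ z : Z, χ z = e * θ z) (X : Subgroup H) [Fintype X]
    (hZX : Z ≤ X) (ζ : X → ℂ) :
    (Nat.card X : ℂ) * classInner (fun x : X => χ x) ζ =
      e * ((Nat.card Z : ℂ) * classInner θ (fun z : Z => ζ ⟨z, hZX z.2⟩)) := by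
  classical
  have hX : (Nat.card X : ℂ) ≠ 0 := by exact_mod_cast (Nat.card_pos (α := X)).ne'
  have hZ : (Nat.card Z : ℂ) ≠ 0 := by exact_mod_cast (Nat.card_pos (α := Z)).ne'
  unfold classInner
  rw [mul_inv_cancel_left₀ hX, mul_inv_cancel_left₀ hZ]
  have h1 : ∑ z : Z, χ z * conj (ζ ⟨z, hZX z.2⟩) = ∑ x : X, χ x * conj (ζ x) := by
    refine Finset.sum_of_injOn (fun z : Z => (⟨z, hZX z.2⟩ : X)) ?_ ?_ ?_ ?_
    · intro a _ b _ hab
      exact Subtype.ext (by simpa using congrArg (fun x : X => (x : H)) hab)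
    · intro a _; exact Finset.mem_coe.mpr (Finset.mem_univ _)
    · intro x _ hx
      have : (x : H) ∉ Z := fun hz => hx ⟨⟨x, hz⟩, Finset.mem_coe.mpr (Finset.mem_univ _), rfl⟩
      rw [hvan _ this, zero_mul]
    · intro z _; rfl
  rw [← h1, Finset.mul_sum]
  refine Finset.sum_congr rfl fun z _ => ?_
  rw [hres z]; ring

/-- the norm of the restriction -/
theorem norm_res (Z : Subgroup H) [Fintype Z] (χ : H → ℂ) (hvan : ∀ h, h ∉ Z → χ h = 0)
    (θ : Z → ℂ) (hθ : IsIrrCharacter Z θ) (e : ℕ) (hres : ∀ z : Z, χ z = (e : ℂ) * θ z)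
    (X : Subgroup H) [Fintype X] (hZX : Z ≤ X) :
    (Nat.card X : ℂ) * classInner (fun x : X => χ x) (fun x : X => χ x) =
      (e : ℂ) ^ 2 * (Nat.card Z : ℂ) := by
  rw [inner_res Z χ hvan θ (e : ℂ) hres X hZX (fun x : X => χ x)]
  have h2 : (fun z : Z => χ ((⟨z, hZX z.2⟩ : X) : H)) = (e : ℂ) • θ := by
    funext z
    rw [Pi.smul_apply, smul_eq_mul]
    exact hres z
  rw [h2, Helper35.classInner_smul_right, Helper35.classInner_irr' hθ hθ, if_pos rfl,
    Complex.conj_natCast]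
  ring

/-- integrality of the multiplicities -/
theorem exists_nat (Z : Subgroup H) [Fintype Z] (χ : H → ℂ) (hχ : IsCharacter H χ)
    (hvan : ∀ h, h ∉ Z → χ h = 0) (θ : Z → ℂ) (hθ : IsIrrCharacter Z θ) (e : ℕ)
    (hres : ∀ z : Z, χ z = (e : ℂ) * θ z) (X : Subgroup H) [Fintype X] (hZX : Z ≤ X)
    (ζ : X → ℂ) (hζ : IsCharacter X ζ) :
    ∃ a r : ℕ, classInner (fun x : X => χ x) ζ = a ∧ Nat.card X * a = e * (Nat.card Z * r) := by
  obtain ⟨a, ha⟩ := Helper35.classInner_char_nat (Helper35.isCharacter_res X hχ) hζ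
  have hζZ : IsCharacter Z (fun z : Z => ζ ⟨z, hZX z.2⟩) :=
    Helper20.isCharacter_comp (Subgroup.inclusion hZX) hζ
  obtain ⟨r, hr⟩ := Helper35.classInner_char_nat (Helper35.isChar_of_irr hθ) hζZ
  have ha' : classInner (fun x : X => χ x) ζ = a := ha
  refine ⟨a, r, ha', ?_⟩
  have h := inner_res Z χ hvan θ (e : ℂ) hres X hZX ζ
  rw [ha', hr] at h
  exact_mod_cast h

theorem lower_bound {p cX cZ e a r m b i : ℕ} (hcZ : 0 < cZ)
    (h1 : cX * a = e * (cZ * r)) (hX : cX = p ^ i * cZ) (he : e ^ 2 = m * p ^ b)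
    (hm : m.Coprime p) (ha : a ≠ 0) : m ≤ a ^ 2 := by
  have h2 : p ^ i * a = e * r := by
    have : cZ * (p ^ i * a) = cZ * (e * r) := by rw [hX] at h1; linarith
    exact Nat.eq_of_mul_eq_mul_left hcZ this
  have h3 : (p ^ i) ^ 2 * a ^ 2 = m * (p ^ b * r ^ 2) := by
    calc (p ^ i) ^ 2 * a ^ 2 = (p ^ i * a) ^ 2 := by ring
      _ = (e * r) ^ 2 := by rw [h2]
      _ = e ^ 2 * r ^ 2 := by ring
      _ = m * (p ^ b * r ^ 2) := by rw [he]; ring
  have h4 : m ∣ (p ^ i) ^ 2 * a ^ 2 := ⟨_, h3⟩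
  have h5 : m.Coprime ((p ^ i) ^ 2) := Nat.Coprime.pow_right _ (Nat.Coprime.pow_right _ hm)
  have h6 : m ∣ a ^ 2 := h5.dvd_of_dvd_mul_left h4
  exact Nat.le_of_dvd (by positivity) h6

end inner

section bessel

variable {H : Type*} [Group H]

/-- Bessel's inequality for the conjugates of `δ` under `S` inside the restriction of `χ`. -/
theorem bessel (D : Subgroup H) [Fintype D] (S T : Subgroup H) [Finite S] [Finite T]
    (hSN : S ≤ Subgroup.normalizer (D : Set H)) {χ : H → ℂ} (hχ : IsCharacter H χ)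
    (δ : D → ℂ) (hδ : IsIrrCharacter D δ) (hT : ∀ s ∈ S, cj D s δ = δ → s ∈ T)
    (a nD : ℕ) (ha : classInner (fun d : D => χ d) δ = a)
    (hn : classInner (fun d : D => χ d) (fun d : D => χ d) = nD) :
    Nat.card S * a ^ 2 ≤ Nat.card T * nD ∧
    ∀ (ψ : D → ℂ) (_ : IsIrrCharacter D ψ) (b : ℕ), classInner (fun d : D => χ d) ψ = b →
      (∀ s ∈ S, ψ ≠ cj D s δ) → Nat.card S * a ^ 2 + Nat.card T * b ^ 2 ≤ Nat.card T * nD := by
  classical
  have hfin := Helper4.irr_finite (G := D)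
  let _ : Fintype (IrrCharacter D) := Fintype.ofFinite _
  let _ : Fintype S := Fintype.ofFinite _
  let _ : Fintype T := Fintype.ofFinite _
  have hχcf : IsClassFunction H χ := Helper35.isClassFunction_of_isCharacter hχ
  obtain ⟨m, hm⟩ := Helper4.exists_decomp_of_isCharacter _ (Helper35.isCharacter_res D hχ)
  have hm' : (fun d : D => χ d) = ∑ ψ : IrrCharacter D, (m ψ : ℂ) • (ψ : D → ℂ) := hm
  have hm1 : ∀ ψ : IrrCharacter D, classInner (fun d : D => χ d) (ψ : D → ℂ) = m ψ := by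
    intro ψ
    rw [hm']
    exact Helper4.classInner_sum_irr _ ψ
  have hm2 : nD = ∑ ψ : IrrCharacter D, (m ψ) ^ 2 := by
    have h1 : classInner (fun d : D => χ d) (fun d : D => χ d) =
        ∑ ψ : IrrCharacter D, (m ψ : ℂ) * conj (m ψ : ℂ) := by
      rw [hm']
      exact Helper4.classInner_sum_sum_irr _ _
    rw [hn] at h1
    have h2 : (nD : ℂ) = ((∑ ψ : IrrCharacter D, (m ψ) ^ 2 : ℕ) : ℂ) := by
      rw [h1]
      push_cast
      refine Finset.sum_congr rfl fun ψ _ => ?_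
      rw [Complex.conj_natCast]; ring
    exact_mod_cast h2
  -- the orbit
  let F : S → IrrCharacter D := fun s => ⟨cj D s δ, cj_irr D s (hSN s.2) hδ⟩
  let T' : Finset (IrrCharacter D) := Finset.univ.image F
  have hmT : ∀ ψ ∈ T', m ψ = a := by
    intro ψ hψ
    obtain ⟨s, -, rfl⟩ := Finset.mem_image.mp hψ
    have h1 := hm1 (F s)
    have h2 : classInner (fun d : D => χ d) (cj D s δ) = a := by
      rw [classInner_res_cj D s (hSN s.2) hχcf, ha]
    have h3 : ((m (F s) : ℕ) : ℂ) = a := by rw [← h1]; exact h2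
    exact_mod_cast h3
  have hcard : Nat.card S ≤ Nat.card T * T'.card := by
    rw [Nat.card_eq_fintype_card, ← Finset.card_univ]
    refine Finset.card_le_mul_card_image _ _ ?_
    intro ψ hψ
    obtain ⟨s₀, -, rfl⟩ := Finset.mem_image.mp hψ
    have hcT : Nat.card T = ((Finset.univ : Finset T).map (Function.Embedding.subtype _)).card := by
      rw [Finset.card_map, Finset.card_univ, Nat.card_eq_fintype_card]
    rw [hcT]
    refine Finset.card_le_card_of_injOn (fun s : S => (s : H) * (s₀ : H)⁻¹) ?_ ?_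
    · intro s hs
      have hs' : F s = F s₀ := (Finset.mem_filter.mp (Finset.mem_coe.mp hs)).2
      have h1 : cj D s δ = cj D s₀ δ := congrArg Subtype.val hs'
      have h2 : cj D ((s : H) * (s₀ : H)⁻¹) δ = δ := by
        rw [← cj_cj D (s₀ : H)⁻¹ s (inv_mem (hSN s₀.2)) (hSN s.2), h1,
          cj_cj D (s₀ : H)⁻¹ s₀ (inv_mem (hSN s₀.2)) (hSN s₀.2), mul_inv_cancel, cj_one]
      have h3 : (s : H) * (s₀ : H)⁻¹ ∈ T := hT _ (mul_mem s.2 (inv_mem s₀.2)) h2
      simp only [Finset.coe_map, Function.Embedding.coe_subtype, Finset.coe_univ, Set.image_univ,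
        Subtype.range_coe_subtype, Set.mem_ofPred_eq]
      exact h3
    · intro s _ s' _ hss
      have : (s : H) = s' := mul_right_cancel hss
      exact Subtype.ext this
  have hsumT : ∑ ψ ∈ T', (m ψ) ^ 2 = T'.card * a ^ 2 := by
    rw [Finset.sum_congr rfl (fun ψ hψ => by rw [hmT ψ hψ]), Finset.sum_const, smul_eq_mul]
  have hle : ∑ ψ ∈ T', (m ψ) ^ 2 ≤ ∑ ψ : IrrCharacter D, (m ψ) ^ 2 :=
    Finset.sum_le_sum_of_subset (Finset.subset_univ _)
  refine ⟨?_, ?_⟩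
  · calc Nat.card S * a ^ 2 ≤ Nat.card T * T'.card * a ^ 2 := Nat.mul_le_mul_right _ hcard
      _ = Nat.card T * (T'.card * a ^ 2) := by ring
      _ ≤ Nat.card T * nD := by rw [hm2, ← hsumT]; exact Nat.mul_le_mul_left _ hle
  · intro ψ hψ b hb hne
    have hψT : (⟨ψ, hψ⟩ : IrrCharacter D) ∉ T' := by
      intro h
      obtain ⟨s, -, hs⟩ := Finset.mem_image.mp h
      exact hne s s.2 (congrArg Subtype.val hs).symm
    have hmψ : m ⟨ψ, hψ⟩ = b := by
      have h1 := hm1 ⟨ψ, hψ⟩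
      have h2 : ((m ⟨ψ, hψ⟩ : ℕ) : ℂ) = b := by rw [← h1]; exact hb
      exact_mod_cast h2
    have hle2 : ∑ ψ' ∈ insert ⟨ψ, hψ⟩ T', (m ψ') ^ 2 ≤ ∑ ψ' : IrrCharacter D, (m ψ') ^ 2 :=
      Finset.sum_le_sum_of_subset (Finset.subset_univ _)
    rw [Finset.sum_insert hψT, hmψ, hsumT] at hle2
    calc Nat.card S * a ^ 2 + Nat.card T * b ^ 2
        ≤ Nat.card T * T'.card * a ^ 2 + Nat.card T * b ^ 2 :=
          Nat.add_le_add_right (Nat.mul_le_mul_right _ hcard) _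
      _ = Nat.card T * (b ^ 2 + T'.card * a ^ 2) := by ring
      _ ≤ Nat.card T * nD := by rw [hm2]; exact Nat.mul_le_mul_left _ hle2

end bessel

section ext

variable {H : Type*} [Group H] [Finite H]

/-- an invariant irreducible character of `D` extends to `X` when `X/D` is cyclic -/
theorem ext_cyclic (D X : Subgroup H) (hDX : D ≤ X)
    (hXN : X ≤ Subgroup.normalizer (D : Set H))
    (hcyc : ∃ x₀ ∈ X, ∀ x ∈ X, ∃ k : ℤ, x₀ ^ k * x ∈ D)
    (δ : D → ℂ) (hδ : IsIrrCharacter D δ) (hinv : ∀ x ∈ X, cj D x δ = δ) :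
    ∃ ζ : X → ℂ, IsIrrCharacter X ζ ∧ ∀ d : D, ζ ⟨d, hDX d.2⟩ = δ d := by
  classical
  have hn : (D.subgroupOf X).Normal := by
    constructor
    intro n hn g
    exact (Subgroup.mem_normalizer_iff.mp (hXN g.2) n).mp hn
  have hcyc' : IsCyclic (X ⧸ D.subgroupOf X) := by
    obtain ⟨x₀, hx₀, hx⟩ := hcyc
    refine ⟨⟨(QuotientGroup.mk (⟨x₀, hx₀⟩ : X) : X ⧸ D.subgroupOf X), fun q => ?_⟩⟩
    obtain ⟨x, rfl⟩ := QuotientGroup.mk_surjective q
    obtain ⟨k, hk⟩ := hx x x.2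
    refine ⟨-k, ?_⟩
    show (QuotientGroup.mk (⟨x₀, hx₀⟩ : X) : X ⧸ D.subgroupOf X) ^ (-k) = QuotientGroup.mk x
    rw [← QuotientGroup.mk_zpow, QuotientGroup.eq, Subgroup.mem_subgroupOf]
    simpa using hk
  let θ' : D.subgroupOf X → ℂ := fun n => δ ⟨(n : X), n.2⟩
  have hθ' : IsIrrCharacter (D.subgroupOf X) θ' :=
    Helper20.irr_comp_surjective (Subgroup.subgroupOfEquivOfLe hDX).toMonoidHom
      (Subgroup.subgroupOfEquivOfLe hDX).surjective hδ
  have hinv' : ∀ (g : X) (n : D.subgroupOf X), θ' (MulAut.conjNormal g n) = θ' n := by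
    intro g n
    have h1 := congrFun (hinv g g.2) ⟨(n : X), n.2⟩
    rw [cj_eq D g (hXN g.2)] at h1
    exact h1
  obtain ⟨μ, hμ, hμr⟩ := Cfsg.Agent.S4565.cyclic_ext (D.subgroupOf X) hcyc' θ' hθ' hinv'
  refine ⟨μ, hμ, fun d => ?_⟩
  exact hμr ⟨⟨d, hDX d.2⟩, d.2⟩

end ext

section grp

variable {H : Type*} [Group H] [Finite H]

omit [Finite H] in
theorem card_eq_relIndex_mul {Z X : Subgroup H} (h : Z ≤ X) :
    Nat.card X = Z.relIndex X * Nat.card Z := by
  have h1 := (Z.subgroupOf X).card_mul_index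
  rw [Nat.card_congr (Subgroup.subgroupOfEquivOfLe h).toEquiv] at h1
  rw [Subgroup.relIndex, ← h1, mul_comm]

/-- a supplement `S` of `N₀` in `N` meeting `N₀` in `D` gives a subgroup of `H ⧸ K` of index
dividing `[S : D]` and of order dividing `[H : S]`. -/
theorem asm (K : Subgroup H) [K.Normal] (D S N N₀ : Subgroup H)
    (hDK : D ≤ K) (hSN : S ≤ N) (hN₀N : N₀ ≤ N) (hDN₀ : D ≤ N₀) (hint : N₀ ⊓ S = D)
    (hsup : ∀ g ∈ N, ∃ s ∈ S, g * s⁻¹ ∈ N₀) (hfr : N ⊔ K = ⊤) :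
    ∃ M : Subgroup (H ⧸ K), M.index ∣ D.relIndex S ∧ Nat.card M ∣ S.index := by
  have hDS : D ≤ S := hint ▸ inf_le_right
  have h1 : N₀.relIndex S = N₀.relIndex N := by
    unfold Subgroup.relIndex Subgroup.index
    let f : S ⧸ N₀.subgroupOf S → N ⧸ N₀.subgroupOf N :=
      Quotient.map' (fun s : S => (⟨s, hSN s.2⟩ : N)) (by
        intro a b hab
        rw [QuotientGroup.leftRel_apply] at hab ⊢
        exact hab)
    refine Nat.card_eq_of_bijective f ⟨?_, ?_⟩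
    · intro q₁ q₂
      refine Quotient.inductionOn₂' q₁ q₂ ?_
      intro a b hab
      have hab' : (QuotientGroup.mk (⟨a, hSN a.2⟩ : N) : N ⧸ N₀.subgroupOf N) =
          QuotientGroup.mk (⟨b, hSN b.2⟩ : N) := hab
      rw [QuotientGroup.eq] at hab'
      exact QuotientGroup.eq.mpr hab'
    · intro q
      obtain ⟨n, rfl⟩ := QuotientGroup.mk_surjective q
      obtain ⟨s, hs, hns⟩ := hsup (n : H)⁻¹ (inv_mem n.2)
      refine ⟨QuotientGroup.mk (⟨s⁻¹, inv_mem hs⟩ : S), ?_⟩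
      show (QuotientGroup.mk (⟨s⁻¹, hSN (inv_mem hs)⟩ : N) : N ⧸ N₀.subgroupOf N) =
        QuotientGroup.mk n
      rw [QuotientGroup.eq, Subgroup.mem_subgroupOf]
      have h2 : ((n : H)⁻¹ * s⁻¹)⁻¹ ∈ N₀ := inv_mem hns
      simpa using h2
  have hA : N₀.relIndex S = D.relIndex S := by rw [← hint, Subgroup.inf_relIndex_right]
  have hB1 : D.relIndex N₀ * N₀.relIndex N = D.relIndex N :=
    Subgroup.relIndex_mul_relIndex D N₀ N hDN₀ hN₀N
  have hB2 : D.relIndex S * S.relIndex N = D.relIndex N :=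
    Subgroup.relIndex_mul_relIndex D S N hDS hSN
  have hne : D.relIndex S ≠ 0 := Subgroup.index_ne_zero_of_finite
  have hC : D.relIndex N₀ = S.relIndex N := by
    rw [← h1, hA] at hB1
    have h3 : D.relIndex S * D.relIndex N₀ = D.relIndex S * S.relIndex N := by
      rw [hB2, ← hB1, mul_comm]
    exact Nat.eq_of_mul_eq_mul_left (Nat.pos_of_ne_zero hne) h3
  have hD' : S.relIndex N ∣ S.index := ⟨N.index, (Subgroup.relIndex_mul_index hSN).symm⟩
  let f' : N →* H ⧸ K := (QuotientGroup.mk' K).comp N.subtype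
  have hsurj : Function.Surjective f' := by
    intro q
    obtain ⟨h, rfl⟩ := QuotientGroup.mk_surjective q
    have hh : h ∈ N ⊔ K := hfr ▸ Subgroup.mem_top h
    rw [← SetLike.mem_coe, Subgroup.mul_normal] at hh
    obtain ⟨n, hn, k, hk, rfl⟩ := Set.mem_mul.mp hh
    refine ⟨⟨n, hn⟩, ?_⟩
    show (QuotientGroup.mk n : H ⧸ K) = QuotientGroup.mk (n * k)
    rw [QuotientGroup.eq]
    simpa using hk
  refine ⟨(N₀.subgroupOf N).map f', ?_, ?_⟩
  · have h4 := Subgroup.index_map_dvd (N₀.subgroupOf N) hsurj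
    rw [← hA, h1]
    exact h4
  · have hker : f'.ker = K.subgroupOf N := by
      rw [← MonoidHom.comap_ker, QuotientGroup.ker_mk']
      rfl
    have h2 : Nat.card ((N₀.subgroupOf N).map f') = K.relIndex N₀ := by
      rw [← Subgroup.relIndex_ker, hker, Subgroup.relIndex_subgroupOf hN₀N]
    rw [h2, ← Subgroup.inf_relIndex_right]
    have h5 : (K ⊓ N₀).relIndex N₀ ∣ D.relIndex N₀ :=
      Subgroup.relIndex_dvd_of_le_left N₀ (le_inf hDK hDN₀)
    exact h5.trans (hC ▸ hD')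

/-- the Sylow data: `S/Z` a Sylow `p`-subgroup of `H/Z`, `D = S ∩ K`. -/
theorem sylow_data (Z K : Subgroup H) [Z.Normal] [K.Normal] (hZK : Z ≤ K) (p : ℕ)
    [hp : Fact p.Prime] :
    ∃ (S D : Subgroup H), Z ≤ D ∧ D ≤ S ∧ D ≤ K ∧ S ⊓ K = D ∧
      S ≤ Subgroup.normalizer (D : Set H) ∧ Subgroup.normalizer (D : Set H) ⊔ K = ⊤ ∧
      (∃ b, Z.relIndex S = p ^ b) ∧ ¬ p ∣ S.index ∧ ¬ p ∣ D.relIndex K := by
  classical
  obtain ⟨Q⟩ : Nonempty (Sylow p K) := inferInstance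
  have hQHK : (Q : Subgroup K).map K.subtype ≤ K := Subgroup.map_subtype_le _
  have hQHp : IsPGroup p ((Q : Subgroup K).map K.subtype) := Q.2.map K.subtype
  obtain ⟨S₀, hS₀⟩ := hQHp.exists_le_sylow
  have hS₀K : (S₀ : Subgroup H) ⊓ K = (Q : Subgroup K).map K.subtype := by
    have h1 : IsPGroup p (((S₀ : Subgroup H) ⊓ K).subgroupOf K) :=
      (S₀.2.to_inf_left (K := K)).comap_of_injective K.subtype K.subtype_injective
    have h2 : (Q : Subgroup K) ≤ ((S₀ : Subgroup H) ⊓ K).subgroupOf K := by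
      intro q hq
      rw [Subgroup.mem_subgroupOf]
      exact ⟨hS₀ (Subgroup.mem_map_of_mem _ hq), q.2⟩
    have h3 := Q.is_maximal' h1 h2
    rw [← h3, Subgroup.subgroupOf_map_subtype, inf_assoc, inf_idem]
  have hSK : ((S₀ : Subgroup H) ⊔ Z) ⊓ K = (Q : Subgroup K).map K.subtype ⊔ Z := by
    apply le_antisymm
    · rintro x ⟨hxS0, hxK0⟩
      have hxS : x ∈ (S₀ : Subgroup H) ⊔ Z := hxS0
      have hxK : x ∈ K := hxK0
      rw [← SetLike.mem_coe, Subgroup.mul_normal] at hxS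
      obtain ⟨s, hs, z, hz, rfl⟩ := Set.mem_mul.mp hxS
      have hsK : s ∈ K := by
        have := K.mul_mem hxK (K.inv_mem (hZK hz))
        simpa using this
      have hsQ : s ∈ (Q : Subgroup K).map K.subtype := hS₀K ▸ ⟨hs, hsK⟩
      exact Subgroup.mul_mem_sup hsQ hz
    · exact le_inf (sup_le_sup_right hS₀ Z) (sup_le hQHK hZK)
  refine ⟨(S₀ : Subgroup H) ⊔ Z, (Q : Subgroup K).map K.subtype ⊔ Z, le_sup_right,
    sup_le_sup_right hS₀ Z, sup_le hQHK hZK, hSK, ?_, ?_, ?_, ?_, ?_⟩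
  · rw [← hSK, Subgroup.le_normalizer_iff]
    rintro s hs d ⟨hdS0, hdK0⟩
    have hdS : d ∈ (S₀ : Subgroup H) ⊔ Z := hdS0
    have hdK : d ∈ K := hdK0
    have h1 : s * d * s⁻¹ ∈ (S₀ : Subgroup H) ⊔ Z := mul_mem (mul_mem hs hdS) (inv_mem hs)
    have h2 : s * d * s⁻¹ ∈ K := ‹K.Normal›.conj_mem d hdK s
    exact ⟨h1, h2⟩
  · have hle : Subgroup.normalizer (((Q : Subgroup K).map K.subtype : Subgroup H) : Set H) ≤
        Subgroup.normalizer ((((Q : Subgroup K).map K.subtype ⊔ Z : Subgroup H)) : Set H) := by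
      intro g hg
      apply Subgroup.mem_normalizer_fintype
      intro x hx
      rw [SetLike.mem_coe, ← SetLike.mem_coe, Subgroup.mul_normal] at hx
      obtain ⟨q, hq, z, hz, rfl⟩ := Set.mem_mul.mp hx
      have h1 : g * q * g⁻¹ ∈ (Q : Subgroup K).map K.subtype :=
        (Subgroup.mem_normalizer_iff.mp hg q).mp hq
      have h2 : g * z * g⁻¹ ∈ Z := ‹Z.Normal›.conj_mem z hz g
      have h3 : g * (q * z) * g⁻¹ = (g * q * g⁻¹) * (g * z * g⁻¹) := by group
      rw [SetLike.mem_coe, h3]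
      exact Subgroup.mul_mem_sup h1 h2
    have hfr := Sylow.normalizer_sup_eq_top Q
    exact top_le_iff.mp (hfr ▸ sup_le_sup_right hle K)
  · have h1 : Z.relIndex ((S₀ : Subgroup H) ⊔ Z) = Z.relIndex (S₀ : Subgroup H) :=
      Subgroup.relIndex_sup_right (S₀ : Subgroup H) Z
    have h2 : Z.relIndex (S₀ : Subgroup H) ∣ Nat.card (S₀ : Subgroup H) :=
      Subgroup.relIndex_dvd_card Z (S₀ : Subgroup H)
    rw [Sylow.card_eq_multiplicity] at h2
    obtain ⟨b, -, hb⟩ := (Nat.dvd_prime_pow hp.out).mp h2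
    exact ⟨b, h1 ▸ hb⟩
  · intro h
    exact S₀.not_dvd_index (h.trans (Subgroup.index_dvd_of_le le_sup_left))
  · intro h
    have h1 : ((Q : Subgroup K).map K.subtype ⊔ Z).relIndex K ∣
        ((Q : Subgroup K).map K.subtype).relIndex K :=
      Subgroup.relIndex_dvd_of_le_left K le_sup_left
    have h2 : ((Q : Subgroup K).map K.subtype).relIndex K = (Q : Subgroup K).index := by
      rw [Subgroup.relIndex]
      congr 1
      exact Subgroup.comap_map_eq_self_of_injective K.subtype_injective _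
    exact Q.not_dvd_index (h2 ▸ h.trans h1)

end grp

section adjsec

variable {H : Type*} [Group H]

/-- the subgroup generated by `D` and a normalizing element `s` -/
def adj (D : Subgroup H) (s : H) (hs : s ∈ Subgroup.normalizer (D : Set H)) : Subgroup H where
  carrier := {x | ∃ k : ℤ, s ^ k * x ∈ D}
  one_mem' := ⟨0, by simp [one_mem]⟩
  mul_mem' := by
    rintro x y ⟨k, hk⟩ ⟨l, hl⟩
    refine ⟨l + k, ?_⟩
    have hl' : s ^ l ∈ Subgroup.normalizer (D : Set H) := zpow_mem hs l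
    have h1 : s ^ l * (s ^ k * x) * (s ^ l)⁻¹ ∈ D :=
      (Subgroup.mem_normalizer_iff.mp hl' _).mp hk
    have h2 : s ^ (l + k) * (x * y) = (s ^ l * (s ^ k * x) * (s ^ l)⁻¹) * (s ^ l * y) := by
      rw [zpow_add]; group
    rw [h2]; exact mul_mem h1 hl
  inv_mem' := by
    rintro x ⟨k, hk⟩
    refine ⟨-k, ?_⟩
    have hk' : s ^ (-k) ∈ Subgroup.normalizer (D : Set H) := zpow_mem hs _
    have h1 : s ^ (-k) * (s ^ k * x)⁻¹ * (s ^ (-k))⁻¹ ∈ D :=
      (Subgroup.mem_normalizer_iff.mp hk' _).mp (inv_mem hk)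
    have h2 : s ^ (-k) * x⁻¹ = s ^ (-k) * (s ^ k * x)⁻¹ * (s ^ (-k))⁻¹ := by group
    rw [h2]; exact h1

theorem mem_adj (D : Subgroup H) (s : H) (hs : s ∈ Subgroup.normalizer (D : Set H)) (x : H) :
    x ∈ adj D s hs ↔ ∃ k : ℤ, s ^ k * x ∈ D := Iff.rfl

theorem le_adj (D : Subgroup H) (s : H) (hs : s ∈ Subgroup.normalizer (D : Set H)) :
    D ≤ adj D s hs := fun x hx => ⟨0, by simpa using hx⟩

theorem self_mem_adj (D : Subgroup H) (s : H) (hs : s ∈ Subgroup.normalizer (D : Set H)) :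
    s ∈ adj D s hs := ⟨-1, by simp [one_mem]⟩

theorem adj_le (D : Subgroup H) (s : H) (hs : s ∈ Subgroup.normalizer (D : Set H))
    {T : Subgroup H} (hDT : D ≤ T) (hsT : s ∈ T) : adj D s hs ≤ T := by
  rintro x ⟨k, hk⟩
  have h1 : (s ^ k)⁻¹ * (s ^ k * x) ∈ T := mul_mem (inv_mem (zpow_mem hsT k)) (hDT hk)
  simpa using h1

/-- the standing data -/
structure Data (p : ℕ) (Z D S : Subgroup H) (χ : H → ℂ) (θ : Z → ℂ) (e m b : ℕ) : Prop where
  hZD : Z ≤ D
  hDS : D ≤ S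
  hSN : S ≤ Subgroup.normalizer (D : Set H)
  hχ : IsCharacter H χ
  hvan : ∀ h, h ∉ Z → χ h = 0
  hθ : IsIrrCharacter Z θ
  hres : ∀ z : Z, χ z = (e : ℂ) * θ z
  he : e ^ 2 = m * p ^ b
  hm : m.Coprime p
  hp : p.Prime
  hSp : ∀ X : Subgroup H, Z ≤ X → X ≤ S → ∃ i, Nat.card X = p ^ i * Nat.card Z
  hnorm : e ^ 2 * Nat.card Z = m * Nat.card S

theorem arith1 {cS cD cX a a' nD m : ℕ} (hS : 0 < cS) (hD : 0 < cD) (ha : a ≠ 0)
    (h1 : cS * a ^ 2 ≤ cX * nD) (h2 : cD * nD = m * cS) (h3 : m ≤ a' ^ 2)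
    (h4 : cX * a' = cD * a) : cX ≤ cD := by
  have e1 : cS * (a ^ 2 * cD) ≤ cS * (cX * m) := by
    calc cS * (a ^ 2 * cD) = (cS * a ^ 2) * cD := by ring
      _ ≤ (cX * nD) * cD := Nat.mul_le_mul_right _ h1
      _ = cX * (cD * nD) := by ring
      _ = cS * (cX * m) := by rw [h2]; ring
  have e2 : a ^ 2 * cD ≤ cX * m := Nat.le_of_mul_le_mul_left e1 hS
  have e3 : a ^ 2 * cD ≤ cX * a' ^ 2 := e2.trans (Nat.mul_le_mul_left _ h3)
  have e4 : (cD * a ^ 2) * cX ≤ (cD * a ^ 2) * cD := by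
    calc (cD * a ^ 2) * cX = cX * (a ^ 2 * cD) := by ring
      _ ≤ cX * (cX * a' ^ 2) := Nat.mul_le_mul_left _ e3
      _ = (cX * a') ^ 2 := by ring
      _ = (cD * a) ^ 2 := by rw [h4]
      _ = (cD * a ^ 2) * cD := by ring
  exact Nat.le_of_mul_le_mul_left e4 (Nat.mul_pos hD (by positivity))

theorem arith2 {p cX cD cZ a a' i j : ℕ} (hp : p.Prime) (hZ : 0 < cZ) (h : cX * a' = cD * a)
    (hi : cX = p ^ i * cZ) (hj : cD = p ^ j * cZ) (hlt : cD < cX) : p ∣ a := by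
  subst hi hj
  have h1 : p ^ j < p ^ i := Nat.lt_of_mul_lt_mul_right hlt
  have h2 : j < i := (Nat.pow_lt_pow_iff_right hp.one_lt).mp h1
  obtain ⟨d, rfl⟩ : ∃ d, i = j + d + 1 := ⟨i - j - 1, by omega⟩
  have h3 : (p ^ j * cZ) * (p * (p ^ d * a')) = (p ^ j * cZ) * a := by rw [← h]; ring
  have h4 := Nat.eq_of_mul_eq_mul_left (Nat.mul_pos (pow_pos hp.pos j) hZ) h3
  exact ⟨_, h4.symm⟩

/-- a constituent with multiplicity prime to `p` -/
theorem exists_constituent_not_dvd {D : Type*} [Group D] [Fintype D] (ψ φ : D → ℂ)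
    (hψ : IsCharacter D ψ) (hφ : IsCharacter D φ) (p c : ℕ) (hc : classInner ψ φ = c)
    (hpc : ¬ p ∣ c) :
    ∃ δ : D → ℂ, IsIrrCharacter D δ ∧ ∃ a : ℕ, classInner ψ δ = a ∧ ¬ p ∣ a := by
  classical
  have hfin := Helper4.irr_finite (G := D)
  let _ : Fintype (IrrCharacter D) := Fintype.ofFinite _
  obtain ⟨m, hm⟩ := Helper4.exists_decomp_of_isCharacter _ hψ
  obtain ⟨n, hn⟩ := Helper4.exists_decomp_of_isCharacter _ hφ
  have hm1 : ∀ δ : IrrCharacter D, classInner ψ (δ : D → ℂ) = m δ := by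
    intro δ
    rw [hm]
    exact Helper4.classInner_sum_irr _ δ
  by_contra hcon
  push Not at hcon
  have hall : ∀ δ : IrrCharacter D, p ∣ m δ := fun δ => hcon δ δ.2 (m δ) (hm1 δ)
  have h1 : classInner ψ φ = ∑ δ : IrrCharacter D, (m δ : ℂ) * conj (n δ : ℂ) := by
    rw [hm, hn]
    exact Helper4.classInner_sum_sum_irr _ _
  have h2 : (c : ℂ) = ((∑ δ : IrrCharacter D, m δ * n δ : ℕ) : ℂ) := by
    rw [← hc, h1]
    push_cast
    refine Finset.sum_congr rfl fun δ _ => ?_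
    rw [Complex.conj_natCast]
  have h3 : c = ∑ δ : IrrCharacter D, m δ * n δ := by exact_mod_cast h2
  exact hpc (h3 ▸ Finset.dvd_sum fun δ _ => Dvd.dvd.mul_right (hall δ) _)

/-- multiplicities of an extension -/
theorem ext_mult (Z : Subgroup H) [Fintype Z] (χ : H → ℂ) (hvan : ∀ h, h ∉ Z → χ h = 0)
    (θ : Z → ℂ) (e : ℂ) (hres : ∀ z : Z, χ z = e * θ z) (D X : Subgroup H) [Fintype D]
    [Fintype X] (hZD : Z ≤ D) (hDX : D ≤ X) (δ : D → ℂ) (ζ : X → ℂ)
    (hζ : ∀ d : D, ζ ⟨d, hDX d.2⟩ = δ d) :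
    (Nat.card X : ℂ) * classInner (fun x : X => χ x) ζ =
      (Nat.card D : ℂ) * classInner (fun d : D => χ d) δ := by
  rw [inner_res Z χ hvan θ e hres X (hZD.trans hDX) ζ, inner_res Z χ hvan θ e hres D hZD δ]
  have h : (fun z : Z => ζ ⟨z, (hZD.trans hDX) z.2⟩) = (fun z : Z => δ ⟨z, hZD z.2⟩) := by
    funext z
    exact hζ ⟨z, hZD z.2⟩
  rw [h]

end adjsec

section finders

variable {H : Type*} [Group H] [Finite H]

omit [Finite H] in
theorem Data.normD {p : ℕ} {Z D S : Subgroup H} {χ : H → ℂ} {θ : Z → ℂ} {e m b : ℕ}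
    (hd : Data p Z D S χ θ e m b) [Fintype Z] [Fintype D] :
    ∃ nD : ℕ, classInner (fun d : D => χ d) (fun d : D => χ d) = nD ∧
      Nat.card D * nD = m * Nat.card S := by
  obtain ⟨nD, hnD⟩ := Helper35.classInner_char_nat (Helper35.isCharacter_res D hd.hχ)
    (Helper35.isCharacter_res D hd.hχ)
  have hnD' : classInner (fun d : D => χ d) (fun d : D => χ d) = nD := hnD
  refine ⟨nD, hnD', ?_⟩
  have h := norm_res Z χ hd.hvan θ hd.hθ e hd.hres D hd.hZD
  rw [hnD'] at h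
  have h2 : (Nat.card D * nD : ℕ) = e ^ 2 * Nat.card Z := by exact_mod_cast h
  rw [h2, hd.hnorm]

theorem Data.stab_le_of_cyclic {p : ℕ} {Z D S : Subgroup H} {χ : H → ℂ} {θ : Z → ℂ}
    {e m b : ℕ} (hd : Data p Z D S χ θ e m b) [Fintype Z] [Fintype D]
    (hcyc : ∀ X : Subgroup H, D ≤ X → X ≤ S → ∃ x₀ ∈ X, ∀ x ∈ X, ∃ k : ℤ, x₀ ^ k * x ∈ D)
    (δ : D → ℂ) (hδ : IsIrrCharacter D δ) (a : ℕ) (ha : classInner (fun d : D => χ d) δ = a)
    (ha0 : a ≠ 0) : ∀ s ∈ S, cj D s δ = δ → s ∈ D := by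
  classical
  intro s hs hsδ
  let X : Subgroup H := stab D δ ⊓ S
  let _ : Fintype X := Fintype.ofFinite X
  have hδcf : IsClassFunction D δ :=
    Helper35.isClassFunction_of_isCharacter (Helper35.isChar_of_irr hδ)
  have hDX : D ≤ X := le_inf (le_stab D hδcf) hd.hDS
  have hXS : X ≤ S := inf_le_right
  have hXN : X ≤ Subgroup.normalizer (D : Set H) := hXS.trans hd.hSN
  have hinv : ∀ x ∈ X, cj D x δ = δ := fun x hx =>
    ((mem_stab D δ x).mp (Subgroup.mem_inf.mp hx).1).2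
  obtain ⟨ζ, hζ, hζr⟩ := ext_cyclic D X hDX hXN (hcyc X hDX hXS) δ hδ hinv
  obtain ⟨a', r', ha', hr'⟩ := exists_nat Z χ hd.hχ hd.hvan θ hd.hθ e hd.hres X
    (hd.hZD.trans hDX) ζ (Helper35.isChar_of_irr hζ)
  have hmul := ext_mult Z χ hd.hvan θ (e : ℂ) hd.hres D X hd.hZD hDX δ ζ hζr
  rw [ha', ha] at hmul
  have hmul' : Nat.card X * a' = Nat.card D * a := by exact_mod_cast hmul
  have ha'0 : a' ≠ 0 := by
    rintro rfl
    rw [mul_zero] at hmul'
    have : 0 < Nat.card D * a := Nat.mul_pos Nat.card_pos (Nat.pos_of_ne_zero ha0)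
    omega
  obtain ⟨i, hi⟩ := hd.hSp X (hd.hZD.trans hDX) hXS
  have hlb : m ≤ a' ^ 2 := lower_bound (Nat.card_pos (α := Z)) hr' hi hd.he hd.hm ha'0
  obtain ⟨nD, hnD, hnD2⟩ := hd.normD
  have hsX : s ∈ X := Subgroup.mem_inf.mpr ⟨⟨hd.hSN hs, hsδ⟩, hs⟩
  have hb := (bessel D S X hd.hSN hd.hχ δ hδ
    (fun s hs hsδ => Subgroup.mem_inf.mpr ⟨⟨hd.hSN hs, hsδ⟩, hs⟩) a nD ha hnD).1
  have hle : Nat.card X ≤ Nat.card D :=
    arith1 (Nat.card_pos (α := S)) (Nat.card_pos (α := D)) ha0 hb hnD2 hlb hmul'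
  have hXD : D = X := Subgroup.eq_of_le_of_card_ge hDX hle
  exact (le_of_eq hXD.symm) hsX

theorem Data.stab_le_of_not_dvd {p : ℕ} {Z D S : Subgroup H} {χ : H → ℂ} {θ : Z → ℂ}
    {e m b : ℕ} (hd : Data p Z D S χ θ e m b) [Fintype Z] [Fintype D]
    (δ : D → ℂ) (hδ : IsIrrCharacter D δ) (a : ℕ) (ha : classInner (fun d : D => χ d) δ = a)
    (hpa : ¬ p ∣ a) : ∀ s ∈ S, cj D s δ = δ → s ∈ D := by
  classical
  intro s hs hsδ
  by_contra hsD
  have hsN := hd.hSN hs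
  let X : Subgroup H := adj D s hsN
  let _ : Fintype X := Fintype.ofFinite X
  have hδcf : IsClassFunction D δ :=
    Helper35.isClassFunction_of_isCharacter (Helper35.isChar_of_irr hδ)
  have hDX : D ≤ X := le_adj D s hsN
  have hsX : s ∈ X := self_mem_adj D s hsN
  have hXS : X ≤ S := adj_le D s hsN hd.hDS hs
  have hXN : X ≤ Subgroup.normalizer (D : Set H) := hXS.trans hd.hSN
  have hXst : X ≤ stab D δ := adj_le D s hsN (le_stab D hδcf) ⟨hsN, hsδ⟩
  have hinv : ∀ x ∈ X, cj D x δ = δ := fun x hx => ((mem_stab D δ x).mp (hXst hx)).2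
  obtain ⟨ζ, hζ, hζr⟩ := ext_cyclic D X hDX hXN ⟨s, hsX, fun x hx => hx⟩ δ hδ hinv
  obtain ⟨a', r', ha', -⟩ := exists_nat Z χ hd.hχ hd.hvan θ hd.hθ e hd.hres X
    (hd.hZD.trans hDX) ζ (Helper35.isChar_of_irr hζ)
  have hmul := ext_mult Z χ hd.hvan θ (e : ℂ) hd.hres D X hd.hZD hDX δ ζ hζr
  rw [ha', ha] at hmul
  have hmul' : Nat.card X * a' = Nat.card D * a := by exact_mod_cast hmul
  obtain ⟨i, hi⟩ := hd.hSp X (hd.hZD.trans hDX) hXS
  obtain ⟨j, hj⟩ := hd.hSp D hd.hZD hd.hDS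
  have hlt : Nat.card D < Nat.card X := by
    by_contra hle
    push Not at hle
    have hXD : D = X := Subgroup.eq_of_le_of_card_ge hDX hle
    exact hsD ((le_of_eq hXD.symm) hsX)
  exact hpa (arith2 hd.hp (Nat.card_pos (α := Z)) hmul' hi hj hlt)

theorem Data.orbit_all {p : ℕ} {Z D S : Subgroup H} {χ : H → ℂ} {θ : Z → ℂ}
    {e m b : ℕ} (hd : Data p Z D S χ θ e m b) [Fintype Z] [Fintype D]
    (δ : D → ℂ) (hδ : IsIrrCharacter D δ) (a : ℕ) (ha : classInner (fun d : D => χ d) δ = a)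
    (ha0 : a ≠ 0) (hst : ∀ s ∈ S, cj D s δ = δ → s ∈ D) :
    ∀ g ∈ Subgroup.normalizer (D : Set H), ∃ s ∈ S, cj D g δ = cj D s δ := by
  classical
  intro g hg
  by_contra hne
  push Not at hne
  obtain ⟨a', r', ha', hr'⟩ := exists_nat Z χ hd.hχ hd.hvan θ hd.hθ e hd.hres D hd.hZD δ
    (Helper35.isChar_of_irr hδ)
  have haa : a' = a := by
    have : (a' : ℂ) = a := by rw [← ha', ha]
    exact_mod_cast this
  rw [haa] at hr'
  obtain ⟨j, hj⟩ := hd.hSp D hd.hZD hd.hDS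
  have hlb : m ≤ a ^ 2 := lower_bound (Nat.card_pos (α := Z)) hr' hj hd.he hd.hm ha0
  obtain ⟨nD, hnD, hnD2⟩ := hd.normD
  have hχcf := Helper35.isClassFunction_of_isCharacter hd.hχ
  have hb := (bessel D S D hd.hSN hd.hχ δ hδ hst a nD ha hnD).2 (cj D g δ) (cj_irr D g hg hδ) a
    (by rw [classInner_res_cj D g hg hχcf, ha]) (fun s hs => hne s hs)
  rw [hnD2] at hb
  have h1 : m * Nat.card S ≤ a ^ 2 * Nat.card S := Nat.mul_le_mul_right _ hlb
  have h2 : 0 < Nat.card D * a ^ 2 := Nat.mul_pos Nat.card_pos (by positivity)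
  nlinarith [hb, h1, h2]

theorem Data.exists_compl {p : ℕ} {Z D S : Subgroup H} {χ : H → ℂ} {θ : Z → ℂ}
    {e m b : ℕ} (hd : Data p Z D S χ θ e m b) [Fintype Z] [Fintype D]
    (K : Subgroup H) [K.Normal] (hDK : D ≤ K)
    (hfr : Subgroup.normalizer (D : Set H) ⊔ K = ⊤)
    (δ : D → ℂ) (hδ : IsIrrCharacter D δ) (a : ℕ) (ha : classInner (fun d : D => χ d) δ = a)
    (ha0 : a ≠ 0) (hst : ∀ s ∈ S, cj D s δ = δ → s ∈ D) :
    ∃ M : Subgroup (H ⧸ K), M.index ∣ D.relIndex S ∧ Nat.card M ∣ S.index := by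
  have hδcf : IsClassFunction D δ :=
    Helper35.isClassFunction_of_isCharacter (Helper35.isChar_of_irr hδ)
  refine asm K D S (Subgroup.normalizer (D : Set H)) (stab D δ) hDK hd.hSN (fun g hg => hg.1)
    (le_stab D hδcf) ?_ ?_ hfr
  · apply le_antisymm
    · intro g hg
      obtain ⟨hg1, hg2⟩ := Subgroup.mem_inf.mp hg
      exact hst g hg2 ((mem_stab D δ g).mp hg1).2
    · exact le_inf (le_stab D hδcf) hd.hDS
  · intro g hg
    obtain ⟨s, hs, hgs⟩ := hd.orbit_all δ hδ a ha ha0 hst g hg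
    have hsN := hd.hSN hs
    refine ⟨s, hs, mul_mem hg (inv_mem hsN), ?_⟩
    rw [← cj_cj D s⁻¹ g (inv_mem hsN) hg, hgs, cj_cj D s⁻¹ s (inv_mem hsN) hsN,
      mul_inv_cancel, cj_one]

theorem mk_data (p : ℕ) (hp : p.Prime) (Z D S : Subgroup H) (χ : H → ℂ)
    (hχ : IsIrrCharacter H χ) (θ : Z → ℂ) (hθ : IsIrrCharacter Z θ) (e : ℕ)
    (he : e ^ 2 = Z.index) (hres : ∀ z : Z, χ z = (e : ℂ) * θ z) (hZD : Z ≤ D) (hDS : D ≤ S)
    (hSN : S ≤ Subgroup.normalizer (D : Set H)) (b : ℕ) (hb : Z.relIndex S = p ^ b)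
    (hpS : ¬ p ∣ S.index) : Data p Z D S χ θ e S.index b := by
  classical
  let _ : Fintype H := Fintype.ofFinite H
  let _ : Fintype Z := Fintype.ofFinite Z
  have hZS := hZD.trans hDS
  refine ⟨hZD, hDS, hSN, Helper35.isChar_of_irr hχ,
    Cfsg.Agent.S4565.vanish_off Z χ hχ θ hθ e he hres, hθ, hres, ?_, ?_, hp, ?_, ?_⟩
  · rw [he, ← Subgroup.relIndex_mul_index hZS, hb, mul_comm]
  · exact ((Nat.Prime.coprime_iff_not_dvd hp).mpr hpS).symm
  · intro X hZX hXS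
    have h1 : Z.relIndex X ∣ p ^ b :=
      hb ▸ Dvd.intro _ (Subgroup.relIndex_mul_relIndex Z X S hZX hXS)
    obtain ⟨i, -, hi⟩ := (Nat.dvd_prime_pow hp).mp h1
    exact ⟨i, by rw [card_eq_relIndex_mul hZX, hi]⟩
  · rw [he, Subgroup.index_mul_card, Subgroup.index_mul_card]

/-- cyclicity of the sections `X/D` from a cyclic Sylow subgroup of `H ⧸ K` -/
theorem cyc_data (K : Subgroup H) [K.Normal] (p : ℕ) [hp : Fact p.Prime]
    (P : Sylow p (H ⧸ K)) (hcyc : IsCyclic P) (Z D S : Subgroup H) (hZK : Z ≤ K)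
    (hSK : S ⊓ K = D) (hZD : Z ≤ D) (b : ℕ) (hb : Z.relIndex S = p ^ b) :
    ∀ X : Subgroup H, D ≤ X → X ≤ S → ∃ x₀ ∈ X, ∀ x ∈ X, ∃ k : ℤ, x₀ ^ k * x ∈ D := by
  classical
  intro X hDX hXS
  have hZX : Z ≤ X := hZD.trans hDX
  have hcard : Nat.card (X.map (QuotientGroup.mk' K)) ∣ p ^ b := by
    have h1 : Nat.card (X.map (QuotientGroup.mk' K)) = K.relIndex X := by
      rw [← Subgroup.relIndex_ker, QuotientGroup.ker_mk']
    rw [h1]
    have h2 : K.relIndex X ∣ Z.relIndex X := Subgroup.relIndex_dvd_of_le_left X hZK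
    have h3 : Z.relIndex X ∣ Z.relIndex S :=
      Dvd.intro _ (Subgroup.relIndex_mul_relIndex Z X S hZX hXS)
    exact h2.trans (hb ▸ h3)
  obtain ⟨i, -, hi⟩ := (Nat.dvd_prime_pow hp.out).mp hcard
  have hpg : IsPGroup p (X.map (QuotientGroup.mk' K)) := IsPGroup.of_card hi
  obtain ⟨P', hP'⟩ := hpg.exists_le_sylow
  obtain ⟨g, hg⟩ := MulAction.exists_smul_eq (H ⧸ K) P' P
  have hcyc' : IsCyclic (P' : Subgroup (H ⧸ K)) := by
    have e1 := Sylow.equivSMul P' g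
    rw [hg] at e1
    exact (MulEquiv.isCyclic e1).mpr hcyc
  have hcycX : IsCyclic (X.map (QuotientGroup.mk' K)) :=
    isCyclic_of_injective (Subgroup.inclusion hP') (Subgroup.inclusion_injective hP')
  obtain ⟨⟨gbar, hgbar⟩, hgen⟩ := hcycX.exists_generator
  obtain ⟨x₀, hx₀, rfl⟩ := Subgroup.mem_map.mp hgbar
  refine ⟨x₀, hx₀, fun x hx => ?_⟩
  obtain ⟨k, hk⟩ := Subgroup.mem_zpowers_iff.mp
    (hgen ⟨QuotientGroup.mk' K x, Subgroup.mem_map_of_mem _ hx⟩)
  refine ⟨-k, ?_⟩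
  have hk' : (QuotientGroup.mk' K x₀) ^ k = QuotientGroup.mk' K x := by
    have := congrArg Subtype.val hk
    simpa using this
  have h4 : x₀ ^ (-k) * x ∈ K := by
    have h5 : (QuotientGroup.mk (x₀ ^ k) : H ⧸ K) = QuotientGroup.mk x := by
      rw [QuotientGroup.mk_zpow]; exact hk'
    rw [QuotientGroup.eq] at h5
    simpa [zpow_neg] using h5
  have h6 : x₀ ^ (-k) * x ∈ S := hXS (mul_mem (zpow_mem hx₀ _) hx)
  exact hSK ▸ Subgroup.mem_inf.mpr ⟨h6, h4⟩

end finders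

section induced

variable {H : Type*} [Group H] [Fintype H]

/-- the multiplicity pairing of `χ = ind φ` with `φ` on `D` -/
theorem ind_inner (Z K D : Subgroup H) [Fintype Z] [Fintype K] [Fintype D] (χ : H → ℂ)
    (hχ : IsIrrCharacter H χ) (hvan : ∀ h, h ∉ Z → χ h = 0) (θ : Z → ℂ) (e : ℂ)
    (hres : ∀ z : Z, χ z = e * θ z) (hZD : Z ≤ D) (hDK : D ≤ K) (φ : K → ℂ)
    (hind : indFun K φ = χ) :
    classInner (fun d : D => χ d) (fun d : D => φ ⟨d, hDK d.2⟩) = (D.relIndex K : ℕ) := by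
  have hχcf := Helper35.isClassFunction_of_isCharacter (Helper35.isChar_of_irr hχ)
  have h1 : classInner (fun x : K => χ x) φ = 1 := by
    have h := Helper35.frobenius_reciprocity' K φ χ hχcf
    rw [hind, Helper35.classInner_irr' hχ hχ, if_pos rfl] at h
    exact h.symm
  have h2 := inner_res Z χ hvan θ e hres K (hZD.trans hDK) φ
  have h3 := inner_res Z χ hvan θ e hres D hZD (fun d : D => φ ⟨d, hDK d.2⟩)
  rw [h1, mul_one] at h2
  have h4 : (Nat.card D : ℂ) * classInner (fun d : D => χ d) (fun d : D => φ ⟨d, hDK d.2⟩) =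
      (Nat.card K : ℂ) := h3.trans h2.symm
  rw [card_eq_relIndex_mul hDK] at h4
  push_cast at h4
  have hD : (Nat.card D : ℂ) ≠ 0 := by exact_mod_cast (Nat.card_pos (α := D)).ne'
  exact mul_left_cancel₀ hD (by rw [h4]; ring)

end induced

end Cfsg.Agent.Lib.Helper80.FullRam
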